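-- helper83: piece LINE of CALL S1906 (helper14), double: a finite `2`-group acting on a `3`-space
-- over a finite field of odd order fixes a line.
import Mathlib

set_option autoImplicit false
set_option linter.style.haveILetI false

namespace Cfsg.Agent.Helper83.S1906P

variable {F : Type*} [Field F] {V : Type*} [AddCommGroup V] [Module F V] {P : Type*} [Group P]

open scoped LinearAlgebra.Projectivization in
/-- LINE. -/
theorem s1906_line [Fintype F] [Finite P] (hF : Odd (Fintype.card F)) (hP : IsPGroup 2 P)
    (hV : Module.finrank F V = 3) (ρ : Representation F P V) :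
    ∃ L : Submodule F V, Module.finrank F L = 1 ∧ ∀ x : P, ∀ v ∈ L, ρ x v ∈ L := by
  classical
  haveI : Module.Finite F V := Module.finite_of_finrank_pos (by rw [hV]; norm_num)
  haveI : Finite V := Module.finite_of_finite F
  letI act : DistribMulAction P V := DistribMulAction.compHom V (ρ : P →* Module.End F V)
  have hsmul : ∀ (x : P) (v : V), x • v = ρ x v := fun _ _ => rfl
  haveI : SMulCommClass P F V := ⟨fun x c v => by
    rw [hsmul, hsmul, map_smul]⟩
  haveI : Fact (Nat.Prime 2) := ⟨Nat.prime_two⟩
  have hmod := hP.card_modEq_card_fixedPoints (ℙ F V)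
  have hcard : Nat.card (ℙ F V) = ∑ i ∈ Finset.range 3, Nat.card F ^ i :=
    Projectivization.card_of_finrank F V hV
  have hodd : Nat.card (ℙ F V) % 2 = 1 := by
    rw [hcard, Nat.card_eq_fintype_card]
    obtain ⟨k, hk⟩ := hF
    rw [hk]
    simp only [Finset.sum_range_succ, Finset.sum_range_zero, pow_zero, pow_one, zero_add]
    have e : 1 + (2 * k + 1) + (2 * k + 1) ^ 2 = 2 * (2 * k * k + 3 * k + 1) + 1 := by ring
    rw [e]
    omega
  have hfix : Nat.card (MulAction.fixedPoints P (ℙ F V)) ≠ 0 := by
    intro h0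
    have h1 : Nat.card (ℙ F V) % 2 = Nat.card (MulAction.fixedPoints P (ℙ F V)) % 2 := hmod
    rw [h0, hodd] at h1
    omega
  have hne : Nonempty (MulAction.fixedPoints P (ℙ F V)) := by
    by_contra hempty
    rw [not_nonempty_iff] at hempty
    exact hfix Nat.card_of_isEmpty
  obtain ⟨⟨p, hp⟩⟩ := hne
  rw [MulAction.mem_fixedPoints] at hp
  refine ⟨Submodule.span F {p.rep}, finrank_span_singleton p.rep_nonzero, ?_⟩
  intro x v hv
  obtain ⟨c, rfl⟩ := Submodule.mem_span_singleton.mp hv
  have h1 := hp x
  rw [← p.mk_rep, Projectivization.smul_mk, Projectivization.mk_eq_mk_iff] at h1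
  obtain ⟨a, ha⟩ := h1
  rw [map_smul]
  apply Submodule.smul_mem
  have h2 : ρ x p.rep = x • p.rep := (hsmul x p.rep).symm
  rw [h2, ← ha, Units.smul_def]
  exact Submodule.smul_mem _ _ (Submodule.mem_span_singleton_self _)

end Cfsg.Agent.Helper83.S1906P
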