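import Mathlib
import Cfsg.Agent.Helper21.N2RDefs

set_option autoImplicit false

namespace Cfsg.Agent.Helper83.N2RCEN

open Matrix Cfsg.Agent.Helper21.N2R

/-- CEN -/
theorem A0_commute_of_fE_commute {m ν : Type*} [Fintype m] [DecidableEq m] [DecidableEq ν]
    {F : Type*} [Field F] (π : m → ν) (t : GL m F)
    (ht : ∀ k, (t : Matrix m m F) * fE π k = fE π k * (t : Matrix m m F)) (a : GL m F)
    (ha : a ∈ A0 F π) :
    t * a = a * t := by
  obtain ⟨ε, rfl⟩ := (mem_A0_iff F π a).mp ha
  apply Units.ext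
  rw [Units.val_mul, Units.val_mul, sgn_val]
  ext i j
  rw [Matrix.mul_diagonal, Matrix.diagonal_mul]
  have h1 := congrFun (congrFun (ht (π j)) i) j
  simp only [fE, Matrix.mul_diagonal, Matrix.diagonal_mul] at h1
  by_cases hij : π i = π j
  · rw [hij, mul_comm]
  · simp only [hij, if_false, if_true, mul_one, zero_mul] at h1
    rw [h1]; simp

end Cfsg.Agent.Helper83.N2RCEN
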