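import Mathlib
import Cfsg.Agent.Helper21.N2RDefs

set_option autoImplicit false

namespace Cfsg.Agent.Helper83.N2RRK1

open Matrix Cfsg.Agent.Helper21.N2R

/-- RK1 -/
theorem scalar_of_singleton_fibre {m ν : Type*} [Fintype m] [DecidableEq m] [DecidableEq ν]
    {F : Type*} [Field F] (π : m → ν) (k : ν) (j : m) (hj : ∀ i, π i = k ↔ i = j)
    (a : Matrix m m F) (hE : a * fE π k = fE π k * a) : a * fE π k = a j j • fE π k := by
  ext i l
  have h1 := congrFun (congrFun hE i) l
  simp only [fE, Matrix.mul_diagonal, Matrix.diagonal_mul, Matrix.smul_apply,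
    Matrix.diagonal_apply, smul_eq_mul, hj] at h1 ⊢
  by_cases hl : l = j
  · subst hl
    by_cases hi : i = l
    · subst hi; simp
    · simp only [hi, if_false, if_true, mul_one, zero_mul, mul_zero] at h1 ⊢
      exact h1
  · simp only [hl, if_false, mul_zero]
    by_cases hi : i = l
    · subst hi; simp [hl]
    · simp [hi]

end Cfsg.Agent.Helper83.N2RRK1
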