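import Mathlib
import Cfsg.Agent.Helper21.N2RDefs

set_option autoImplicit false

namespace Cfsg.Agent.Helper83.N2RSUM

open Matrix Cfsg.Agent.Helper21.N2R

/-- SUM -/
theorem fE_sum {m ν : Type*} [Fintype m] [DecidableEq m] [Fintype ν] [DecidableEq ν]
    {F : Type*} [Field F] (π : m → ν) : ∑ k, (fE π k : Matrix m m F) = 1 := by
  ext i j
  rw [Matrix.sum_apply]
  simp only [fE, Matrix.diagonal_apply, Matrix.one_apply]
  by_cases hij : i = j
  · simp [hij]
  · simp [hij]

end Cfsg.Agent.Helper83.N2RSUM
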