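import Mathlib
import Cfsg.Agent.Helper21.N2RDefs

set_option autoImplicit false

namespace Cfsg.Agent.Helper83.N2RT3H

open Matrix Cfsg.Agent.Helper21.N2R

/-- T3H -/
theorem T3_block {κ ρ : Type*} [Fintype κ] [DecidableEq κ] [Fintype ρ] [DecidableEq ρ]
    {F : Type*} [Field F] (Mu : GL (Fin 2) F) (i : κ) :
    ∃ h ∈ T3 κ ρ Mu,
      (h : Matrix ((Fin 2 × κ) ⊕ ρ) ((Fin 2 × κ) ⊕ ρ) F).submatrix
          (fun s : Fin 2 => Sum.inl (s, i)) (fun s : Fin 2 => Sum.inl (s, i))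
        = (Mu : Matrix (Fin 2) (Fin 2) F) ∧
      ((h⁻¹ : GL ((Fin 2 × κ) ⊕ ρ) F) : Matrix ((Fin 2 × κ) ⊕ ρ) ((Fin 2 × κ) ⊕ ρ) F).submatrix
          (fun s : Fin 2 => Sum.inl (s, i)) (fun s : Fin 2 => Sum.inl (s, i))
        = ((Mu⁻¹ : GL (Fin 2) F) : Matrix (Fin 2) (Fin 2) F) := by
  refine ⟨bg κ ρ F (Pi.mulSingle i Mu), ?_, ?_, ?_⟩
  · rw [mem_T3_iff]
    refine ⟨Pi.mulSingle i Mu, fun k => ?_, rfl⟩
    by_cases hk : k = i
    · subst hk; rw [Pi.mulSingle_eq_same]; exact Subgroup.mem_zpowers Mu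
    · rw [Pi.mulSingle_eq_of_ne hk]; exact Subgroup.one_mem _
  · ext s t
    rw [bg_val]
    simp [Matrix.blockDiagonal_apply]
  · rw [← map_inv, ← Pi.mulSingle_inv, bg_val]
    ext s t
    simp [Matrix.blockDiagonal_apply]

end Cfsg.Agent.Helper83.N2RT3H
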