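import Mathlib
import Cfsg.Agent.Helper50.HigDefs

set_option autoImplicit false
set_option linter.unusedSimpArgs false
set_option linter.unusedVariables false
set_option linter.unusedSectionVars false

namespace Cfsg.Agent.Helper83.HigCAT

open Cfsg.Agent.Helper5 Cfsg.Agent.Helper50.Hig

section C2
variable {E : Type*} [Ring E] (h2 : ∀ r : E, r + r = 0)
include h2

theorem c2_z2 (r : E) : (2 : ℤ) • r = 0 := by
  rw [two_zsmul]; exact h2 r

theorem c2_zeven (n : ℤ) (r : E) : (2 * n) • r = 0 := by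
  rw [mul_comm, mul_zsmul, c2_z2 h2, smul_zero]

theorem c2_zneg (n : ℤ) (r : E) : (-(2 * n)) • r = 0 := by
  rw [neg_zsmul, c2_zeven h2, neg_zero]

theorem c2_all (r : E) : (2 : ℤ) • r = 0 ∧ (-2 : ℤ) • r = 0 ∧ (4 : ℤ) • r = 0 ∧ (-4 : ℤ) • r = 0 ∧
    (6 : ℤ) • r = 0 ∧ (-6 : ℤ) • r = 0 ∧ (8 : ℤ) • r = 0 ∧ (-8 : ℤ) • r = 0 ∧
    (10 : ℤ) • r = 0 ∧ (-10 : ℤ) • r = 0 ∧ (12 : ℤ) • r = 0 ∧ (-12 : ℤ) • r = 0 :=
  ⟨c2_zeven h2 1 r, c2_zneg h2 1 r, c2_zeven h2 2 r, c2_zneg h2 2 r,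
   c2_zeven h2 3 r, c2_zneg h2 3 r, c2_zeven h2 4 r, c2_zneg h2 4 r,
   c2_zeven h2 5 r, c2_zneg h2 5 r, c2_zeven h2 6 r, c2_zneg h2 6 r⟩

end C2

section Cat
variable {K : Type*} [Field K] [Fintype K] [CharP K 2] {E : Type*} [Ring E]

omit [Fintype K] in
theorem two_K : (2 : K) = 0 := by
  exact_mod_cast CharP.cast_eq_zero K 2

theorem sq_K (r : K) : ∃ t : K, r = t ^ 2 := by
  obtain ⟨t, ht⟩ := FiniteField.isSquare_of_char_two (ringChar.eq K 2) r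
  exact ⟨t, by rw [ht, sq]⟩

variable (h2 : ∀ r : E, r + r = 0) (N Q : K → E) (h : CatHyp N Q)
include h2 h

theorem Qinv' (t : K) (ht : t ≠ 0) : Q t⁻¹ * Q t = 1 := by
  have := h.Qinv t⁻¹ (inv_ne_zero ht)
  rwa [inv_inv] at this

theorem Qcomm (t s : K) : Q t * Q s = Q s * Q t := by
  by_cases ht : t = 0
  · subst ht; rw [h.Q0, zero_mul, mul_zero]
  by_cases hs : s = 0
  · subst hs; rw [h.Q0, zero_mul, mul_zero]
  have e1 := h.HH t s ht hs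
  have e2 := h.HH s t hs ht
  rw [mul_comm s t] at e2
  linear_combination (norm := (noncomm_ring; try simp only [c2_all h2, add_zero]))
    e1 + e2 + h.NN t s + h.NN t s⁻¹ + h.NN t⁻¹ s + h.NN t⁻¹ s⁻¹

theorem Qsq (t : K) : Q (t ^ 2) = Q t * Q t := by
  by_cases ht : t = 0
  · subst ht; rw [zero_pow two_ne_zero, h.Q0, zero_mul]
  have e1 := h.QQ t 1 ht
  rw [h.Q1, mul_one, mul_one] at e1
  linear_combination (norm := (noncomm_ring; try simp only [c2_all h2, add_zero]))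
    e1 * Q t + Q (t ^ 2) * Qinv' h2 N Q h t ht

theorem Qmul (r s : K) : Q (r * s) = Q r * Q s := by
  obtain ⟨t, rfl⟩ := sq_K r
  by_cases ht : t = 0
  · subst ht; rw [zero_pow two_ne_zero, zero_mul, h.Q0, zero_mul]
  linear_combination (norm := (noncomm_ring; try simp only [c2_all h2, add_zero]))
    (h.QQ t s ht) * Q t + Q (t ^ 2 * s) * (Qinv' h2 N Q h t ht) + Q t * (Qcomm h2 N Q h s t)
      + (Qsq h2 N Q h t) * Q s

theorem XX (t s : K) (ht : t ≠ 0) (hs : s ≠ 0) : (N t + N t⁻¹) * (N s + N s⁻¹) = 0 := by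
  linear_combination (norm := (noncomm_ring; try simp only [c2_all h2, add_zero]))
    h.HH t s ht hs + Qmul h2 N Q h t s

theorem NQa (t : K) (ht : t ≠ 0) : N t * Q t⁻¹ = Q t⁻¹ * N t := h.NQinv t ht

theorem NQb (t : K) (ht : t ≠ 0) : N t⁻¹ * Q t = Q t * N t⁻¹ := by
  have := h.NQinv t⁻¹ (inv_ne_zero ht)
  rwa [inv_inv] at this

theorem NQc (t : K) (ht : t ≠ 0) : N t * Q t = Q t * N t := by
  linear_combination (norm := (noncomm_ring; try simp only [c2_all h2, add_zero]))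
    (h.Qinv t ht) * N t * Q t + Q t * (h.NQinv t ht) * Q t + Q t * N t * (Qinv' h2 N Q h t ht)

theorem NQd (t : K) (ht : t ≠ 0) : N t⁻¹ * Q t⁻¹ = Q t⁻¹ * N t⁻¹ :=
  NQc h2 N Q h t⁻¹ (inv_ne_zero ht)

theorem E1 (t : K) (ht : t ≠ 0) : N (t ^ 2) = Q t * (N t + N t⁻¹) := by
  have e1 := h.QN t 1 ht
  rw [h.N1, mul_zero, mul_one] at e1
  linear_combination (norm := (noncomm_ring; try simp only [c2_all h2, add_zero]))
    N (t ^ 2) * h.Qinv t ht + e1 * Q t⁻¹ + (Qsq h2 N Q h t) * (N t + N t⁻¹) * Q t⁻¹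
      + Q t * Q t * (NQa h2 N Q h t ht + NQd h2 N Q h t ht) + Q t * (h.Qinv t ht) * (N t + N t⁻¹)

theorem E1b (t : K) (ht : t ≠ 0) : N t + N t⁻¹ = Q t⁻¹ * N (t ^ 2) := by
  linear_combination (norm := (noncomm_ring; try simp only [c2_all h2, add_zero]))
    Q t⁻¹ * E1 h2 N Q h t ht + (Qinv' h2 N Q h t ht) * (N t + N t⁻¹)

theorem E1c (t : K) (ht : t ≠ 0) : N (t ^ 2) * Q t = Q t * N (t ^ 2) := by
  linear_combination (norm := (noncomm_ring; try simp only [c2_all h2, add_zero]))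
    (E1 h2 N Q h t ht) * Q t + Q t * (NQc h2 N Q h t ht + NQb h2 N Q h t ht) + Q t * E1 h2 N Q h t ht

theorem Gg (t s : K) (ht : t ≠ 0) : Q t * N s * Q t⁻¹ = N (t ^ 2 * s) + Q s * N (t ^ 2) := by
  have hQ : Q (t ^ 2 * s) = Q s * Q t * Q t := by
    rw [mul_comm, Qmul h2 N Q h, Qsq h2 N Q h, mul_assoc]
  linear_combination (norm := (noncomm_ring; try simp only [c2_all h2, add_zero]))
    (h.QN t s ht) * Q t⁻¹ + N (t ^ 2 * s) * h.Qinv t ht
      + Q (t ^ 2 * s) * (NQa h2 N Q h t ht + NQd h2 N Q h t ht)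
      + hQ * Q t⁻¹ * (N t + N t⁻¹) + Q s * Q t * (h.Qinv t ht) * (N t + N t⁻¹)
      + Q s * E1 h2 N Q h t ht

theorem Ggb (t c : K) (ht : t ≠ 0) :
    N c * Q t⁻¹ = Q t⁻¹ * (N (t ^ 2 * c) + Q c * N (t ^ 2)) := by
  linear_combination (norm := (noncomm_ring; try simp only [c2_all h2, add_zero]))
    Q t⁻¹ * Gg h2 N Q h t c ht + (Qinv' h2 N Q h t ht) * N c * Q t⁻¹

theorem NNz0 (t s : K) (ht : t ≠ 0) (hs : s ≠ 0) : N (t ^ 2 * s ^ 2) * N (t ^ 2) = 0 := by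
  have h8a : N (s ^ 2) * Q t⁻¹ * N (t ^ 2) = 0 := by
    linear_combination (norm := (noncomm_ring; try simp only [c2_all h2, add_zero]))
      Q s * XX h2 N Q h s t hs ht + Q s * (E1b h2 N Q h s hs) * (N t + N t⁻¹)
        + Q s * Q s⁻¹ * N (s ^ 2) * (E1b h2 N Q h t ht)
        + (h.Qinv s hs) * N (s ^ 2) * Q t⁻¹ * N (t ^ 2)
  linear_combination (norm := (noncomm_ring; try simp only [c2_all h2, add_zero]))
    Q t * h8a + Q t * (Ggb h2 N Q h t (s ^ 2) ht) * N (t ^ 2)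
      + Q t * Q t⁻¹ * Q (s ^ 2) * h.Nsq (t ^ 2)
      + (h.Qinv t ht) * N (t ^ 2 * s ^ 2) * N (t ^ 2)

theorem NNz (a r : K) : N a * N r = 0 := by
  by_cases hr : r = 0
  · subst hr; rw [h.N0, mul_zero]
  by_cases ha : a = 0
  · subst ha; rw [h.N0, zero_mul]
  obtain ⟨t, rfl⟩ := sq_K r
  obtain ⟨s, hs⟩ := sq_K (a / t ^ 2)
  have ht : t ≠ 0 := by rintro rfl; exact hr (by simp)
  have hs0 : s ≠ 0 := by
    rintro rfl
    rw [zero_pow two_ne_zero] at hs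
    exact (div_ne_zero ha hr) hs
  have key := NNz0 h2 N Q h t s ht hs0
  have hts : t ^ 2 * (a / t ^ 2) = a := by field_simp
  rw [← hs, hts] at key
  exact key

theorem Nadd' (s t : K) : N (s + t) = N s + N t := by
  rw [h.Nadd, NNz h2 N Q h, add_zero]

theorem NQN (a t b : K) : N a * Q t * N b = 0 := by
  by_cases ht : t = 0
  · subst ht; rw [h.Q0, mul_zero, zero_mul]
  have hg := Gg h2 N Q h t (a / t ^ 2) ht
  have hts : t ^ 2 * (a / t ^ 2) = a := by field_simp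
  rw [hts] at hg
  linear_combination (norm := (noncomm_ring; try simp only [c2_all h2, add_zero]))
    hg * Q t * N b + Q t * N (a / t ^ 2) * (Qinv' h2 N Q h t ht) * N b
      + Q t * NNz h2 N Q h (a / t ^ 2) b
      + Q (a / t ^ 2) * (E1c h2 N Q h t ht) * N b + Q (a / t ^ 2) * Q t * NNz h2 N Q h (t ^ 2) b

theorem NQadd (s a b : K) : N s * Q (a + b) = N s * Q a + N s * Q b := by
  linear_combination (norm := (noncomm_ring; try simp only [c2_all h2, add_zero]))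
    N s * h.Qadd a b + (NNz h2 N Q h s a) * Q b + NQN h2 N Q h s a b

theorem Q1add (e : K) : Q (e + 1) = Q e + 1 + N e := by
  rw [h.Qadd, h.Q1, h.N1, mul_one, mul_zero, add_zero]

theorem N1add (e : K) : N (e + 1) = N e := by
  rw [h.Nadd, h.N1, mul_zero, add_zero, add_zero]

theorem R2 (e r : K) : Q e * N r = N r * Q (e ^ 2) := by
  by_cases he0 : e = 0
  · subst he0; rw [zero_pow two_ne_zero, h.Q0, zero_mul, mul_zero]
  by_cases he1 : e = 1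
  · subst he1; rw [one_pow, h.Q1, one_mul, mul_one]
  by_cases hr : r = 0
  · subst hr; rw [h.N0, zero_mul, mul_zero]
  obtain ⟨t, rfl⟩ := sq_K r
  have ht : t ≠ 0 := by rintro rfl; exact hr (by simp)
  have h2K : (2 : K) = 0 := two_K
  have he' : e + 1 ≠ 0 := by
    intro h0
    apply he1
    linear_combination h0 - h2K
  have hsq : (e + 1) ^ 2 = e ^ 2 + 1 := by linear_combination e * h2K
  have g1 := Gg h2 N Q h t (e ^ 2) ht
  have g2 := Gg h2 N Q h e (t ^ 2) he0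
  have g3 := Gg h2 N Q h t ((e + 1) ^ 2) ht
  have g4 := Gg h2 N Q h (e + 1) (t ^ 2) he'
  rw [hsq, N1add h2 N Q h, Q1add h2 N Q h] at g3
  rw [hsq, N1add h2 N Q h, mul_comm (e ^ 2 + 1) (t ^ 2)] at g4
  rw [mul_comm (e ^ 2) (t ^ 2)] at g2
  have hn : N (t ^ 2) = Q e * N (t ^ 2) * Q e⁻¹ + Q (e + 1) * N (t ^ 2) * Q (e + 1)⁻¹ := by
    linear_combination (norm := (noncomm_ring; try simp only [c2_all h2, add_zero]))
      g1 + g2 + g3 + g4 + NNz h2 N Q h (e ^ 2) (t ^ 2)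
  have hQe' := Q1add h2 N Q h e
  linear_combination (norm := (noncomm_ring; try simp only [c2_all h2, add_zero]))
    hn * Q e * Q (e + 1) + Q e * N (t ^ 2) * (Qinv' h2 N Q h e he0) * Q (e + 1)
      + Q (e + 1) * N (t ^ 2) * Q (e + 1)⁻¹ * (Qcomm h2 N Q h e (e + 1))
      + Q (e + 1) * N (t ^ 2) * (Qinv' h2 N Q h (e + 1) he') * Q e
      + N (t ^ 2) * Q e * hQe' + Q e * N (t ^ 2) * hQe' + hQe' * N (t ^ 2) * Q e
      + NQN h2 N Q h (t ^ 2) e e + Q e * NNz h2 N Q h (t ^ 2) e + (NNz h2 N Q h e (t ^ 2)) * Q e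
      + N (t ^ 2) * Qsq h2 N Q h e

theorem G2 (t s : K) (ht : t ≠ 0) : N (t ^ 2 * s) = N s * Q t + N (t ^ 2) * Q (s ^ 2) := by
  linear_combination (norm := (noncomm_ring; try simp only [c2_all h2, add_zero]))
    Gg h2 N Q h t s ht + (R2 h2 N Q h t s) * Q t⁻¹ + N s * (Qsq h2 N Q h t) * Q t⁻¹
      + N s * Q t * h.Qinv t ht + R2 h2 N Q h s (t ^ 2)

theorem Phi (e t : K) (he : e ≠ 0) (ht : t ≠ 0) :
    N (e ^ 2) * Q (t + t ^ 4) = N (t ^ 2) * Q (e + e ^ 4) := by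
  have g1 := G2 h2 N Q h t (e ^ 2) ht
  have g2 := G2 h2 N Q h e (t ^ 2) he
  rw [mul_comm (e ^ 2) (t ^ 2)] at g2
  have e4 : (e ^ 2) ^ 2 = e ^ 4 := by ring
  have t4 : (t ^ 2) ^ 2 = t ^ 4 := by ring
  rw [e4] at g1
  rw [t4] at g2
  linear_combination (norm := (noncomm_ring; try simp only [c2_all h2, add_zero]))
    g1 + g2 + NQadd h2 N Q h (e ^ 2) t (t ^ 4) + NQadd h2 N Q h (t ^ 2) e (e ^ 4)

theorem E13 (t : K) (ht : t ≠ 0) : N (t ^ 2) = N t * Q (t ^ 2) + N t⁻¹ * Q (t ^ 2) := by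
  linear_combination (norm := (noncomm_ring; try simp only [c2_all h2, add_zero]))
    E1 h2 N Q h t ht + R2 h2 N Q h t t + R2 h2 N Q h t t⁻¹

theorem E14 (y : K) (hy : y ≠ 0) : N (y ^ 2) * Q (y ^ 2 + y ^ 5 + y ^ 3 + 1) = 0 := by
  have h2K : (2 : K) = 0 := two_K
  have y2 : y ^ 2 ≠ 0 := pow_ne_zero 2 hy
  have h13 := E13 h2 N Q h (y ^ 2) y2
  have p1 := Phi h2 N Q h (y ^ 2) y y2 hy
  have p2 := Phi h2 N Q h y⁻¹ y (inv_ne_zero hy) hy
  have hi : (y ^ 2)⁻¹ = (y⁻¹) ^ 2 := by rw [inv_pow]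
  rw [hi] at h13
  have hk3 : (y⁻¹ + (y⁻¹) ^ 4) * (y ^ 2) ^ 2 = y ^ 3 + 1 := by
    field_simp
  have hk : y ^ 2 + y ^ 5 + y ^ 3 + 1 = (y ^ 2 + (y ^ 2) ^ 4)
      + ((y ^ 2) ^ 2 * (y + y ^ 4) + (y⁻¹ + (y⁻¹) ^ 4) * (y ^ 2) ^ 2) := by
    rw [hk3]
    linear_combination (-(y ^ 8)) * h2K
  rw [hk]
  linear_combination (norm := (noncomm_ring; try simp only [c2_all h2, add_zero]))
    h13 * Q (y + y ^ 4) + p1 + N (y ^ 2) * Qmul h2 N Q h ((y ^ 2) ^ 2) (y + y ^ 4)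
      + N ((y⁻¹) ^ 2) * Qcomm h2 N Q h ((y ^ 2) ^ 2) (y + y ^ 4) + p2 * Q ((y ^ 2) ^ 2)
      + N (y ^ 2) * Qmul h2 N Q h (y⁻¹ + (y⁻¹) ^ 4) ((y ^ 2) ^ 2)
      + NQadd h2 N Q h (y ^ 2) (y ^ 2 + (y ^ 2) ^ 4)
          ((y ^ 2) ^ 2 * (y + y ^ 4) + (y⁻¹ + (y⁻¹) ^ 4) * (y ^ 2) ^ 2)
      + NQadd h2 N Q h (y ^ 2) ((y ^ 2) ^ 2 * (y + y ^ 4)) ((y⁻¹ + (y⁻¹) ^ 4) * (y ^ 2) ^ 2)

theorem N15 (y : K) (hy : y ≠ 0) (hy4 : y ^ 4 ≠ y) : N (y ^ 2) = 0 := by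
  have h2K : (2 : K) = 0 := two_K
  have hμ : y ^ 2 + y ^ 5 + y ^ 3 + 1 ≠ 0 := by
    have hfac : y ^ 2 + y ^ 5 + y ^ 3 + 1 = (y + 1) ^ 2 * (y ^ 3 + 1) := by
      linear_combination (-(y ^ 4) - y) * h2K
    rw [hfac]
    apply mul_ne_zero
    · apply pow_ne_zero
      intro h0
      apply hy4
      have h1 : y = 1 := by linear_combination h0 - h2K
      rw [h1]; ring
    · intro h0
      apply hy4
      linear_combination y * h0 - y * h2K
  linear_combination (norm := (noncomm_ring; try simp only [c2_all h2, add_zero]))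
    N (y ^ 2) * h.Qinv _ hμ + (E14 h2 N Q h y hy) * Q (y ^ 2 + y ^ 5 + y ^ 3 + 1)⁻¹

theorem N15' (t : K) (ht4 : t ^ 4 ≠ t) : N t = 0 := by
  obtain ⟨y, rfl⟩ := sq_K t
  have hy : y ≠ 0 := by rintro rfl; exact ht4 (by simp)
  apply N15 h2 N Q h y hy
  intro h4
  apply ht4
  calc (y ^ 2) ^ 4 = (y ^ 4) ^ 2 := by ring
    _ = y ^ 2 := by rw [h4]

theorem N16 (t : K) (ht4 : t ^ 4 = t) : N t = 0 := by
  have h2K : (2 : K) = 0 := two_K
  by_cases ht0 : t = 0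
  · subst ht0; exact h.N0
  by_cases ht1 : t = 1
  · subst ht1; exact h.N1
  have ht3 : t ^ 3 = 1 := by
    have h0 : t * (t ^ 3 - 1) = 0 := by linear_combination ht4
    rcases mul_eq_zero.mp h0 with h0 | h0
    · exact absurd h0 ht0
    · linear_combination h0
  have hq : t ^ 2 = t + 1 := by
    have h0 : (t - 1) * (t ^ 2 + t + 1) = 0 := by linear_combination ht3
    rcases mul_eq_zero.mp h0 with h0 | h0
    · exact absurd (by linear_combination h0) ht1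
    · linear_combination h0 - (t + 1) * h2K
  have hinv : (t ^ 2)⁻¹ = t :=
    inv_eq_of_mul_eq_one_right (by linear_combination ht3)
  have e1 := E1 h2 N Q h (t ^ 2) (pow_ne_zero 2 ht0)
  have t4 : (t ^ 2) ^ 2 = t := by
    calc (t ^ 2) ^ 2 = t ^ 4 := by ring
      _ = t := ht4
  rw [t4, hinv, hq, N1add h2 N Q h] at e1
  rw [e1, h2 (N t), mul_zero]

theorem Nzero (t : K) : N t = 0 := by
  by_cases ht4 : t ^ 4 = t
  · exact N16 h2 N Q h t ht4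
  · exact N15' h2 N Q h t ht4

end Cat

/-- PIECE CAT of CALL S3050: the core algebra theorem. -/
theorem cat {K : Type*} [Field K] [Fintype K] [CharP K 2] {E : Type*} [Ring E]
    (h2 : ∀ r : E, r + r = 0) (N Q : K → E) (h : CatHyp N Q) :
    (∀ s, N s = 0) ∧ (∀ s t, Q (s + t) = Q s + Q t) ∧ (∀ s t, Q (s * t) = Q s * Q t) := by
  refine ⟨Nzero h2 N Q h, fun s t => ?_, Qmul h2 N Q h⟩
  rw [h.Qadd, Nzero h2 N Q h s, Nzero h2 N Q h t, zero_mul, mul_zero, add_zero, add_zero]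

end Cfsg.Agent.Helper83.HigCAT
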