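-- helper83: piece K1 of CALL S4404 (helper16): a hyperplane `B` of `A ≅ r³` that is not
-- normalized by `x` has no more fixed points on `M` than `A`.
import Mathlib
import Cfsg.Agent.Helper16.NGDefs

set_option autoImplicit false
set_option linter.style.haveILetI false

namespace Cfsg.Agent.Helper83.NGK1

open Cfsg.Agent.Helper16.NG

variable {S : Type*} [Group S]

section abs

variable [Finite S] {N : Type*} [CommGroup N]

/-- The norm map of the subgroup `C` acting on `N`. -/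
noncomputable def eop (θ : S →* MulAut N) (C : Subgroup S) (m : N) : N :=
  ∏ᶠ g : ↥C, θ (g : S) m

omit [Finite S] in
theorem eop_eq (θ : S →* MulAut N) (C : Subgroup S) [Fintype ↥C] (m : N) :
    eop θ C m = ∏ g : ↥C, θ (g : S) m := finprod_eq_prod_of_fintype _

theorem eop_mul (θ : S →* MulAut N) (C : Subgroup S) (m m' : N) :
    eop θ C (m * m') = eop θ C m * eop θ C m' := by
  classical
  haveI := Fintype.ofFinite ↥C
  rw [eop_eq, eop_eq, eop_eq, ← Finset.prod_mul_distrib]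
  apply Finset.prod_congr rfl
  intro g _
  rw [map_mul]

theorem eop_one (θ : S →* MulAut N) (C : Subgroup S) : eop θ C 1 = 1 := by
  classical
  haveI := Fintype.ofFinite ↥C
  rw [eop_eq]
  apply Finset.prod_eq_one
  intro g _
  rw [map_one]

theorem eop_fixed (θ : S →* MulAut N) (C : Subgroup S) (m : N) (c : S) (hc : c ∈ C) :
    θ c (eop θ C m) = eop θ C m := by
  classical
  haveI := Fintype.ofFinite ↥C
  rw [eop_eq, map_prod]
  have e : ∀ g : ↥C, θ c (θ (g : S) m) = θ (((⟨c, hc⟩ : ↥C) * g : ↥C) : S) m := by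
    intro g
    rw [Subgroup.coe_mul, map_mul]
    rfl
  rw [Finset.prod_congr rfl (fun g _ => e g)]
  exact Fintype.prod_equiv (Equiv.mulLeft (⟨c, hc⟩ : ↥C)) _ _ (fun g => rfl)

theorem eop_of_fixed (θ : S →* MulAut N) (C : Subgroup S) (m : N)
    (hm : ∀ c ∈ C, θ c m = m) (hodd : Odd (Nat.card C)) (hsq : m ^ 2 = 1) :
    eop θ C m = m := by
  classical
  haveI := Fintype.ofFinite ↥C
  rw [eop_eq]
  rw [Finset.prod_congr rfl (fun (g : ↥C) _ => hm g g.2)]
  rw [Finset.prod_const, Finset.card_univ, ← Nat.card_eq_fintype_card]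
  obtain ⟨k, hk⟩ := hodd
  rw [hk, pow_succ, pow_mul, hsq, one_pow, one_mul]

theorem eop_comm (θ : S →* MulAut N) (C : Subgroup S) (m : N) (a : S)
    (ha : ∀ c ∈ C, a * c = c * a) : θ a (eop θ C m) = eop θ C (θ a m) := by
  classical
  haveI := Fintype.ofFinite ↥C
  rw [eop_eq, eop_eq, map_prod]
  apply Finset.prod_congr rfl
  intro g _
  have h1 : θ a * θ (g : S) = θ (g : S) * θ a := by
    rw [← map_mul, ← map_mul, ha g g.2]
  exact DFunLike.congr_fun h1 m

/-- The norm map as a monoid homomorphism. -/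
noncomputable def eopHom (θ : S →* MulAut N) (C : Subgroup S) : N →* N where
  toFun := eop θ C
  map_one' := eop_one θ C
  map_mul' := eop_mul θ C

theorem eop_eop_comm (θ : S →* MulAut N) (A C : Subgroup S) (m : N)
    (hAC : ∀ a ∈ A, ∀ c ∈ C, a * c = c * a) :
    eop θ A (eop θ C m) = eop θ C (eop θ A m) := by
  classical
  haveI := Fintype.ofFinite ↥A
  rw [eop_eq θ A, eop_eq θ A]
  have h1 : eop θ C (∏ g : ↥A, θ (g : S) m) = ∏ g : ↥A, eop θ C (θ (g : S) m) :=
    map_prod (eopHom θ C) _ _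
  rw [h1]
  apply Finset.prod_congr rfl
  intro g _
  exact eop_comm θ C m g (fun c hc => hAC g g.2 c hc)

theorem eop_conj (θ : S →* MulAut N) (A : Subgroup S) (x : S)
    (hxA : ∀ a ∈ A, x * a * x⁻¹ ∈ A) (m : N) : θ x (eop θ A m) = eop θ A (θ x m) := by
  classical
  haveI := Fintype.ofFinite ↥A
  rw [eop_eq, eop_eq, map_prod]
  obtain ⟨σ, hσ⟩ : ∃ σ : ↥A → ↥A, ∀ a : ↥A, ((σ a : ↥A) : S) = x * a * x⁻¹ :=
    ⟨fun a => ⟨x * a * x⁻¹, hxA a a.2⟩, fun _ => rfl⟩
  have hσi : Function.Injective σ := by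
    intro a b hab
    have h1 : x * (a : S) * x⁻¹ = x * (b : S) * x⁻¹ := by rw [← hσ, ← hσ, hab]
    apply Subtype.ext
    have h2 : (a : S) = x⁻¹ * (x * (a : S) * x⁻¹) * x := by group
    rw [h2, h1]
    group
  have hσb : Function.Bijective σ := Finite.injective_iff_bijective.mp hσi
  have e : ∀ a : ↥A, θ x (θ (a : S) m) = θ ((σ a : ↥A) : S) (θ x m) := by
    intro a
    rw [hσ]
    have h1 : θ x * θ (a : S) = θ (x * (a : S) * x⁻¹) * θ x := by
      rw [← map_mul, ← map_mul]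
      congr 1
      group
    exact DFunLike.congr_fun h1 m
  rw [Finset.prod_congr rfl (fun a _ => e a)]
  exact Fintype.prod_bijective σ hσb _ _ (fun _ => rfl)

omit [Finite S] in
/-- The stabilizer of `y`. -/
def stabθ (θ : S →* MulAut N) (y : N) : Subgroup S where
  carrier := {g | θ g y = y}
  one_mem' := by
    change θ 1 y = y
    rw [map_one]
    rfl
  mul_mem' := by
    intro a b ha hb
    change θ (a * b) y = y
    have ha' : θ a y = y := ha
    have hb' : θ b y = y := hb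
    rw [map_mul, MulAut.mul_apply, hb', ha']
  inv_mem' := by
    intro a ha
    change θ a⁻¹ y = y
    have ha' : θ a y = y := ha
    have h1 : θ a⁻¹ (θ a y) = y := by
      rw [← MulAut.mul_apply, ← map_mul, inv_mul_cancel, map_one]
      rfl
    rwa [ha'] at h1

theorem hyp_sup (r : ℕ) [Fact r.Prime] (A C D : Subgroup S) (hA3 : Nat.card A = r ^ 3)
    (hCA : C ≤ A) (hDA : D ≤ A) (hC : Nat.card C = r ^ 2) (hD : Nat.card D = r ^ 2)
    (hne : C ≠ D) : C ⊔ D = A := by
  have hle : C ⊔ D ≤ A := sup_le hCA hDA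
  apply Subgroup.eq_of_le_of_card_ge hle
  have h1 : Nat.card C ∣ Nat.card ↥(C ⊔ D) := Subgroup.card_dvd_of_le le_sup_left
  have h2 : Nat.card ↥(C ⊔ D) ∣ Nat.card A := Subgroup.card_dvd_of_le hle
  have h3 : Nat.card C ≠ Nat.card ↥(C ⊔ D) := by
    intro heq
    have hC' : C = C ⊔ D := Subgroup.eq_of_le_of_card_ge le_sup_left (le_of_eq heq.symm)
    have hDC : D ≤ C := by
      rw [hC']
      exact le_sup_right
    have hDC' : D = C := Subgroup.eq_of_le_of_card_ge hDC (by rw [hC, hD])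
    exact hne hDC'.symm
  rw [hC] at h1 h3
  rw [hA3] at h2 ⊢
  obtain ⟨k, hk⟩ := h1
  have hr := (Fact.out : r.Prime)
  have hkr : k ∣ r := by
    have h4 : r ^ 2 * k ∣ r ^ 2 * r := by
      rw [← hk]
      have e : r ^ 2 * r = r ^ 3 := by ring
      rw [e]
      exact h2
    exact (Nat.mul_dvd_mul_iff_left (pow_pos hr.pos 2)).mp h4
  rcases (Nat.dvd_prime hr).mp hkr with rfl | rfl
  · exfalso
    apply h3
    rw [hk, mul_one]
  · rw [hk]
    exact le_of_eq (by ring)

omit [Finite S] in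
theorem three_le_card [Finite N] (F : Subgroup N) (a b c : N) (ha : a ∈ F) (hb : b ∈ F)
    (hc : c ∈ F) (hab : a ≠ b) (hac : a ≠ c) (hbc : b ≠ c) : 3 ≤ Nat.card F := by
  have h1 : ({a, b, c} : Set N).ncard = 3 := Set.ncard_eq_three.mpr ⟨a, b, c, hab, hac, hbc, rfl⟩
  have h2 : ({a, b, c} : Set N) ⊆ (F : Set N) := by
    intro y hy
    simp only [Set.mem_insert_iff, Set.mem_singleton_iff] at hy
    rcases hy with rfl | rfl | rfl
    · exact ha
    · exact hb
    · exact hc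
  have h3 := Set.ncard_le_ncard h2 (Set.toFinite _)
  rw [h1] at h3
  exact h3

/-- The part of the fixed points of `B` killed by the norm map of `A`. -/
def nbSub (θ : S →* MulAut N) (hsq : ∀ n : N, n ^ 2 = 1) (A B : Subgroup S) : Subgroup N where
  carrier := {n | (∀ c ∈ B, θ c n = n) ∧ eop θ A n = 1}
  one_mem' := ⟨fun c _ => map_one _, eop_one θ A⟩
  mul_mem' := by
    rintro a b ⟨ha1, ha2⟩ ⟨hb1, hb2⟩
    exact ⟨fun c hc => by rw [map_mul, ha1 c hc, hb1 c hc], by rw [eop_mul, ha2, hb2, one_mul]⟩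
  inv_mem' := by
    rintro a ⟨ha1, ha2⟩
    have hinv : a⁻¹ = a := inv_eq_of_mul_eq_one_left (by rw [← pow_two]; exact hsq a)
    rw [hinv]
    exact ⟨ha1, ha2⟩

theorem mem_nbSub (θ : S →* MulAut N) (hsq : ∀ n : N, n ^ 2 = 1) (A B : Subgroup S) (n : N) :
    n ∈ nbSub θ hsq A B ↔ (∀ c ∈ B, θ c n = n) ∧ eop θ A n = 1 := Iff.rfl

theorem k1_abs [Finite N] (θ : S →* MulAut N) (hsq : ∀ n : N, n ^ 2 = 1)
    (x : S) (W : Type*) [Finite W] (hW : Nat.card W ≤ 4) (ι : N → W)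
    (hι : ∀ m m', ι m = ι m' → θ x m * m⁻¹ = θ x m' * m'⁻¹)
    (k : ℕ) (hxk : orderOf x = 3 ^ k)
    (r : ℕ) [Fact r.Prime] (hr2 : r ≠ 2)
    (A : Subgroup S) (hAc : ∀ a ∈ A, ∀ a' ∈ A, a * a' = a' * a) (hA3 : Nat.card A = r ^ 3)
    (hxA : ∀ a ∈ A, x * a * x⁻¹ ∈ A) (B : Subgroup S) (hBA : B ≤ A) (hB : Nat.card B = r ^ 2)
    (hxB : ¬ ∀ b ∈ B, x * b * x⁻¹ ∈ B) (m : N) (hm : ∀ b ∈ B, θ b m = m) :
    ∀ a ∈ A, θ a m = m := by
  classical
  have hr := (Fact.out : r.Prime)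
  have hrodd : Odd r := hr.odd_of_ne_two hr2
  have hAodd : Odd (Nat.card A) := by
    rw [hA3]
    exact hrodd.pow
  have hinv : ∀ n : N, n⁻¹ = n := fun n =>
    inv_eq_of_mul_eq_one_left (by rw [← pow_two]; exact hsq n)
  have hcinj : Function.Injective ((MulAut.conj x).toMonoidHom : S →* S) :=
    (MulAut.conj x).injective
  obtain ⟨B', hB'def⟩ : ∃ B' : Subgroup S, B' = B.map (MulAut.conj x).toMonoidHom := ⟨_, rfl⟩
  obtain ⟨B'', hB''def⟩ : ∃ B'' : Subgroup S, B'' = B'.map (MulAut.conj x).toMonoidHom :=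
    ⟨_, rfl⟩
  have hB'mem : ∀ g, g ∈ B' ↔ ∃ b ∈ B, x * b * x⁻¹ = g := by
    intro g
    rw [hB'def]
    exact Subgroup.mem_map
  have hB''mem : ∀ g, g ∈ B'' ↔ ∃ b ∈ B', x * b * x⁻¹ = g := by
    intro g
    rw [hB''def]
    exact Subgroup.mem_map
  have hB'A : B' ≤ A := by
    intro g hg
    obtain ⟨b, hb, rfl⟩ := (hB'mem g).mp hg
    exact hxA b (hBA hb)
  have hB''A : B'' ≤ A := by
    intro g hg
    obtain ⟨b, hb, rfl⟩ := (hB''mem g).mp hg
    exact hxA b (hB'A hb)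
  have hB'card : Nat.card B' = r ^ 2 := by
    rw [hB'def, Subgroup.card_map_of_injective hcinj, hB]
  have hB''card : Nat.card B'' = r ^ 2 := by
    rw [hB''def, Subgroup.card_map_of_injective hcinj, hB'card]
  have hBodd : Odd (Nat.card B) := by
    rw [hB]
    exact hrodd.pow
  have hB''odd : Odd (Nat.card B'') := by
    rw [hB''card]
    exact hrodd.pow
  have hBB' : B ≠ B' := by
    intro heq
    apply hxB
    intro b hb
    rw [heq]
    exact (hB'mem _).mpr ⟨b, hb, rfl⟩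
  have hB'B'' : B' ≠ B'' := by
    intro heq
    apply hBB'
    rw [hB'def, hB''def] at heq
    exact Subgroup.map_injective hcinj heq
  have hBB'' : B ≠ B'' := by
    intro heq
    apply hxB
    have h2 : ∀ b ∈ B, (x * x) * b * (x * x)⁻¹ ∈ B := by
      intro b hb
      rw [heq]
      exact (hB''mem _).mpr ⟨x * b * x⁻¹, (hB'mem _).mpr ⟨b, hb, rfl⟩, by group⟩
    have h3 : ∀ j : ℕ, ∀ b ∈ B, (x * x) ^ j * b * ((x * x) ^ j)⁻¹ ∈ B := by
      intro j
      induction j with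
      | zero =>
        intro b hb
        simpa using hb
      | succ j ih =>
        intro b hb
        have h4 := h2 _ (ih b hb)
        have e : (x * x) ^ (j + 1) * b * ((x * x) ^ (j + 1))⁻¹ =
            (x * x) * ((x * x) ^ j * b * ((x * x) ^ j)⁻¹) * (x * x)⁻¹ := by
          rw [pow_succ']
          obtain ⟨y, hy⟩ : ∃ y, y = (x * x) ^ j := ⟨_, rfl⟩
          rw [← hy]
          obtain ⟨z, hz⟩ : ∃ z, z = x * x := ⟨_, rfl⟩
          rw [← hz]
          rw [mul_inv_rev]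
          simp only [mul_assoc]
        rw [e]
        exact h4
    obtain ⟨j, hj⟩ : ∃ j, 3 ^ k + 1 = 2 * j := by
      have h5 : Odd (3 ^ k) := Odd.pow (by decide)
      obtain ⟨t, ht⟩ := h5
      exact ⟨t + 1, by omega⟩
    have hx : (x * x) ^ j = x := by
      rw [← pow_two, ← pow_mul, ← hj, pow_succ, ← hxk, pow_orderOf_eq_one, one_mul]
    intro b hb
    have h6 := h3 j b hb
    rwa [hx] at h6
  -- Lemma L
  have L : ∀ C D : Subgroup S, C ≤ A → D ≤ A → Nat.card C = r ^ 2 → Nat.card D = r ^ 2 →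
      C ≠ D → ∀ n : N, (∀ c ∈ C, θ c n = n) → eop θ A n = 1 → eop θ D n = 1 := by
    intro C D hCA hDA hCc hDc hne n hn hAn
    have hsup := hyp_sup r A C D hA3 hCA hDA hCc hDc hne
    have hyD : ∀ d ∈ D, θ d (eop θ D n) = eop θ D n := fun d hd => eop_fixed θ D n d hd
    have hyC : ∀ c ∈ C, θ c (eop θ D n) = eop θ D n := by
      intro c hc
      rw [eop_comm θ D n c (fun d hd => hAc c (hCA hc) d (hDA hd)), hn c hc]
    have hyA : ∀ a ∈ A, θ a (eop θ D n) = eop θ D n := by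
      have hle : C ⊔ D ≤ stabθ θ (eop θ D n) :=
        sup_le (fun c hc => hyC c hc) (fun d hd => hyD d hd)
      rw [hsup] at hle
      exact fun a ha => hle ha
    have h1 := eop_of_fixed θ A (eop θ D n) hyA hAodd (hsq _)
    rw [eop_eop_comm θ A D n (fun a ha d hd => hAc a ha d (hDA hd)), hAn, eop_one] at h1
    exact h1.symm
  -- conjugation by `x`
  have hNBx : ∀ (C : Subgroup S) (n : N), (∀ c ∈ C, θ c n = n) → eop θ A n = 1 →
      (∀ g ∈ C.map (MulAut.conj x).toMonoidHom, θ g (θ x n) = θ x n) ∧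
        eop θ A (θ x n) = 1 := by
    intro C n hn1 hn2
    constructor
    · intro g hg
      obtain ⟨b, hb, rfl⟩ := Subgroup.mem_map.mp hg
      change θ (x * b * x⁻¹) (θ x n) = θ x n
      have h1 : θ (x * b * x⁻¹) * θ x = θ x * θ b := by
        rw [← map_mul, ← map_mul]
        congr 1
        group
      have h2 : θ (x * b * x⁻¹) (θ x n) = θ x (θ b n) := DFunLike.congr_fun h1 n
      rw [h2, hn1 b hb]
    · rw [← eop_conj θ A x hxA n, hn2, map_one]
  have hw : ∀ a b : N, (∀ c ∈ B, θ c a = a) → eop θ A a = 1 → (∀ c ∈ B, θ c b = b) →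
      eop θ A b = 1 → θ x a * a * (θ x (θ x b) * θ x b) = 1 → a = 1 ∧ b = 1 := by
    intro a b ha1 ha2 hb1 hb2 hwab
    obtain ⟨hxa1, hxa2⟩ := hNBx B a ha1 ha2
    obtain ⟨hxb1, hxb2⟩ := hNBx B b hb1 hb2
    rw [← hB'def] at hxa1 hxb1
    obtain ⟨hxxb1, hxxb2⟩ := hNBx B' (θ x b) hxb1 hxb2
    rw [← hB''def] at hxxb1
    constructor
    · have h1 := congrArg (eop θ B) hwab
      rw [eop_mul, eop_mul, eop_mul, eop_one,
        L B' B hB'A hBA hB'card hB hBB'.symm (θ x a) hxa1 hxa2,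
        L B'' B hB''A hBA hB''card hB hBB''.symm (θ x (θ x b)) hxxb1 hxxb2,
        L B' B hB'A hBA hB'card hB hBB'.symm (θ x b) hxb1 hxb2,
        eop_of_fixed θ B a ha1 hBodd (hsq a)] at h1
      simpa using h1
    · have h1 := congrArg (eop θ B'') hwab
      rw [eop_mul, eop_mul, eop_mul, eop_one,
        L B' B'' hB'A hB''A hB'card hB''card hB'B'' (θ x a) hxa1 hxa2,
        L B B'' hBA hB''A hB hB''card hBB'' a ha1 ha2,
        eop_of_fixed θ B'' (θ x (θ x b)) hxxb1 hB''odd (hsq _),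
        L B' B'' hB'A hB''A hB'card hB''card hB'B'' (θ x b) hxb1 hxb2] at h1
      have h2 : θ x (θ x b) = 1 := by simpa using h1
      have h3 : θ x b = 1 := (MulEquiv.map_eq_one_iff (θ x)).mp h2
      exact (MulEquiv.map_eq_one_iff (θ x)).mp h3
  -- `|N_B| ≤ 2`
  have hinjΨ : Function.Injective
      (fun p : ↥(nbSub θ hsq A B) × ↥(nbSub θ hsq A B) => ι ((p.1 : N) * θ x (p.2 : N))) := by
    rintro ⟨a, b⟩ ⟨a', b'⟩ hp
    have hφ := hι _ _ hp
    rw [hinv, hinv] at hφ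
    have ha0 := (nbSub θ hsq A B).mul_mem a.2 a'.2
    have hb0 := (nbSub θ hsq A B).mul_mem b.2 b'.2
    have hw0 : θ x ((a : N) * a') * ((a : N) * a') *
        (θ x (θ x ((b : N) * b')) * θ x ((b : N) * b')) = 1 := by
      have e : θ x ((a : N) * a') * ((a : N) * a') *
          (θ x (θ x ((b : N) * b')) * θ x ((b : N) * b')) =
          (θ x ((a : N) * θ x b) * ((a : N) * θ x b)) *
          (θ x ((a' : N) * θ x b') * ((a' : N) * θ x b')) := by
        simp only [map_mul, mul_comm, mul_left_comm, mul_assoc]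
      rw [e, hφ, ← pow_two, hsq]
    obtain ⟨h1, h2⟩ := hw _ _ ha0.1 ha0.2 hb0.1 hb0.2 hw0
    have ea : (a : N) = a' := by
      rw [← hinv (a' : N)]
      exact eq_inv_of_mul_eq_one_left h1
    have eb : (b : N) = b' := by
      rw [← hinv (b' : N)]
      exact eq_inv_of_mul_eq_one_left h2
    exact Prod.ext (Subtype.ext ea) (Subtype.ext eb)
  have hcardN : Nat.card ↥(nbSub θ hsq A B) ≤ 2 := by
    have h1 := Nat.card_le_card_of_injective _ hinjΨ
    rw [Nat.card_prod] at h1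
    by_contra hlt
    push Not at hlt
    have h2 : 3 * 3 ≤ Nat.card ↥(nbSub θ hsq A B) * Nat.card ↥(nbSub θ hsq A B) :=
      Nat.mul_le_mul hlt hlt
    omega
  have hNBA : ∀ n : N, n ∈ nbSub θ hsq A B → ∀ a ∈ A, θ a n = n := by
    intro n hn a ha
    by_contra hne
    have hn1 : n ≠ 1 := by
      rintro rfl
      exact hne (map_one _)
    have han : θ a n ∈ nbSub θ hsq A B := by
      refine ⟨fun c hc => ?_, ?_⟩
      · have h1 : θ c * θ a = θ a * θ c := by
          rw [← map_mul, ← map_mul, hAc c (hBA hc) a ha]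
        have h2 : θ c (θ a n) = θ a (θ c n) := DFunLike.congr_fun h1 n
        rw [h2, hn.1 c hc]
      · rw [← eop_comm θ A n a (fun c hc => hAc a ha c hc), hn.2, map_one]
    have han1 : θ a n ≠ 1 := fun h => hn1 ((MulEquiv.map_eq_one_iff (θ a)).mp h)
    have h3 := three_le_card (nbSub θ hsq A B) 1 n (θ a n) (Subgroup.one_mem _) hn han
      (Ne.symm hn1) (Ne.symm han1) (Ne.symm hne)
    omega
  have hNB1 : ∀ n : N, n ∈ nbSub θ hsq A B → n = 1 := by
    intro n hn
    have h1 := eop_of_fixed θ A n (hNBA n hn) hAodd (hsq n)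
    rw [hn.2] at h1
    exact h1.symm
  have hn0 : m * eop θ A m ∈ nbSub θ hsq A B := by
    refine ⟨fun c hc => ?_, ?_⟩
    · rw [map_mul, hm c hc, eop_fixed θ A m c (hBA hc)]
    · rw [eop_mul, eop_of_fixed θ A (eop θ A m) (fun a ha => eop_fixed θ A m a ha) hAodd (hsq _),
        ← pow_two, hsq]
  have hm1 := hNB1 _ hn0
  have hmE : m = eop θ A m := by
    rw [← hinv (eop θ A m)]
    exact eq_inv_of_mul_eq_one_left hm1
  intro a ha
  rw [hmE]
  exact eop_fixed θ A m a ha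

end abs

/-- K1. -/
theorem ng_noninv [Finite S] {M V : Subgroup S} {x : S} (h : Cfg M V x) (r : ℕ) [Fact r.Prime]
    (hr2 : r ≠ 2)
    (A : Subgroup S) (hA : Cfsg.IsElementaryAbelian r A) (hA3 : Nat.card A = r ^ 3)
    (hxA : ∀ a ∈ A, x * a * x⁻¹ ∈ A) (B : Subgroup S) (hBA : B ≤ A) (hB : Nat.card B = r ^ 2)
    (hxB : ¬ ∀ b ∈ B, x * b * x⁻¹ ∈ B) :
    M ⊓ Subgroup.centralizer (B : Set S) ≤ Subgroup.centralizer (A : Set S) := by
  haveI := h.normal
  letI : CommGroup ↥M :=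
    { (inferInstance : Group ↥M) with
      mul_comm := fun a b => Subtype.ext (h.comm a a.2 b b.2) }
  obtain ⟨k, hk⟩ := h.x3
  have hAc : ∀ a ∈ A, ∀ a' ∈ A, a * a' = a' * a := by
    intro a ha a' ha'
    have h1 := hA.1.is_comm.comm (⟨a, ha⟩ : ↥A) ⟨a', ha'⟩
    exact congrArg Subtype.val h1
  have hφV : ∀ m : ↥M, x * (m : S) * x⁻¹ * (m : S)⁻¹ ∈ V :=
    fun m => (h.hV _).mpr ⟨m, m.2, rfl⟩
  intro m hm0
  obtain ⟨hmM, hmB0⟩ := Subgroup.mem_inf.mp hm0
  have hmB : ∀ b ∈ (B : Set S), b * m = m * b := Subgroup.mem_centralizer_iff.mp hmB0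
  rw [Subgroup.mem_centralizer_iff]
  have key := k1_abs (N := ↥M) (MulAut.conjNormal (H := M))
    (fun n => Subtype.ext (by simpa using h.sq n n.2)) x ↥V (le_of_eq h.card)
    (fun m => ⟨_, hφV m⟩) ?_ k hk r hr2 A hAc hA3 hxA B hBA hB hxB ⟨m, hmM⟩ ?_
  · intro a ha
    have h1 := congrArg Subtype.val (key a ha)
    rw [MulAut.conjNormal_apply] at h1
    have h2 : a * m * a⁻¹ = m := h1
    calc a * m = a * m * a⁻¹ * a := by group
      _ = m * a := by rw [h2]
  · intro m₁ m₂ he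
    have h1 : x * (m₁ : S) * x⁻¹ * (m₁ : S)⁻¹ = x * (m₂ : S) * x⁻¹ * (m₂ : S)⁻¹ :=
      congrArg Subtype.val he
    apply Subtype.ext
    simpa [MulAut.conjNormal_apply] using h1
  · intro b hb
    apply Subtype.ext
    rw [MulAut.conjNormal_apply]
    change b * m * b⁻¹ = m
    rw [hmB b hb]
    group

end Cfsg.Agent.Helper83.NGK1
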