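import Mathlib

set_option autoImplicit false

/-!
helper83: PIECE INV of CALL S3206 (helper6): a simple normal subgroup with abelian centraliser
is invariant.
-/

namespace Cfsg.Agent.Helper83

/-- INV (a simple normal subgroup with abelian centraliser is invariant). -/
theorem jr_simple_normal_invariant {G : Type*} [Group G] [Finite G] (M N : Subgroup G)
    (hNM : N ≤ M) (hnorm : ∀ m ∈ M, ∀ n ∈ N, m * n * m⁻¹ ∈ N) (hsimp : IsSimpleGroup ↥N)
    (hnab : ∃ a ∈ N, ∃ b ∈ N, a * b ≠ b * a)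
    (hcen : ∀ x ∈ M, ∀ y ∈ M, (∀ n ∈ N, x * n = n * x) → (∀ n ∈ N, y * n = n * y) →
      x * y = y * x)
    (φ : G ≃* G) (hφM : ∀ x ∈ M, φ x ∈ M) : ∀ x ∈ N, φ x ∈ N := by
  classical
  -- `φ` maps `M` onto `M`
  have hsurj : ∀ m ∈ M, ∃ m' ∈ M, φ m' = m := by
    have hinj : Function.Injective (fun x : ↥M => (⟨φ x, hφM x x.2⟩ : ↥M)) := by
      intro x y h
      exact Subtype.ext (φ.injective (congrArg Subtype.val h))
    have hs := Finite.injective_iff_surjective.mp hinj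
    intro m hm
    obtain ⟨m', hm'⟩ := hs ⟨m, hm⟩
    exact ⟨m', m'.2, congrArg Subtype.val hm'⟩
  -- `φ(N)` is normalised by `M`
  have hn2 : ∀ m ∈ M, ∀ n ∈ N, ∃ n' ∈ N, m * φ n * m⁻¹ = φ n' := by
    intro m hm n hn
    obtain ⟨m', hm'M, rfl⟩ := hsurj m hm
    exact ⟨m' * n * m'⁻¹, hnorm m' hm'M n hn, by rw [map_mul, map_mul, map_inv]⟩
  obtain ⟨K, hKdef⟩ : ∃ K : Subgroup ↥N, K = (N.map φ.toMonoidHom).subgroupOf N := ⟨_, rfl⟩
  have hKmem : ∀ x : ↥N, x ∈ K ↔ ∃ n ∈ N, φ n = (x : G) := by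
    intro x
    rw [hKdef, Subgroup.mem_subgroupOf, Subgroup.mem_map]
    rfl
  have hKn : K.Normal := by
    refine ⟨fun k hk g => ?_⟩
    rw [hKmem] at hk ⊢
    obtain ⟨n, hn, hnk⟩ := hk
    obtain ⟨n', hn', h'⟩ := hn2 (g : G) (hNM g.2) n hn
    refine ⟨n', hn', ?_⟩
    rw [← h', hnk]
    rfl
  rcases hsimp.eq_bot_or_eq_top_of_normal K hKn with hK | hK
  · exfalso
    have hcomm : ∀ a ∈ N, ∀ b ∈ N, a * φ b = φ b * a := by
      intro a ha b hb
      have hbM : φ b ∈ M := hφM b (hNM hb)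
      have h1 : a * φ b * a⁻¹ * (φ b)⁻¹ ∈ N := by
        have h0 := N.mul_mem ha (hnorm (φ b) hbM a⁻¹ (N.inv_mem ha))
        have e : a * (φ b * a⁻¹ * (φ b)⁻¹) = a * φ b * a⁻¹ * (φ b)⁻¹ := by group
        rw [e] at h0
        exact h0
      obtain ⟨n', hn', h'⟩ := hn2 a (hNM ha) b hb
      have h3 : (⟨a * φ b * a⁻¹ * (φ b)⁻¹, h1⟩ : ↥N) ∈ K := by
        rw [hKmem]
        refine ⟨n' * b⁻¹, N.mul_mem hn' (N.inv_mem hb), ?_⟩
        rw [map_mul, map_inv, ← h']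
      rw [hK, Subgroup.mem_bot] at h3
      have h4 : a * φ b * a⁻¹ * (φ b)⁻¹ = 1 := congrArg Subtype.val h3
      calc a * φ b = (a * φ b * a⁻¹ * (φ b)⁻¹) * (φ b * a) := by group
        _ = φ b * a := by rw [h4, one_mul]
    obtain ⟨a, ha, b, hb, hab⟩ := hnab
    apply hab
    apply φ.injective
    rw [map_mul, map_mul]
    exact hcen (φ a) (hφM a (hNM ha)) (φ b) (hφM b (hNM hb))
      (fun n hn => (hcomm n hn a ha).symm) (fun n hn => (hcomm n hn b hb).symm)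
  · have hle : N ≤ N.map φ.toMonoidHom := by
      intro x hx
      have h0 : (⟨x, hx⟩ : ↥N) ∈ K := by
        rw [hK]
        exact Subgroup.mem_top _
      rw [hKmem] at h0
      obtain ⟨n, hn, hnx⟩ := h0
      exact ⟨n, hn, hnx⟩
    have hcard : Nat.card (N.map φ.toMonoidHom) = Nat.card N :=
      Subgroup.card_map_of_injective φ.injective
    have heq : N = N.map φ.toMonoidHom := Subgroup.eq_of_le_of_card_ge hle (by rw [hcard])
    intro x hx
    rw [heq]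
    exact ⟨x, hx, rfl⟩

end Cfsg.Agent.Helper83
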