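import Mathlib

set_option autoImplicit false

/-!
helper83: PIECE RESTR of CALL S3206 (helper6): restriction of an automorphism to an invariant
subgroup.
-/

namespace Cfsg.Agent.Helper83

/-- RESTR (restriction of an automorphism to an invariant subgroup). -/
theorem jr_restrict_aut {G : Type*} [Group G] [Finite G] (H : Subgroup G) (φ : G ≃* G)
    (hφ : ∀ x ∈ H, φ x ∈ H) (n : ℕ) (hn : φ ^ n = 1) :
    ∃ α : ↥H ≃* ↥H, (∀ x : ↥H, (α x : G) = φ x) ∧ α ^ n = 1 := by
  obtain ⟨f, hf⟩ : ∃ f : ↥H →* ↥H, ∀ x : ↥H, (f x : G) = φ x :=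
    ⟨{ toFun := fun x => ⟨φ (x : G), hφ x x.2⟩
       map_one' := Subtype.ext (map_one φ)
       map_mul' := fun x y => Subtype.ext (map_mul φ (x : G) (y : G)) }, fun x => rfl⟩
  have hinj : Function.Injective f := by
    intro x y h
    have h1 : φ (x : G) = φ (y : G) := by rw [← hf, ← hf, h]
    exact Subtype.ext (φ.injective h1)
  have hbij : Function.Bijective f := Finite.injective_iff_bijective.mp hinj
  obtain ⟨α, hα⟩ : ∃ α : ↥H ≃* ↥H, ∀ x : ↥H, (α x : G) = φ x :=
    ⟨MulEquiv.ofBijective f hbij, fun x => hf x⟩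
  refine ⟨α, hα, ?_⟩
  have hpow : ∀ (j : ℕ) (x : ↥H), (((α ^ j) x : ↥H) : G) = (φ ^ j) (x : G) := by
    intro j
    induction j with
    | zero =>
      intro x
      rfl
    | succ j ih =>
      intro x
      rw [pow_succ, pow_succ, MulAut.mul_apply, MulAut.mul_apply, ih, hα]
  apply MulEquiv.ext
  intro x
  apply Subtype.ext
  rw [hpow, hn]
  rfl

end Cfsg.Agent.Helper83
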