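import Mathlib

set_option autoImplicit false

/-!
helper83: PIECE SYLN of CALL S3206 (helper6): the intersection of a Sylow subgroup with a
normal subgroup (of a subgroup containing it) is a Sylow subgroup.
-/

namespace Cfsg.Agent.Helper83

/-- SYLN (Sylow ∩ normal subgroup is Sylow). -/
theorem jr_sylow_inf_normal {G : Type*} [Group G] [Finite G] (p : ℕ) [Fact p.Prime]
    (S : Sylow p G) (M N : Subgroup G) (hSM : (S : Subgroup G) ≤ M) (hNM : N ≤ M)
    (hnorm : ∀ m ∈ M, ∀ n ∈ N, m * n * m⁻¹ ∈ N) :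
    ∃ V : Sylow p ↥N, ∀ x : ↥N, x ∈ (V : Subgroup ↥N) ↔ (x : G) ∈ (S : Subgroup G) := by
  classical
  have hp : p.Prime := Fact.out
  obtain ⟨V₁⟩ : Nonempty (Sylow p ↥N) := inferInstance
  have hW : IsPGroup p ((V₁ : Subgroup ↥N).map N.subtype) := V₁.isPGroup'.map N.subtype
  have hW' : IsPGroup p (((V₁ : Subgroup ↥N).map N.subtype).subgroupOf M) := hW.comap_subtype
  obtain ⟨Q, hQ⟩ := hW'.exists_le_sylow
  obtain ⟨m, hm⟩ := MulAction.exists_smul_eq ↥M Q (S.subtype hSM)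
  have key : ∀ w : ↥N, w ∈ (V₁ : Subgroup ↥N) →
      (m : G) * (w : G) * (m : G)⁻¹ ∈ (S : Subgroup G) := by
    intro w hw
    have h1 : (⟨(w : G), hNM w.2⟩ : ↥M) ∈ (Q : Subgroup ↥M) := by
      apply hQ
      rw [Subgroup.mem_subgroupOf]
      exact ⟨w, hw, rfl⟩
    have h2 : m * ⟨(w : G), hNM w.2⟩ * m⁻¹ ∈ ((m • Q : Sylow p ↥M) : Subgroup ↥M) := by
      rw [Sylow.coe_subgroup_smul, Subgroup.mem_pointwise_smul_iff_inv_smul_mem]
      have e : (MulAut.conj m)⁻¹ • (m * ⟨(w : G), hNM w.2⟩ * m⁻¹) = ⟨(w : G), hNM w.2⟩ := by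
        rw [MulAut.smul_def, MulAut.conj_inv_apply]
        group
      rw [e]
      exact h1
    rw [hm, Sylow.coe_subtype, Subgroup.mem_subgroupOf] at h2
    exact h2
  have hle : Nat.card (V₁ : Subgroup ↥N) ≤ Nat.card ((S : Subgroup G).subgroupOf N) := by
    refine Nat.card_le_card_of_injective
      (fun w => ⟨⟨(m : G) * ((w : ↥N) : G) * (m : G)⁻¹, hnorm m m.2 _ (w : ↥N).2⟩, key _ w.2⟩) ?_
    intro w w' h
    have h1 : (m : G) * ((w : ↥N) : G) * (m : G)⁻¹ = (m : G) * ((w' : ↥N) : G) * (m : G)⁻¹ :=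
      congrArg (fun z : ↥((S : Subgroup G).subgroupOf N) => ((z : ↥N) : G)) h
    have h2 : ((w : ↥N) : G) = ((w' : ↥N) : G) := by
      have h3 := mul_right_cancel h1
      exact mul_left_cancel h3
    exact Subtype.ext (Subtype.ext h2)
  have hp0 : IsPGroup p ((S : Subgroup G).subgroupOf N) := S.isPGroup'.comap_subtype
  have hcard : Nat.card ((S : Subgroup G).subgroupOf N) = p ^ (Nat.card ↥N).factorization p := by
    obtain ⟨k, hk⟩ := (IsPGroup.iff_card).mp hp0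
    have h1 : p ^ k ∣ Nat.card ↥N := hk ▸ Subgroup.card_subgroup_dvd_card _
    have h2 : k ≤ (Nat.card ↥N).factorization p :=
      (Nat.Prime.pow_dvd_iff_le_factorization hp Nat.card_pos.ne').mp h1
    have h3 : p ^ (Nat.card ↥N).factorization p ≤ p ^ k := by
      rw [← hk, ← V₁.card_eq_multiplicity]
      exact hle
    have h4 : (Nat.card ↥N).factorization p ≤ k := (Nat.pow_le_pow_iff_right hp.one_lt).mp h3
    rw [hk]
    congr 1
    omega
  refine ⟨Sylow.ofCard _ hcard, fun x => ?_⟩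
  rw [← Subgroup.mem_subgroupOf]
  rfl

end Cfsg.Agent.Helper83
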