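import Mathlib

set_option autoImplicit false
set_option linter.style.haveILetI false

/-!
helper83: PIECE COMAP of CALL S3206 (helper6): order of a preimage.
-/

namespace Cfsg.Agent.Helper83

/-- COMAP (order of a preimage). -/
theorem jr_card_comap {L G : Type*} [Group L] [Group G] [Finite L] (π : L →* G)
    (hπ : Function.Surjective π) (S : Subgroup G) :
    Nat.card (S.comap π) = Nat.card π.ker * Nat.card S := by
  haveI : Finite G := Finite.of_surjective π hπ
  have h1 : (S.comap π).index = S.index := Subgroup.index_comap_of_surjective S hπ
  have h2 := (S.comap π).card_mul_index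
  have h3 := S.card_mul_index
  have h4 : Nat.card L = Nat.card π.ker * Nat.card G := by
    rw [Subgroup.card_eq_card_quotient_mul_card_subgroup π.ker,
      Nat.card_congr (QuotientGroup.quotientKerEquivOfSurjective π hπ).toEquiv, mul_comm]
  have h5 : 0 < S.index := Nat.pos_of_ne_zero Subgroup.index_ne_zero_of_finite
  rw [h1] at h2
  have h6 : Nat.card (S.comap π) * S.index = (Nat.card π.ker * Nat.card S) * S.index := by
    rw [h2, h4, ← h3]
    ring
  exact Nat.eq_of_mul_eq_mul_right h5 h6

end Cfsg.Agent.Helper83
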