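import Mathlib
import Cfsg.Agent.Helper40.SL2SylowTwo
import Cfsg.Agent.Helper5.SLCard
import Cfsg.Agent.Helper83.JR3206COMAP

set_option autoImplicit false
set_option linter.style.haveILetI false
set_option linter.unusedSectionVars false
set_option linter.unusedVariables false

/-!
helper83: PIECE PSYL of CALL S3206 (helper6): an abelian Sylow 2-subgroup of `PSL₂(q)`, `q` odd,
is a four-group.

The preimage `S` in `SL₂(q)` is a Sylow 2-subgroup; it contains `y` of trace zero inverted by some
`w ∈ S` (helper40).  As the image is abelian, two elements of `S` commute or anticommute as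
matrices; an element anticommuting with something has trace zero, hence square `-1`; an element
commuting with both `y` and `w` is scalar.  So every element of `S` has square `±1`, the
centraliser of `y` in `S` is `{±1, ±y}`, and `|S| = 8`.
-/

namespace Cfsg.Agent.Helper83

open Matrix Cfsg.Agent.Helper40 Cfsg.Agent.Helper42.SL2

section psyl

variable {F : Type*} [Field F]

theorem jrp_center_coe (z : Matrix.SpecialLinearGroup (Fin 2) F)
    (hz : z ∈ Subgroup.center (Matrix.SpecialLinearGroup (Fin 2) F)) : z.1 = 1 ∨ z.1 = -1 := by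
  rw [Matrix.SpecialLinearGroup.mem_center_iff] at hz
  obtain ⟨r, hr, hrA⟩ := hz
  simp only [Fintype.card_fin] at hr
  have : (r - 1) * (r + 1) = 0 := by linear_combination hr
  rcases mul_eq_zero.1 this with h | h
  · left
    have hr1 : r = 1 := by linear_combination h
    rw [← hrA, hr1]; simp
  · right
    have hr1 : r = -1 := by linear_combination h
    rw [← hrA, hr1]
    ext i j
    fin_cases i <;> fin_cases j <;> simp

theorem jrp_comm_or_anti {P : Type*} [Group P] (φ : Matrix.SpecialLinearGroup (Fin 2) F →* P)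
    (hker : φ.ker = Subgroup.center (Matrix.SpecialLinearGroup (Fin 2) F))
    (a b : Matrix.SpecialLinearGroup (Fin 2) F) (hab : φ a * φ b = φ b * φ a) :
    a.1 * b.1 = b.1 * a.1 ∨ a.1 * b.1 = -(b.1 * a.1) := by
  have hz : (a * b) * (b * a)⁻¹ ∈ Subgroup.center (Matrix.SpecialLinearGroup (Fin 2) F) := by
    rw [← hker, MonoidHom.mem_ker, map_mul, map_inv, map_mul, map_mul, hab, mul_inv_cancel]
  have hmul : a * b = ((a * b) * (b * a)⁻¹) * (b * a) := by group
  have hval := congrArg Subtype.val hmul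
  rw [Matrix.SpecialLinearGroup.coe_mul, Matrix.SpecialLinearGroup.coe_mul (_ * _⁻¹),
    Matrix.SpecialLinearGroup.coe_mul b a] at hval
  rcases jrp_center_coe _ hz with h | h
  · left; rw [hval, h, one_mul]
  · right; rw [hval, h, neg_mul, one_mul]

theorem jrp_sq (h2 : (2 : F) ≠ 0) (y w s : Matrix.SpecialLinearGroup (Fin 2) F)
    (hy : tr2 y = 0) (hw : Inverts w y)
    (hsy : s.1 * y.1 = y.1 * s.1 ∨ s.1 * y.1 = -(y.1 * s.1))
    (hsw : s.1 * w.1 = w.1 * s.1 ∨ s.1 * w.1 = -(w.1 * s.1)) :
    s.1 * s.1 = 1 ∨ s.1 * s.1 = -1 := by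
  have hns := nonScalar_of_tr2_eq_zero h2 y hy
  rcases hsy with hsy | hsy
  · rcases hsw with hsw | hsw
    · by_cases h1 : s.1 = 1
      · left; rw [h1, one_mul]
      by_cases h3 : s.1 = -1
      · left; rw [h3]; simp
      exfalso
      have hs := nonScalar_of_ne s h1 h3
      have hyc : y ∈ Subgroup.centralizer ({s} : Set (Matrix.SpecialLinearGroup (Fin 2) F)) :=
        (mem_centralizer_singleton s y).mpr hsy.symm
      have hwc : w ∈ Subgroup.centralizer ({s} : Set (Matrix.SpecialLinearGroup (Fin 2) F)) :=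
        (mem_centralizer_singleton s w).mpr hsw.symm
      have hcomm := centralizer_comm s hs w y hwc hyc
      have hwy : w ∈ Subgroup.centralizer ({y} : Set (Matrix.SpecialLinearGroup (Fin 2) F)) :=
        (mem_centralizer_singleton y w).mpr (by
          rw [← Matrix.SpecialLinearGroup.coe_mul, ← Matrix.SpecialLinearGroup.coe_mul, hcomm])
      exact not_inverts_of_mem h2 y w hns hwy hw
    · right
      have : tr2 s = 0 := anticomm_trace h2 s w (by rw [hsw, neg_neg])
      exact sq_of_tr2_eq_zero s this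
  · right
    have : tr2 s = 0 := anticomm_trace h2 s y (by rw [hsy, neg_neg])
    exact sq_of_tr2_eq_zero s this

theorem jrp_cent_mem (h2 : (2 : F) ≠ 0) (y c : Matrix.SpecialLinearGroup (Fin 2) F)
    (hy : tr2 y = 0) (hc : c.1 * y.1 = y.1 * c.1) (hsq : c.1 * c.1 = 1 ∨ c.1 * c.1 = -1) :
    c = 1 ∨ c = negOne ∨ c = y ∨ c = y⁻¹ := by
  have hyy := sq_of_tr2_eq_zero y hy
  rcases hsq with hsq | hsq
  · have : c * c = 1 := Subtype.ext (by rw [Matrix.SpecialLinearGroup.coe_mul, hsq]; rfl)
    rcases eq_one_or_neg_one_of_sq h2 c this with h | h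
    · left; exact Subtype.ext h
    · right; left; exact Subtype.ext (by rw [h, negOne_coe])
  · have hcy : (c * y) * (c * y) = 1 := by
      apply Subtype.ext
      rw [Matrix.SpecialLinearGroup.coe_mul, Matrix.SpecialLinearGroup.coe_mul]
      have : c.1 * y.1 * (c.1 * y.1) = (c.1 * c.1) * (y.1 * y.1) := by
        calc c.1 * y.1 * (c.1 * y.1) = c.1 * (y.1 * c.1) * y.1 := by
              simp only [Matrix.mul_assoc]
          _ = c.1 * (c.1 * y.1) * y.1 := by rw [← hc]
          _ = (c.1 * c.1) * (y.1 * y.1) := by simp only [Matrix.mul_assoc]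
      rw [this, hsq, hyy]
      simp
    rcases eq_one_or_neg_one_of_sq h2 (c * y) hcy with h | h
    · right; right; right
      have : c * y = 1 := Subtype.ext h
      exact eq_inv_of_mul_eq_one_left this
    · right; right; left
      apply Subtype.ext
      rw [Matrix.SpecialLinearGroup.coe_mul] at h
      have h3 : c.1 * y.1 * y.1 = -y.1 := by rw [h]; simp
      rw [Matrix.mul_assoc, hyy] at h3
      have h4 : c.1 * (-1 : Matrix (Fin 2) (Fin 2) F) = -c.1 := by simp
      rw [h4] at h3
      exact neg_injective h3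

end psyl

/-- PSYL (PSL₂). -/
theorem jr_psl2_sylow {F : Type*} [Field F] [Fintype F] (hFo : Odd (Fintype.card F))
    (hF3 : 3 < Fintype.card F) {P : Type*} [Group P]
    (e : P ≃* Matrix.ProjectiveSpecialLinearGroup (Fin 2) F) (V : Sylow 2 P)
    (hV : ∀ a ∈ (V : Subgroup P), ∀ b ∈ (V : Subgroup P), a * b = b * a) :
    Nat.card (V : Subgroup P) = 4 ∧ ∀ v ∈ (V : Subgroup P), v * v = 1 := by
  classical
  have h2 := two_ne_zero_of_odd hFo
  obtain ⟨φ, hφ⟩ : ∃ φ : Matrix.SpecialLinearGroup (Fin 2) F →* P,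
      φ = e.symm.toMonoidHom.comp
        (QuotientGroup.mk' (Subgroup.center (Matrix.SpecialLinearGroup (Fin 2) F))) := ⟨_, rfl⟩
  have hsurj : Function.Surjective φ := by
    rw [hφ]
    exact e.symm.surjective.comp (QuotientGroup.mk'_surjective _)
  have hker : φ.ker = Subgroup.center (Matrix.SpecialLinearGroup (Fin 2) F) := by
    ext x
    rw [MonoidHom.mem_ker, hφ]
    simp only [MonoidHom.coe_comp, MulEquiv.coe_toMonoidHom, Function.comp_apply]
    rw [MulEquiv.map_eq_one_iff, QuotientGroup.mk'_apply, QuotientGroup.eq_one_iff]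
  have hkercard : Nat.card φ.ker = 2 := by
    rw [hker]; exact Cfsg.Agent.Helper5.card_center_SL2 h2
  have hkerp : IsPGroup 2 φ.ker := by
    apply IsPGroup.of_card (n := 1)
    rw [hkercard]; rfl
  have hrange : (V : Subgroup P) ≤ φ.range := by
    rw [MonoidHom.range_eq_top.mpr hsurj]; exact le_top
  obtain ⟨S, hS⟩ : ∃ S : Sylow 2 (Matrix.SpecialLinearGroup (Fin 2) F),
      (S : Subgroup (Matrix.SpecialLinearGroup (Fin 2) F)) = (V : Subgroup P).comap φ :=
    ⟨V.comapOfKerIsPGroup φ hkerp hrange, rfl⟩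
  have hmemS : ∀ s, s ∈ (S : Subgroup (Matrix.SpecialLinearGroup (Fin 2) F)) ↔
      φ s ∈ (V : Subgroup P) := by
    intro s; rw [hS, Subgroup.mem_comap]
  obtain ⟨y, hyS, hy, ⟨w, hwS, hw⟩, hall⟩ := exists_trace_zero_mem_sylow hFo S
  have hns := nonScalar_of_tr2_eq_zero h2 y hy
  have hca : ∀ a ∈ (S : Subgroup (Matrix.SpecialLinearGroup (Fin 2) F)),
      ∀ b ∈ (S : Subgroup (Matrix.SpecialLinearGroup (Fin 2) F)),
        a.1 * b.1 = b.1 * a.1 ∨ a.1 * b.1 = -(b.1 * a.1) := by
    intro a ha b hb
    exact jrp_comm_or_anti φ hker a b (hV _ ((hmemS a).mp ha) _ ((hmemS b).mp hb))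
  have hsq : ∀ s ∈ (S : Subgroup (Matrix.SpecialLinearGroup (Fin 2) F)),
      s.1 * s.1 = 1 ∨ s.1 * s.1 = -1 := by
    intro s hs
    exact jrp_sq h2 y w s hy hw (hca s hs y hyS) (hca s hs w hwS)
  have hcard2 := card_eq_two_mul_of_inverts h2
    (S : Subgroup (Matrix.SpecialLinearGroup (Fin 2) F)) y w hy hwS hw hall
  have h8 := eight_dvd_card_sylow hFo S
  have hC : Nat.card ((Subgroup.centralizer
      ({y} : Set (Matrix.SpecialLinearGroup (Fin 2) F))).subgroupOf
        (S : Subgroup (Matrix.SpecialLinearGroup (Fin 2) F))) ≤ 4 := by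
    have hmem : ∀ c : ((Subgroup.centralizer
        ({y} : Set (Matrix.SpecialLinearGroup (Fin 2) F))).subgroupOf
          (S : Subgroup (Matrix.SpecialLinearGroup (Fin 2) F))),
        (c.1.1 : Matrix.SpecialLinearGroup (Fin 2) F) ∈
          ({1, negOne, y, y⁻¹} : Set (Matrix.SpecialLinearGroup (Fin 2) F)) := by
      intro c
      have h1 : c.1.1 ∈ Subgroup.centralizer
          ({y} : Set (Matrix.SpecialLinearGroup (Fin 2) F)) := Subgroup.mem_subgroupOf.mp c.2
      have h3 := (mem_centralizer_singleton y c.1.1).mp h1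
      have h4 := jrp_cent_mem h2 y c.1.1 hy h3 (hsq _ c.1.2)
      simpa [Set.mem_insert_iff] using h4
    have hinj : Function.Injective (fun c : ((Subgroup.centralizer
        ({y} : Set (Matrix.SpecialLinearGroup (Fin 2) F))).subgroupOf
          (S : Subgroup (Matrix.SpecialLinearGroup (Fin 2) F))) =>
        (⟨c.1.1, hmem c⟩ : ({1, negOne, y, y⁻¹} : Set (Matrix.SpecialLinearGroup (Fin 2) F)))) := by
      intro a b hab
      have := congrArg Subtype.val hab
      exact Subtype.ext (Subtype.ext this)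
    have h5 := Nat.card_le_card_of_injective _ hinj
    rw [Nat.card_coe_set_eq] at h5
    have h7 : ({1, negOne, y, y⁻¹} : Set (Matrix.SpecialLinearGroup (Fin 2) F)).ncard ≤ 4 := by
      have a1 := Set.ncard_insert_le (1 : Matrix.SpecialLinearGroup (Fin 2) F)
        ({negOne, y, y⁻¹} : Set (Matrix.SpecialLinearGroup (Fin 2) F))
      have a2 := Set.ncard_insert_le (negOne : Matrix.SpecialLinearGroup (Fin 2) F)
        ({y, y⁻¹} : Set (Matrix.SpecialLinearGroup (Fin 2) F))
      have a3 := Set.ncard_insert_le y ({y⁻¹} : Set (Matrix.SpecialLinearGroup (Fin 2) F))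
      rw [Set.ncard_singleton] at a3
      omega
    omega
  have hS8 : Nat.card (S : Subgroup (Matrix.SpecialLinearGroup (Fin 2) F)) = 8 := by
    have hpos : 0 < Nat.card (S : Subgroup (Matrix.SpecialLinearGroup (Fin 2) F)) := Nat.card_pos
    have := Nat.le_of_dvd hpos h8
    omega
  have hcomap := jr_card_comap φ hsurj (V : Subgroup P)
  rw [← hS, hS8, hkercard] at hcomap
  refine ⟨by omega, ?_⟩
  intro v hv
  obtain ⟨s, rfl⟩ := hsurj v
  have hs : s ∈ (S : Subgroup (Matrix.SpecialLinearGroup (Fin 2) F)) := (hmemS s).mpr hv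
  have hcen : s * s ∈ φ.ker := by
    rw [hker]
    apply mem_center_of_coe
    rw [Matrix.SpecialLinearGroup.coe_mul]
    exact hsq s hs
  rw [← map_mul]
  exact (MonoidHom.mem_ker).mp hcen

end Cfsg.Agent.Helper83
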