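import Mathlib
import Cfsg.Agent.Helper9.BRDefs
import Cfsg.Agent.Helper82.A7Defs
import Cfsg.Agent.Helper78.StructConst
import Cfsg.Agent.Helper80.CharIrr

/-!
# CALL S0984 piece CHK (helper83): the value of a degree 6 character on the Klein four-group

`a7cfg_klein_struct`: in the configuration `A7Cfg P x x2 t K`, the group `K` consists of `1` and
three involutions `k`, `x2 k x2⁻¹`, `x2² k x2⁻²` permuted cyclically by `x2`.
`a7_chi_klein`: a faithful irreducible character of degree `6` takes the value `2` or `-2` on the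
involutions of `K`.
-/

set_option autoImplicit false
set_option linter.style.haveILetI false
open Cfsg
open scoped ComplexConjugate

universe u

namespace Cfsg.Agent.Helper83

/-- The structure of the four-group `K` of an `A7Cfg`. -/
theorem a7cfg_klein_struct {G : Type u} [Group G] [Finite G] (P : Sylow 3 G) (x x2 t : G)
    (K : Subgroup G) (h : Helper82.A7Cfg P x x2 t K) (k : G) (hk : k ∈ K) (hk1 : k ≠ 1) :
    x2 * x = x * x2 ∧ x2 ^ 3 = 1 ∧ k * k = 1 ∧
    x2 * k * x2⁻¹ ∈ K ∧ x2 * (x2 * k * x2⁻¹) * x2⁻¹ ∈ K ∧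
    x2 * k * x2⁻¹ ≠ 1 ∧ x2 * k * x2⁻¹ ≠ k ∧
    x2 * (x2 * k * x2⁻¹) * x2⁻¹ ≠ 1 ∧ x2 * (x2 * k * x2⁻¹) * x2⁻¹ ≠ k ∧
    x2 * (x2 * k * x2⁻¹) * x2⁻¹ ≠ x2 * k * x2⁻¹ ∧
    (∀ κ ∈ K, κ = 1 ∨ κ = k ∨ κ = x2 * k * x2⁻¹ ∨ κ = x2 * (x2 * k * x2⁻¹) * x2⁻¹) ∧
    k * (x2 * k * x2⁻¹) = x2 * (x2 * k * x2⁻¹) * x2⁻¹ ∧
    x2 * (x2 * (x2 * k * x2⁻¹) * x2⁻¹) * x2⁻¹ = k := by
  classical
  haveI : Fact (Nat.Prime 3) := ⟨by norm_num⟩
  -- P is abelian
  have hPcomm : ∀ a b : (P : Subgroup G), a * b = b * a :=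
    (IsPGroup.isMulCommutative_of_card_eq_prime_sq (p := 3)
      (by rw [h.hP9]; norm_num)).is_comm.comm
  have hxx2 : x2 * x = x * x2 := by
    have := hPcomm ⟨x2, h.hx2P⟩ ⟨x, h.hxP⟩
    exact congrArg Subtype.val this
  have hx3 : x ^ 3 = 1 := by rw [← h.hx]; exact pow_orderOf_eq_one x
  have hx23 : x2 ^ 3 = 1 := by
    obtain ⟨c, hc⟩ := isConj_iff.mp h.hconj
    rw [← hc, conj_pow, hx3]; group
  have hx2inv : x2⁻¹ * x = x * x2⁻¹ := by
    rw [inv_mul_eq_iff_eq_mul, ← mul_assoc, hxx2, mul_assoc, mul_inv_cancel, mul_one]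
  -- elements of K have fourth power one
  have hpow4 : ∀ κ ∈ K, κ ^ 4 = 1 := by
    intro κ hκ
    have := pow_card_eq_one' (G := K) (x := ⟨κ, hκ⟩)
    rw [h.hK4] at this
    exact congrArg Subtype.val this
  -- x2 normalizes K
  have hnorm : ∀ κ ∈ K, x2 * κ * x2⁻¹ ∈ K := by
    intro κ hκ
    refine h.hKall _ ?_ ?_
    · have hκx := h.hKx κ hκ
      calc x2 * κ * x2⁻¹ * x = x2 * κ * (x2⁻¹ * x) := by group
        _ = x2 * (κ * x) * x2⁻¹ := by rw [hx2inv]; group
        _ = (x2 * x) * κ * x2⁻¹ := by rw [hκx]; group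
        _ = x * (x2 * κ * x2⁻¹) := by rw [hxx2]; group
    · apply orderOf_dvd_of_pow_eq_one
      rw [conj_pow, hpow4 κ hκ]; group
  -- x2 acts without fixed points
  have hfix : ∀ κ ∈ K, x2 * κ * x2⁻¹ = κ → κ = 1 := by
    intro κ hκ he
    exact h.hKfix x2 h.hx2P h.hx2 κ hκ (mul_inv_eq_iff_eq_mul.mp he)
  have hk1K := hnorm k hk
  have hk2K := hnorm _ hk1K
  have h11 : x2 * k * x2⁻¹ ≠ 1 := by
    intro he
    apply hk1
    have : k = x2⁻¹ * (x2 * k * x2⁻¹) * x2 := by group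
    rw [this, he]; group
  have h1k : x2 * k * x2⁻¹ ≠ k := fun he => hk1 (hfix k hk he)
  have h21 : x2 * (x2 * k * x2⁻¹) * x2⁻¹ ≠ 1 := by
    intro he
    apply h11
    have : x2 * k * x2⁻¹ = x2⁻¹ * (x2 * (x2 * k * x2⁻¹) * x2⁻¹) * x2 := by group
    rw [this, he]; group
  have h21' : x2 * (x2 * k * x2⁻¹) * x2⁻¹ ≠ x2 * k * x2⁻¹ := fun he => h11 (hfix _ hk1K he)
  have hx2sq : x2 * x2 = x2⁻¹ := by
    rw [eq_inv_iff_mul_eq_one, ← hx23, pow_succ, pow_two]
  have h3k : x2 * (x2 * (x2 * k * x2⁻¹) * x2⁻¹) * x2⁻¹ = k := by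
    have : x2 * (x2 * (x2 * k * x2⁻¹) * x2⁻¹) * x2⁻¹ = x2 ^ 3 * k * (x2 ^ 3)⁻¹ := by
      simp [pow_succ, mul_assoc]
    rw [this, hx23]; group
  have h2k : x2 * (x2 * k * x2⁻¹) * x2⁻¹ ≠ k := by
    intro he
    apply h21'
    have e2 : x2 * (x2 * (x2 * k * x2⁻¹) * x2⁻¹) * x2⁻¹ = x2 * k * x2⁻¹ := by rw [he]
    rw [h3k] at e2
    rw [he]; exact e2
  -- K is the set of these four elements
  have hKset : (K : Set G) =
      ((({1, k, x2 * k * x2⁻¹, x2 * (x2 * k * x2⁻¹) * x2⁻¹} : Finset G) : Finset G) : Set G) := by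
    symm
    apply Set.eq_of_subset_of_ncard_le
    · intro g hg
      simp only [Finset.coe_insert, Finset.coe_singleton, Set.mem_insert_iff,
        Set.mem_singleton_iff] at hg
      rcases hg with rfl | rfl | rfl | rfl
      · exact K.one_mem
      · exact hk
      · exact hk1K
      · exact hk2K
    · rw [Set.ncard_coe_finset]
      have : (K : Set G).ncard = 4 := by
        rw [← h.hK4]; rfl
      rw [this, Finset.card_insert_of_notMem, Finset.card_insert_of_notMem,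
        Finset.card_insert_of_notMem, Finset.card_singleton]
      · simpa using h21'.symm
      · simp only [Finset.mem_insert, Finset.mem_singleton, not_or]
        exact ⟨h1k.symm, h2k.symm⟩
      · simp only [Finset.mem_insert, Finset.mem_singleton, not_or]
        exact ⟨hk1.symm, h11.symm, h21.symm⟩
    · exact Set.toFinite _
  have hKmem : ∀ κ ∈ K, κ = 1 ∨ κ = k ∨ κ = x2 * k * x2⁻¹ ∨
      κ = x2 * (x2 * k * x2⁻¹) * x2⁻¹ := by
    intro κ hκ
    have : κ ∈ (K : Set G) := hκ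
    rw [hKset] at this
    simpa using this
  have hconjmul : ∀ a b : G, x2 * (a * b) * x2⁻¹ = (x2 * a * x2⁻¹) * (x2 * b * x2⁻¹) := by
    intro a b; group
  -- k is an involution
  have hkk : k * k = 1 := by
    rcases hKmem (k * k) (K.mul_mem hk hk) with he | he | he | he
    · exact he
    · exfalso; apply hk1
      have : k = k⁻¹ * (k * k) := by group
      rw [this, he]; group
    · exfalso
      apply h21
      have e2 : (x2 * k * x2⁻¹) * (x2 * k * x2⁻¹) = x2 * (x2 * k * x2⁻¹) * x2⁻¹ := by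
        rw [← hconjmul, he]
      rw [← e2, ← he]
      have := hpow4 k hk
      rw [← this]; simp [pow_succ, mul_assoc]
    · exfalso
      have e2 : (x2 * k * x2⁻¹) * (x2 * k * x2⁻¹) = k := by
        rw [← hconjmul, he, h3k]
      have e4 := hpow4 _ hk1K
      have : (x2 * k * x2⁻¹) ^ 4 = ((x2 * k * x2⁻¹) * (x2 * k * x2⁻¹)) *
          ((x2 * k * x2⁻¹) * (x2 * k * x2⁻¹)) := by simp only [pow_succ, pow_zero, one_mul, mul_assoc]
      rw [this, e2, he] at e4
      exact h21 e4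
  have hkk1 : k * (x2 * k * x2⁻¹) = x2 * (x2 * k * x2⁻¹) * x2⁻¹ := by
    rcases hKmem (k * (x2 * k * x2⁻¹)) (K.mul_mem hk hk1K) with he | he | he | he
    · exfalso; apply h1k
      have : x2 * k * x2⁻¹ = k⁻¹ * (k * (x2 * k * x2⁻¹)) := by group
      rw [this, he, mul_one, inv_eq_iff_mul_eq_one, hkk]
    · exfalso; apply h11
      have : x2 * k * x2⁻¹ = k⁻¹ * (k * (x2 * k * x2⁻¹)) := by group
      rw [this, he]; group
    · exfalso; apply hk1
      have : k = (k * (x2 * k * x2⁻¹)) * (x2 * k * x2⁻¹)⁻¹ := by group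
      rw [this, he]; group
    · exact he
  exact ⟨hxx2, hx23, hkk, hk1K, hk2K, h11, h1k, h21, h2k, h21', hKmem, hkk1, h3k⟩

/-- A finite sum over the four-group `K` of an `A7Cfg`, written out. -/
theorem a7cfg_klein_finsum {G : Type u} [Group G] [Finite G] (P : Sylow 3 G) (x x2 t : G)
    (K : Subgroup G) (h : Helper82.A7Cfg P x x2 t K) (k : G) (hk : k ∈ K) (hk1 : k ≠ 1)
    (f : G → ℂ) :
    ∑ᶠ κ ∈ (K : Set G), f κ =
      f 1 + f k + f (x2 * k * x2⁻¹) + f (x2 * (x2 * k * x2⁻¹) * x2⁻¹) := by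
  obtain ⟨-, -, -, hk1K, hk2K, h11, h1k, h21, h2k, h21', hKmem, -, -⟩ :=
    a7cfg_klein_struct P x x2 t K h k hk hk1
  have hKset : (K : Set G) = {1, k, x2 * k * x2⁻¹, x2 * (x2 * k * x2⁻¹) * x2⁻¹} := by
    ext g
    simp only [SetLike.mem_coe, Set.mem_insert_iff, Set.mem_singleton_iff]
    constructor
    · exact hKmem g
    · rintro (rfl | rfl | rfl | rfl)
      · exact K.one_mem
      · exact hk
      · exact hk1K
      · exact hk2K
  rw [hKset, finsum_mem_insert _ _ (Set.toFinite _), finsum_mem_insert _ _ (Set.toFinite _),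
    finsum_mem_insert _ _ (Set.toFinite _), finsum_mem_singleton]
  · ring
  · simpa using h21'.symm
  · simp only [Set.mem_insert_iff, Set.mem_singleton_iff, not_or]
    exact ⟨h1k.symm, h2k.symm⟩
  · simp only [Set.mem_insert_iff, Set.mem_singleton_iff, not_or]
    exact ⟨hk1.symm, h11.symm, h21.symm⟩

/-- PIECE CHK -/
theorem a7_chi_klein {G : Type u} [Group G] [Finite G] (P : Sylow 3 G) (x x2 t : G)
    (K : Subgroup G) (h : Helper82.A7Cfg P x x2 t K) (χ : Cfsg.IrrCharacter G)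
    (h6 : (χ : G → ℂ) 1 = 6) (hker : ∀ g : G, (χ : G → ℂ) g = (χ : G → ℂ) 1 → g = 1)
    (k : G) (hk : k ∈ K) (hk1 : k ≠ 1) : (χ : G → ℂ) k = 2 ∨ (χ : G → ℂ) k = -2 := by
  classical
  obtain ⟨-, -, hkk, -, -, -, -, -, -, -, -, -, -⟩ :=
    a7cfg_klein_struct P x x2 t K h k hk hk1
  haveI : Fintype G := Fintype.ofFinite G
  haveI : Fintype K := Fintype.ofFinite K
  -- the subgroup {1, k}
  let S : Subgroup G :=
    { carrier := {1, k}
      mul_mem' := by
        rintro a b (rfl | rfl) (rfl | rfl)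
        · left; exact mul_one 1
        · right; exact one_mul b
        · right; exact mul_one a
        · left; exact hkk
      one_mem' := Or.inl rfl
      inv_mem' := by
        rintro a (rfl | rfl)
        · left; exact inv_one
        · right; exact inv_eq_of_mul_eq_one_left hkk }
  haveI : Fintype S := Fintype.ofFinite S
  obtain ⟨m, hm⟩ := Helper78.exists_nat_sum_subgroup χ K
  obtain ⟨m', hm'⟩ := Helper78.exists_nat_sum_subgroup χ S
  have hcardS : Nat.card S = 2 := by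
    have : Nat.card S = ({1, k} : Set G).ncard := rfl
    rw [this, Set.ncard_pair hk1.symm]
  have e1 : ∑ s : K, (χ : G → ℂ) s = ∑ᶠ κ ∈ (K : Set G), (χ : G → ℂ) κ := by
    rw [← finsum_eq_sum_of_fintype]
    exact finsum_set_coe_eq_finsum_mem (f := fun g => (χ : G → ℂ) g) (K : Set G)
  have e2 : ∑ s : S, (χ : G → ℂ) s = ∑ᶠ κ ∈ ({1, k} : Set G), (χ : G → ℂ) κ := by
    rw [← finsum_eq_sum_of_fintype]
    exact finsum_set_coe_eq_finsum_mem (f := fun g => (χ : G → ℂ) g) ({1, k} : Set G)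
  rw [e1, a7cfg_klein_finsum P x x2 t K h k hk hk1, h.hK4, Helper81.irr_conj,
    Helper81.irr_conj, Helper81.irr_conj, h6] at hm
  rw [e2, finsum_mem_pair hk1.symm, hcardS, h6] at hm'
  -- the norm bound
  have hdeg : Cfsg.charDegree (χ : G → ℂ) = 6 := by
    have := Helper80.irr_one_eq χ
    rw [h6] at this
    exact_mod_cast this.symm
  have hnorm := Helper80.isCharacter_norm_le (Helper80.isCharacter_of_irr χ.2) k
  rw [hdeg] at hnorm
  have hc : (χ : G → ℂ) k = ((2 * (m' : ℝ) - 6 : ℝ) : ℂ) := by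
    push_cast; linear_combination hm'
  rw [hc, Complex.norm_real, Real.norm_eq_abs, abs_le] at hnorm
  have hm'6 : m' ≤ 6 := by
    have : (m' : ℝ) ≤ 6 := by push_cast at hnorm; linarith [hnorm.2]
    exact_mod_cast this
  have hrel : 6 * m' = 4 * m + 12 := by
    have : ((6 * m' : ℕ) : ℂ) = ((4 * m + 12 : ℕ) : ℂ) := by
      push_cast; linear_combination hm - 3 * hm'
    exact_mod_cast this
  have hcases : m' = 2 ∨ m' = 4 ∨ m' = 6 := by omega
  rcases hcases with rfl | rfl | rfl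
  · right; rw [hc]; push_cast; norm_num
  · left; rw [hc]; push_cast; norm_num
  · exfalso; apply hk1; apply hker
    rw [hc, h6]; push_cast; norm_num

end Cfsg.Agent.Helper83
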