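import Mathlib
import Cfsg.Agent.Helper9.BRDefs
import Cfsg.Agent.Helper82.A7Defs
import Cfsg.Agent.Helper83.A7CHK
import Cfsg.Agent.Helper14.A7AVG0
import Cfsg.Agent.Helper73.A7MULT12

/-!
# CALL S0984 piece CHA2 (helper83): a faithful degree 6 character is not `-2` on the four-group

If `χ k = -2` for the involutions `k` of `K`, then `χ` sums to `0` over `K`, hence over the cosets
`K x2` and `K x` (AVG0); this forces `χ x = 0` and `χ (κ x) = 0` for `κ ∈ K`, and the multiplicity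
of a linear character of `⟨x⟩ × K` (MULT12) would be `8 / 12`.
-/

set_option autoImplicit false
set_option linter.style.haveILetI false
open Cfsg
open scoped ComplexConjugate

universe u

namespace Cfsg.Agent.Helper83

/-- PIECE CHA2 (uses MULT12, AVG0) -/
theorem a7_chi_neg {G : Type u} [Group G] [Finite G] (P : Sylow 3 G) (x x2 t : G)
    (K : Subgroup G) (h : Helper82.A7Cfg P x x2 t K) (χ : Cfsg.IrrCharacter G)
    (h6 : (χ : G → ℂ) 1 = 6) (hker : ∀ g : G, (χ : G → ℂ) g = (χ : G → ℂ) 1 → g = 1)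
    (k : G) (hk : k ∈ K) (hk1 : k ≠ 1) (hc : (χ : G → ℂ) k = -2) : False := by
  classical
  obtain ⟨hxx2, hx23, hkk, hk1K, hk2K, h11, h1k, h21, h2k, h21', hKmem, hkk1, h3k⟩ :=
    a7cfg_klein_struct P x x2 t K h k hk hk1
  have hfin := a7cfg_klein_finsum P x x2 t K h k hk hk1
  obtain ⟨k1, hk1def⟩ : ∃ k1, k1 = x2 * k * x2⁻¹ := ⟨_, rfl⟩
  rw [← hk1def] at hk1K hk2K h11 h1k h21 h2k h21' hKmem hkk1 h3k hfin
  obtain ⟨k2, hk2def⟩ : ∃ k2, k2 = x2 * k1 * x2⁻¹ := ⟨_, rfl⟩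
  rw [← hk2def] at hk2K h21 h2k h21' hKmem hkk1 h3k hfin
  have hx3 : x ^ 3 = 1 := by rw [← h.hx]; exact pow_orderOf_eq_one x
  have hx2inv : x * x2⁻¹ = x2⁻¹ * x := by
    rw [eq_inv_mul_iff_mul_eq, ← mul_assoc, hxx2, mul_assoc, mul_inv_cancel, mul_one]
  have hconjmul : ∀ a b : G, x2 * (a * b) * x2⁻¹ = (x2 * a * x2⁻¹) * (x2 * b * x2⁻¹) := by
    intro a b; group
  have hk1k1 : k1 * k1 = 1 := by
    rw [hk1def, ← hconjmul, hkk]; group
  have hk2k2 : k2 * k2 = 1 := by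
    rw [hk2def, ← hconjmul, hk1k1]; group
  have hk1k2 : k1 * k2 = k := by
    rw [hk2def]; nth_rewrite 1 [hk1def]
    rw [← hconjmul, hkk1, h3k]
  have hk2k : k2 * k = k1 := by
    have : k2 * k = x2 * (k1 * k2) * x2⁻¹ := by
      rw [hconjmul, ← hk2def, h3k]
    rw [this, hk1k2, hk1def]
  have hkinv : k⁻¹ = k := inv_eq_of_mul_eq_one_left hkk
  have hk1inv : k1⁻¹ = k1 := inv_eq_of_mul_eq_one_left hk1k1
  have hk2inv : k2⁻¹ = k2 := inv_eq_of_mul_eq_one_left hk2k2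
  -- character facts
  have hcl : ∀ g c : G, (χ : G → ℂ) (c * g * c⁻¹) = (χ : G → ℂ) g := fun g c =>
    Helper81.irr_conj χ g c
  have hinv0 : ∀ g : G, (χ : G → ℂ) g = 0 → (χ : G → ℂ) g⁻¹ = 0 := by
    intro g hg
    rw [Helper80.isCharacter_inv (Helper80.isCharacter_of_irr χ.2) g, hg, map_zero]
  have hχk1 : (χ : G → ℂ) k1 = -2 := by rw [hk1def, hcl, hc]
  have hχk2 : (χ : G → ℂ) k2 = -2 := by rw [hk2def, hcl, hχk1]
  have h0 : ∑ᶠ κ ∈ (K : Set G), (χ : G → ℂ) κ = 0 := by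
    rw [hfin, h6, hc, hχk1, hχk2]; norm_num
  -- the coset K x2
  have hA2 := Helper14.a7_avg_zero χ K h0 x2
  rw [hfin (fun κ => (χ : G → ℂ) (κ * x2))] at hA2
  have e1 : k2 * x2 = k * x2 * k⁻¹ := by
    rw [hkinv, ← hkk1, hk1def]; group
  have e2 : k * x2 = k1 * x2 * k1⁻¹ := by
    rw [hk1inv, ← hk1k2, hk2def]; group
  have e3 : k1 * x2 = k2 * x2 * k2⁻¹ := by
    have h3k' : x2 * k2 * x2⁻¹ = k := h3k
    rw [hk2inv, ← hk2k, ← h3k']
    group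
  have hχx2 : (χ : G → ℂ) x2 = 0 := by
    simp only [one_mul] at hA2
    rw [e3, hcl, e2, hcl, e1, hcl] at hA2
    linear_combination (1 / 4 : ℂ) * hA2
  have hχx : (χ : G → ℂ) x = 0 := by
    obtain ⟨c, hcx⟩ := isConj_iff.mp h.hconj
    rw [← hcl x c, hcx, hχx2]
  -- the coset K x
  have hA1 := Helper14.a7_avg_zero χ K h0 x
  rw [hfin (fun κ => (χ : G → ℂ) (κ * x))] at hA1
  have e4 : k1 * x = x2 * (k * x) * x2⁻¹ := by
    rw [hk1def, mul_assoc x2 (k * x), mul_assoc k x, hx2inv]; group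
  have e5 : k2 * x = x2 * (k1 * x) * x2⁻¹ := by
    rw [hk2def, mul_assoc x2 (k1 * x), mul_assoc k1 x, hx2inv]; group
  have hχk1x : (χ : G → ℂ) (k1 * x) = (χ : G → ℂ) (k * x) := by rw [e4, hcl]
  have hχk2x : (χ : G → ℂ) (k2 * x) = (χ : G → ℂ) (k * x) := by rw [e5, hcl, hχk1x]
  have hf : (χ : G → ℂ) (k * x) = 0 := by
    simp only [one_mul] at hA1
    rw [hχk1x, hχk2x, hχx] at hA1
    linear_combination (1 / 3 : ℂ) * hA1
  rw [hf] at hχk1x hχk2x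
  -- MULT12
  have hxk : x * k = k * x := (h.hKx k hk).symm
  have hxk1 : x * k1 = k1 * x := (h.hKx k1 hk1K).symm
  have hxk2 : x * k2 = k2 * x := (h.hKx k2 hk2K).symm
  have hkk1c : k * k1 = k1 * k := by
    have : k1 * k = (k * k1)⁻¹ := by rw [mul_inv_rev, hkinv, hk1inv]
    rw [this, hkk1, hk2inv]
  obtain ⟨n, hn⟩ := Helper73.a7_mult12 χ x k k1 hx3 (by rw [pow_two, hkk]) (by rw [pow_two, hk1k1])
    hxk hxk1 hkk1c 1 (-1) 1 (by norm_num) (by norm_num) (by norm_num)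
  have hxsq : x ^ 2 = x⁻¹ := by
    rw [eq_inv_iff_mul_eq_one, ← pow_succ]; exact hx3
  have hsum : ∑ i ∈ Finset.range 3, ∑ j ∈ Finset.range 2, ∑ l ∈ Finset.range 2,
      (χ : G → ℂ) (x ^ i * k ^ j * k1 ^ l) * ((1 : ℂ) ^ i * (-1) ^ j * 1 ^ l) =
      (χ : G → ℂ) 1 + (χ : G → ℂ) k1 - (χ : G → ℂ) k - (χ : G → ℂ) (k * k1)
      + ((χ : G → ℂ) x + (χ : G → ℂ) (x * k1) - (χ : G → ℂ) (x * k) - (χ : G → ℂ) (x * k * k1))
      + ((χ : G → ℂ) (x ^ 2) + (χ : G → ℂ) (x ^ 2 * k1) - (χ : G → ℂ) (x ^ 2 * k)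
        - (χ : G → ℂ) (x ^ 2 * k * k1)) := by
    simp only [Finset.sum_range_succ, Finset.sum_range_zero, zero_add, pow_zero, pow_one, one_mul,
      mul_one, one_pow]
    ring
  have v1 : (χ : G → ℂ) (x * k1) = 0 := by rw [hxk1, hχk1x]
  have v2 : (χ : G → ℂ) (x * k) = 0 := by rw [hxk, hf]
  have v3 : (χ : G → ℂ) (x * k * k1) = 0 := by rw [mul_assoc, hkk1, hxk2, hχk2x]
  have v4 : (χ : G → ℂ) (x ^ 2) = 0 := by rw [hxsq]; exact hinv0 x hχx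
  have v5 : (χ : G → ℂ) (x ^ 2 * k1) = 0 := by
    have : x ^ 2 * k1 = (k1 * x)⁻¹ := by rw [mul_inv_rev, hk1inv, hxsq]
    rw [this]; exact hinv0 _ hχk1x
  have v6 : (χ : G → ℂ) (x ^ 2 * k) = 0 := by
    have : x ^ 2 * k = (k * x)⁻¹ := by rw [mul_inv_rev, hkinv, hxsq]
    rw [this]; exact hinv0 _ hf
  have v7 : (χ : G → ℂ) (x ^ 2 * k * k1) = 0 := by
    have : x ^ 2 * k * k1 = (k2 * x)⁻¹ := by rw [mul_inv_rev, hk2inv, hxsq, mul_assoc, hkk1]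
    rw [this]; exact hinv0 _ hχk2x
  rw [hsum, hkk1, h6, hχk1, hc, hχk2, hχx, v1, v2, v3, v4, v5, v6, v7] at hn
  have h8 : ((8 : ℕ) : ℂ) = ((12 * n : ℕ) : ℂ) := by
    push_cast; linear_combination hn
  have h8' : 8 = 12 * n := by exact_mod_cast h8
  omega

end Cfsg.Agent.Helper83
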