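import Mathlib
import Cfsg.Agent.Helper9.BRDefs
import Cfsg.Agent.Helper82.A7Defs
import Cfsg.Agent.Helper83.A7CHK
import Cfsg.Agent.Helper73.A7MULT12

/-!
# CALL S0984 piece CHA3 (helper83): a faithful degree 6 character with value `2` on the four-group
takes the value `3` on `x`

With `a = χ x` and `f = χ (κ x)` for `κ ∈ K \ {1}` (all equal, and equal to the values at the
inverses by conjugation with `t`), the multiplicities of four linear characters of `⟨x⟩ × K`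
(MULT12) give `12 + 2 (a + 3 f)`, `12 - (a + 3 f)`, `4 + 2 (a - f)`, `4 - (a - f)` in `12 ℕ`,
which forces `a = 3` or `a = 6`; the latter is excluded by faithfulness.
-/

set_option autoImplicit false
set_option linter.style.haveILetI false
open Cfsg
open scoped ComplexConjugate

universe u

namespace Cfsg.Agent.Helper83

/-- PIECE CHA3 (uses MULT12) -/
theorem a7_chi_three {G : Type u} [Group G] [Finite G] (P : Sylow 3 G) (x x2 t : G)
    (K : Subgroup G) (h : Helper82.A7Cfg P x x2 t K) (χ : Cfsg.IrrCharacter G)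
    (h6 : (χ : G → ℂ) 1 = 6) (hker : ∀ g : G, (χ : G → ℂ) g = (χ : G → ℂ) 1 → g = 1)
    (k : G) (hk : k ∈ K) (hk1 : k ≠ 1) (hc : (χ : G → ℂ) k = 2) : (χ : G → ℂ) x = 3 := by
  classical
  obtain ⟨hxx2, hx23, hkk, hk1K, hk2K, h11, h1k, h21, h2k, h21', hKmem, hkk1, h3k⟩ :=
    a7cfg_klein_struct P x x2 t K h k hk hk1
  obtain ⟨k1, hk1def⟩ : ∃ k1, k1 = x2 * k * x2⁻¹ := ⟨_, rfl⟩
  rw [← hk1def] at hk1K hk2K h11 h1k h21 h2k h21' hKmem hkk1 h3k
  obtain ⟨k2, hk2def⟩ : ∃ k2, k2 = x2 * k1 * x2⁻¹ := ⟨_, rfl⟩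
  rw [← hk2def] at hk2K h21 h2k h21' hKmem hkk1 h3k
  have hx3 : x ^ 3 = 1 := by rw [← h.hx]; exact pow_orderOf_eq_one x
  have hx2inv : x * x2⁻¹ = x2⁻¹ * x := by
    rw [eq_inv_mul_iff_mul_eq, ← mul_assoc, hxx2, mul_assoc, mul_inv_cancel, mul_one]
  have hconjmul : ∀ a b : G, x2 * (a * b) * x2⁻¹ = (x2 * a * x2⁻¹) * (x2 * b * x2⁻¹) := by
    intro a b; group
  have hk1k1 : k1 * k1 = 1 := by
    rw [hk1def, ← hconjmul, hkk]; group
  have hk2k2 : k2 * k2 = 1 := by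
    rw [hk2def, ← hconjmul, hk1k1]; group
  have hkinv : k⁻¹ = k := inv_eq_of_mul_eq_one_left hkk
  have hk1inv : k1⁻¹ = k1 := inv_eq_of_mul_eq_one_left hk1k1
  have hk2inv : k2⁻¹ = k2 := inv_eq_of_mul_eq_one_left hk2k2
  -- character facts
  have hcl : ∀ g c : G, (χ : G → ℂ) (c * g * c⁻¹) = (χ : G → ℂ) g := fun g c =>
    Helper81.irr_conj χ g c
  have hχk1 : (χ : G → ℂ) k1 = 2 := by rw [hk1def, hcl, hc]
  have hχk2 : (χ : G → ℂ) k2 = 2 := by rw [hk2def, hcl, hχk1]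
  have e4 : k1 * x = x2 * (k * x) * x2⁻¹ := by
    rw [hk1def, mul_assoc x2 (k * x), mul_assoc k x, hx2inv]; group
  have e5 : k2 * x = x2 * (k1 * x) * x2⁻¹ := by
    rw [hk2def, mul_assoc x2 (k1 * x), mul_assoc k1 x, hx2inv]; group
  have hχk1x : (χ : G → ℂ) (k1 * x) = (χ : G → ℂ) (k * x) := by rw [e4, hcl]
  have hχk2x : (χ : G → ℂ) (k2 * x) = (χ : G → ℂ) (k * x) := by rw [e5, hcl, hχk1x]
  have hKf : ∀ κ ∈ K, κ ≠ 1 → (χ : G → ℂ) (κ * x) = (χ : G → ℂ) (k * x) := by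
    intro κ hκ hκ1
    rcases hKmem κ hκ with rfl | rfl | rfl | rfl
    · exact absurd rfl hκ1
    · rfl
    · exact hχk1x
    · exact hχk2x
  -- conjugation by t
  have htx : t * x * t⁻¹ = x⁻¹ := h.htinv x h.hxP
  have ht2 : t * t = 1 := by
    have := pow_orderOf_eq_one t
    rwa [h.ht, pow_two] at this
  have htinv : t⁻¹ = t := inv_eq_of_mul_eq_one_left ht2
  have htx' : t * x⁻¹ * t⁻¹ = x := by
    rw [← htx, htinv]
    calc t * (t * x * t) * t = (t * t) * x * (t * t) := by group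
      _ = x := by rw [ht2]; group
  have hpow4 : ∀ κ ∈ K, κ ^ 4 = 1 := by
    intro κ hκ
    have := pow_card_eq_one' (G := K) (x := ⟨κ, hκ⟩)
    rw [h.hK4] at this
    exact congrArg Subtype.val this
  have htK : ∀ κ ∈ K, t * κ * t⁻¹ ∈ K := by
    intro κ hκ
    refine h.hKall _ ?_ ?_
    · have hκx : κ * x⁻¹ = x⁻¹ * κ := by
        have := h.hKx κ hκ
        rw [eq_inv_mul_iff_mul_eq, ← mul_assoc, ← this, mul_assoc, mul_inv_cancel, mul_one]
      calc t * κ * t⁻¹ * x = t * κ * t⁻¹ * (t * x⁻¹ * t⁻¹) := by rw [htx']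
        _ = t * (κ * x⁻¹) * t⁻¹ := by group
        _ = (t * x⁻¹ * t⁻¹) * (t * κ * t⁻¹) := by rw [hκx]; group
        _ = x * (t * κ * t⁻¹) := by rw [htx']
    · apply orderOf_dvd_of_pow_eq_one
      rw [conj_pow, hpow4 κ hκ]; group
  have hχxinv : (χ : G → ℂ) x⁻¹ = (χ : G → ℂ) x := by rw [← htx, hcl]
  have hKfinv : ∀ κ ∈ K, κ ≠ 1 → (χ : G → ℂ) (x⁻¹ * κ) = (χ : G → ℂ) (k * x) := by
    intro κ hκ hκ1
    have hκ'K := htK κ hκ
    have hκ'1 : t * κ * t⁻¹ ≠ 1 := by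
      intro he
      apply hκ1
      have : κ = t⁻¹ * (t * κ * t⁻¹) * t := by group
      rw [this, he]; group
    have e : x⁻¹ * κ = t⁻¹ * (x * (t * κ * t⁻¹)) * t⁻¹⁻¹ := by
      have : t⁻¹ * (x * (t * κ * t⁻¹)) * t⁻¹⁻¹ = (t⁻¹ * x * t) * κ := by group
      rw [this]
      have : t⁻¹ * x * t = x⁻¹ := by
        have h' := htx
        rw [htinv] at h' ⊢
        exact h'
      rw [this]
    rw [e, hcl, ← h.hKx _ hκ'K]
    exact hKf _ hκ'K hκ'1
  -- MULT12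
  have hxk : x * k = k * x := (h.hKx k hk).symm
  have hxk1 : x * k1 = k1 * x := (h.hKx k1 hk1K).symm
  have hxk2 : x * k2 = k2 * x := (h.hKx k2 hk2K).symm
  have hkk1c : k * k1 = k1 * k := by
    have : k1 * k = (k * k1)⁻¹ := by rw [mul_inv_rev, hkinv, hk1inv]
    rw [this, hkk1, hk2inv]
  have hxsq : x ^ 2 = x⁻¹ := by
    rw [eq_inv_iff_mul_eq_one, ← pow_succ]; exact hx3
  have v1 : (χ : G → ℂ) (x * k1) = (χ : G → ℂ) (k * x) := by rw [hxk1, hχk1x]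
  have v2 : (χ : G → ℂ) (x * k) = (χ : G → ℂ) (k * x) := by rw [hxk]
  have v3 : (χ : G → ℂ) (x * k * k1) = (χ : G → ℂ) (k * x) := by
    rw [mul_assoc, hkk1, hxk2, hχk2x]
  have v4 : (χ : G → ℂ) (x ^ 2) = (χ : G → ℂ) x := by rw [hxsq, hχxinv]
  have v5 : (χ : G → ℂ) (x ^ 2 * k1) = (χ : G → ℂ) (k * x) := by
    rw [hxsq]; exact hKfinv k1 hk1K h11
  have v6 : (χ : G → ℂ) (x ^ 2 * k) = (χ : G → ℂ) (k * x) := by
    rw [hxsq]; exact hKfinv k hk hk1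
  have v7 : (χ : G → ℂ) (x ^ 2 * k * k1) = (χ : G → ℂ) (k * x) := by
    rw [hxsq, mul_assoc, hkk1]; exact hKfinv k2 hk2K h21
  have hsum : ∀ w s : ℂ, ∑ i ∈ Finset.range 3, ∑ j ∈ Finset.range 2, ∑ l ∈ Finset.range 2,
      (χ : G → ℂ) (x ^ i * k ^ j * k1 ^ l) * (w ^ i * s ^ j * 1 ^ l) =
      (8 + 4 * s) + (w + w ^ 2) * ((χ : G → ℂ) x + (χ : G → ℂ) (k * x)
        + 2 * s * (χ : G → ℂ) (k * x)) := by
    intro w s
    simp only [Finset.sum_range_succ, Finset.sum_range_zero, zero_add, pow_zero, pow_one, one_mul,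
      mul_one, one_pow]
    rw [hkk1, h6, hχk1, hc, hχk2, v1, v2, v3, v4, v5, v6, v7]
    ring
  -- a primitive cube root of unity
  obtain ⟨ω, hω3, hω⟩ : ∃ ω : ℂ, ω ^ 3 = 1 ∧ ω + ω ^ 2 = -1 := by
    have hprim := Complex.isPrimitiveRoot_exp 3 (by norm_num)
    refine ⟨_, hprim.pow_eq_one, ?_⟩
    have hne : Complex.exp (2 * Real.pi * Complex.I / (3 : ℕ)) - 1 ≠ 0 :=
      sub_ne_zero.mpr (hprim.ne_one (by norm_num))
    have h3 := hprim.pow_eq_one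
    apply mul_left_cancel₀ hne
    linear_combination h3
  have hk2' : k ^ 2 = 1 := by rw [pow_two, hkk]
  have hk12' : k1 ^ 2 = 1 := by rw [pow_two, hk1k1]
  obtain ⟨M1, hM1⟩ := Helper73.a7_mult12 χ x k k1 hx3 hk2' hk12' hxk hxk1 hkk1c 1 1 1
    (by norm_num) (by norm_num) (by norm_num)
  obtain ⟨M2, hM2⟩ := Helper73.a7_mult12 χ x k k1 hx3 hk2' hk12' hxk hxk1 hkk1c ω 1 1
    hω3 (by norm_num) (by norm_num)
  obtain ⟨M3, hM3⟩ := Helper73.a7_mult12 χ x k k1 hx3 hk2' hk12' hxk hxk1 hkk1c 1 (-1) 1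
    (by norm_num) (by norm_num) (by norm_num)
  obtain ⟨M4, hM4⟩ := Helper73.a7_mult12 χ x k k1 hx3 hk2' hk12' hxk hxk1 hkk1c ω (-1) 1
    hω3 (by norm_num) (by norm_num)
  rw [hsum] at hM1 hM2 hM3 hM4
  rw [hω] at hM2 hM4
  have r1 : M3 + 2 * M4 = 1 := by
    have : ((M3 + 2 * M4 : ℕ) : ℂ) = ((1 : ℕ) : ℂ) := by
      push_cast; linear_combination (-1 / 12 : ℂ) * hM3 - (1 / 6 : ℂ) * hM4
    exact_mod_cast this
  have r2 : M1 + 2 * M2 = 3 := by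
    have : ((M1 + 2 * M2 : ℕ) : ℂ) = ((3 : ℕ) : ℂ) := by
      push_cast; linear_combination (-1 / 12 : ℂ) * hM1 - (1 / 6 : ℂ) * hM2
    exact_mod_cast this
  have hM40 : M4 = 0 := by omega
  have hM2c : M2 = 0 ∨ M2 = 1 := by omega
  subst hM40
  rcases hM2c with rfl | rfl
  · exfalso
    have hx1 : x = 1 := by
      apply hker
      rw [h6]
      push_cast at hM2 hM4
      linear_combination (-1 / 4 : ℂ) * hM2 - (3 / 4 : ℂ) * hM4
    have h3 := h.hx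
    rw [hx1, orderOf_one] at h3
    omega
  · push_cast at hM2 hM4
    linear_combination (-1 / 4 : ℂ) * hM2 - (3 / 4 : ℂ) * hM4

end Cfsg.Agent.Helper83
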