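import Cfsg.Agent.Helper83.CA2

set_option autoImplicit false
set_option linter.style.haveILetI false
set_option linter.unusedSectionVars false

namespace Cfsg.Agent.Helper83

section disj
variable {G : Type*} [Group G] [Finite G] [IsSimpleGroup G]

theorem caK_comm (hG : ¬ IsMulCommutative G) (hCA : CAProp G) {t : G}
    (ht : IsInvo t) {ω : G ⧸ caN t} (hω : ω ≠ ((1 : G) : G ⧸ caN t)) {x y : G}
    (hx : x ∈ caK t ω) (hy : y ∈ caK t ω) : x * y = y * x := by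
  obtain ⟨s₀⟩ := caJ_nonempty hG hCA ht hω
  have h1 := ca_swap_inverts hG hCA ht hω s₀ hx
  have h2 := ca_swap_inverts hG hCA ht hω s₀ hy
  have h3 := ca_swap_inverts hG hCA ht hω s₀ ((caK t ω).mul_mem hx hy)
  have h4 : (s₀ : G) * (x * y) * (s₀ : G)⁻¹
      = ((s₀ : G) * x * (s₀ : G)⁻¹) * ((s₀ : G) * y * (s₀ : G)⁻¹) := by group
  rw [h3, h1, h2] at h4
  have h5 := congrArg Inv.inv h4
  simpa using h5

theorem caK_sq (hG : ¬ IsMulCommutative G) (hCA : CAProp G) {t : G}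
    (ht : IsInvo t) {ω : G ⧸ caN t} (hω : ω ≠ ((1 : G) : G ⧸ caN t)) {y : G}
    (hy : y ∈ caK t ω) (hyy : y * y = 1) : y = 1 := by
  have hyA := ca_invo_mem hCA ht (Subgroup.mem_inf.1 hy).1 hyy
  have : y ∈ caK t ω ⊓ cz1 t := Subgroup.mem_inf.2 ⟨hy, hyA⟩
  rw [caK_inf' hG hCA ht hω, Subgroup.mem_bot] at this
  exact this

theorem caK_eq_cz1 (hG : ¬ IsMulCommutative G) (hCA : CAProp G) {t : G}
    (ht : IsInvo t) {ω : G ⧸ caN t} (hω : ω ≠ ((1 : G) : G ⧸ caN t)) {y : G}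
    (hy : y ∈ caK t ω) (hy1 : y ≠ 1) : caK t ω = cz1 y ⊓ caN t := by
  apply Subgroup.eq_of_le_of_card_ge
  · intro x hx
    exact Subgroup.mem_inf.2 ⟨mem_cz1.2 (caK_comm hG hCA ht hω hx hy), (Subgroup.mem_inf.1 hx).1⟩
  · rw [caK_card hG hCA ht hω]
    apply ca_card_le_k inf_le_right
    rw [eq_bot_iff]
    intro a ha
    rw [Subgroup.mem_bot]
    by_contra ha1
    obtain ⟨haBN, haA⟩ := Subgroup.mem_inf.1 ha
    have haB := (Subgroup.mem_inf.1 haBN).1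
    have hyA : y ∈ cz1 t := mem_cz1_of_comm hCA ht.1 haA ha1 (mem_cz1.1 haB).symm
    have : y ∈ caK t ω ⊓ cz1 t := Subgroup.mem_inf.2 ⟨hy, hyA⟩
    rw [caK_inf' hG hCA ht hω, Subgroup.mem_bot] at this
    exact hy1 this

omit [Finite G] [IsSimpleGroup G] in
theorem ca_inverts_cz1 (hCA : CAProp G) {y s : G} (hy1 : y ≠ 1) (hyy : y * y ≠ 1)
    (hss : s * s = 1) (hsy : s * y * s⁻¹ = y⁻¹) {b : G} (hb : b ∈ cz1 y) :
    s * b * s⁻¹ = b⁻¹ := by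
  have hu : s * b * s⁻¹ ∈ cz1 y := by
    rw [mem_cz1]
    have h1 : (s * b * s⁻¹) * y⁻¹ = y⁻¹ * (s * b * s⁻¹) := by
      calc (s * b * s⁻¹) * y⁻¹ = (s * b * s⁻¹) * (s * y * s⁻¹) := by rw [hsy]
        _ = s * (b * y) * s⁻¹ := by group
        _ = s * (y * b) * s⁻¹ := by rw [mem_cz1.1 hb]
        _ = (s * y * s⁻¹) * (s * b * s⁻¹) := by group
        _ = y⁻¹ * (s * b * s⁻¹) := by rw [hsy]
    have h2 := congrArg (fun z => y * z * y) h1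
    simpa [mul_assoc] using h2.symm
  have hsu : s * (s * b * s⁻¹) * s⁻¹ = b := by
    calc s * (s * b * s⁻¹) * s⁻¹ = (s * s) * b * (s * s)⁻¹ := by group
      _ = b := by rw [hss]; group
  have hc : b * (s * b * s⁻¹) ∈ cz1 y := (cz1 y).mul_mem hb hu
  have hsc : s * (b * (s * b * s⁻¹)) = (b * (s * b * s⁻¹)) * s := by
    calc s * (b * (s * b * s⁻¹)) = (s * b * s⁻¹) * (s * (s * b * s⁻¹) * s⁻¹) * s := by group
      _ = (s * b * s⁻¹) * b * s := by rw [hsu]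
      _ = (b * (s * b * s⁻¹)) * s := by rw [cz1_comm hCA hy1 hu hb]
  by_cases hc1 : b * (s * b * s⁻¹) = 1
  · exact eq_inv_of_mul_eq_one_right hc1
  · exfalso
    apply hyy
    have hs : s ∈ cz1 y := mem_cz1_of_comm hCA hy1 hc hc1 hsc
    have h3 : s * y * s⁻¹ = y := by rw [mem_cz1.1 hs]; group
    rw [h3] at hsy
    calc y * y = y * y⁻¹ := by rw [← hsy]
      _ = 1 := mul_inv_cancel y

theorem caK_disj (hG : ¬ IsMulCommutative G) (hCA : CAProp G) {t : G}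
    (ht : IsInvo t) {ω' ω'' : G ⧸ caN t} (h' : ω' ≠ ((1 : G) : G ⧸ caN t))
    (h'' : ω'' ≠ ((1 : G) : G ⧸ caN t)) (hne : ω' ≠ ω'') {y : G}
    (hy' : y ∈ caK t ω') (hy'' : y ∈ caK t ω'') : y = 1 := by
  by_contra hy1
  have hK' := caK_eq_cz1 hG hCA ht h' hy' hy1
  have hK'' := caK_eq_cz1 hG hCA ht h'' hy'' hy1
  obtain ⟨s₁⟩ := caJ_nonempty hG hCA ht h'
  obtain ⟨s₂⟩ := caJ_nonempty hG hCA ht h''
  have hzx : ∀ x ∈ cz1 y ⊓ caN t, ((s₁ : G) * (s₂ : G)) * x = x * ((s₁ : G) * (s₂ : G)) := by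
    intro x hx
    have hx'' : x ∈ caK t ω'' := by rw [hK'']; exact hx
    have hx' : x⁻¹ ∈ caK t ω' := by rw [hK']; exact inv_mem hx
    have e2 := ca_swap_inverts hG hCA ht h'' s₂ hx''
    have e1 := ca_swap_inverts hG hCA ht h' s₁ hx'
    calc ((s₁ : G) * (s₂ : G)) * x
        = (s₁ : G) * ((s₂ : G) * x * (s₂ : G)⁻¹) * (s₁ : G)⁻¹ * ((s₁ : G) * (s₂ : G)) := by group
      _ = x * ((s₁ : G) * (s₂ : G)) := by rw [e2, e1, inv_inv]
  have hyK : y ∈ cz1 y ⊓ caN t := by rw [← hK']; exact hy'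
  have hzB : (s₁ : G) * (s₂ : G) ∈ cz1 y := mem_cz1.2 (hzx y hyK)
  have hω₃ : ((s₁ : G) * (s₂ : G)) • ((1 : G) : G ⧸ caN t) = (s₁ : G) • ω'' := by
    rw [mul_smul, s₂.2.2]
  have h3 : ((s₁ : G) * (s₂ : G)) • ((1 : G) : G ⧸ caN t) ≠ ((1 : G) : G ⧸ caN t) := by
    intro h
    apply hne
    have e : (s₁ : G) • ((s₁ : G) • ω'') = ω'' := by rw [smul_smul, s₁.2.1.2, one_smul]
    rw [← hω₃, h, s₁.2.2] at e
    exact e
  have hK3 : cz1 y ⊓ caN t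
      = caK t (((s₁ : G) * (s₂ : G)) • ((1 : G) : G ⧸ caN t)) := by
    apply Subgroup.eq_of_le_of_card_ge
    · intro x hx
      refine Subgroup.mem_inf.2 ⟨(Subgroup.mem_inf.1 hx).2, ?_⟩
      rw [MulAction.mem_stabilizer_iff, smul_smul, ← hzx x hx, mul_smul,
        (ca_fix_one_iff _).2 (Subgroup.mem_inf.1 hx).2]
    · rw [caK_card hG hCA ht h3, ← hK', caK_card hG hCA ht h']
  obtain ⟨s₃⟩ := caJ_nonempty hG hCA ht h3
  have hy3 : (s₃ : G) * y * (s₃ : G)⁻¹ = y⁻¹ :=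
    ca_swap_inverts hG hCA ht h3 s₃ (by rw [← hK3]; exact hyK)
  have hyy : y * y ≠ 1 := fun h => hy1 (caK_sq hG hCA ht h' hy' h)
  have hz3 := ca_inverts_cz1 hCA hy1 hyy s₃.2.1.2 hy3 hzB
  have haa : ((s₃ : G) * ((s₁ : G) * (s₂ : G))) * ((s₃ : G) * ((s₁ : G) * (s₂ : G))) = 1 := by
    calc ((s₃ : G) * ((s₁ : G) * (s₂ : G))) * ((s₃ : G) * ((s₁ : G) * (s₂ : G)))
        = ((s₃ : G) * ((s₁ : G) * (s₂ : G)) * (s₃ : G)⁻¹) * ((s₃ : G) * (s₃ : G))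
            * ((s₁ : G) * (s₂ : G)) := by group
      _ = 1 := by rw [hz3, s₃.2.1.2]; group
  have haN : (s₃ : G) * ((s₁ : G) * (s₂ : G)) ∈ caN t := by
    rw [← ca_fix_one_iff, mul_smul]
    calc (s₃ : G) • (((s₁ : G) * (s₂ : G)) • ((1 : G) : G ⧸ caN t))
        = (s₃ : G) • ((s₃ : G) • ((1 : G) : G ⧸ caN t)) := by rw [s₃.2.2]
      _ = _ := by rw [smul_smul, s₃.2.1.2, one_smul]
  have haA : (s₃ : G) * ((s₁ : G) * (s₂ : G)) ∈ cz1 t := ca_invo_mem hCA ht haN haa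
  have hay : ((s₃ : G) * ((s₁ : G) * (s₂ : G))) * y * ((s₃ : G) * ((s₁ : G) * (s₂ : G)))⁻¹
      = y⁻¹ := by
    calc ((s₃ : G) * ((s₁ : G) * (s₂ : G))) * y * ((s₃ : G) * ((s₁ : G) * (s₂ : G)))⁻¹
        = (s₃ : G) * (((s₁ : G) * (s₂ : G)) * y) * ((s₁ : G) * (s₂ : G))⁻¹ * (s₃ : G)⁻¹ := by
          group
      _ = (s₃ : G) * (y * ((s₁ : G) * (s₂ : G))) * ((s₁ : G) * (s₂ : G))⁻¹ * (s₃ : G)⁻¹ := by
          rw [mem_cz1.1 hzB]
      _ = (s₃ : G) * y * (s₃ : G)⁻¹ := by group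
      _ = y⁻¹ := hy3
  have hyN : y ∈ caN t := (Subgroup.mem_inf.1 hy').1
  have h5 : y * ((s₃ : G) * ((s₁ : G) * (s₂ : G)))⁻¹ * y⁻¹ ∈ cz1 t :=
    (Subgroup.mem_normalizer_iff.1 hyN _).1 ((cz1 t).inv_mem haA)
  have h6 : ((s₃ : G) * ((s₁ : G) * (s₂ : G)))
      * (y * ((s₃ : G) * ((s₁ : G) * (s₂ : G)))⁻¹ * y⁻¹) ∈ cz1 t := (cz1 t).mul_mem haA h5
  have h7 : ((s₃ : G) * ((s₁ : G) * (s₂ : G)))
      * (y * ((s₃ : G) * ((s₁ : G) * (s₂ : G)))⁻¹ * y⁻¹) = y⁻¹ * y⁻¹ := by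
    calc ((s₃ : G) * ((s₁ : G) * (s₂ : G)))
          * (y * ((s₃ : G) * ((s₁ : G) * (s₂ : G)))⁻¹ * y⁻¹)
        = (((s₃ : G) * ((s₁ : G) * (s₂ : G))) * y * ((s₃ : G) * ((s₁ : G) * (s₂ : G)))⁻¹)
            * y⁻¹ := by group
      _ = y⁻¹ * y⁻¹ := by rw [hay]
  rw [h7] at h6
  have h8 : y⁻¹ * y⁻¹ ∈ caK t ω' ⊓ cz1 t :=
    Subgroup.mem_inf.2 ⟨mul_mem (inv_mem hy') (inv_mem hy'), h6⟩
  rw [caK_inf' hG hCA ht h', Subgroup.mem_bot] at h8
  apply hyy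
  have h9 := congrArg Inv.inv h8
  simpa using h9

theorem ca_free (hG : ¬ IsMulCommutative G) (hCA : CAProp G) {t : G}
    (ht : IsInvo t) {a : G} (haA : a ∈ cz1 t) {ω : G ⧸ caN t}
    (hω : ω ≠ ((1 : G) : G ⧸ caN t)) (h : a • ω = ω) : a = 1 := by
  have : a ∈ caK t ω ⊓ cz1 t :=
    Subgroup.mem_inf.2 ⟨Subgroup.mem_inf.2 ⟨Subgroup.le_normalizer haA, h⟩, haA⟩
  rwa [caK_inf' hG hCA ht hω, Subgroup.mem_bot] at this

omit [IsSimpleGroup G] in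
theorem ca_smul_ne {t : G} {a : G} (haA : a ∈ cz1 t) {ω : G ⧸ caN t}
    (hω : ω ≠ ((1 : G) : G ⧸ caN t)) : a • ω ≠ ((1 : G) : G ⧸ caN t) := by
  intro h
  apply hω
  have h1 : a⁻¹ • (a • ω) = ω := by rw [smul_smul, inv_mul_cancel, one_smul]
  rw [h, (ca_fix_one_iff _).2 ((caN t).inv_mem (Subgroup.le_normalizer haA))] at h1
  exact h1.symm

theorem ca_orbit_inj (hG : ¬ IsMulCommutative G) (hCA : CAProp G) {t : G}
    (ht : IsInvo t) (ω₁ : caT t) :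
    Function.Injective (fun a : cz1 t =>
      (⟨(a : G) • (ω₁ : G ⧸ caN t), ca_smul_ne a.2 ω₁.2⟩ : caT t)) := by
  intro a b h
  have h1 : (a : G) • (ω₁ : G ⧸ caN t) = (b : G) • (ω₁ : G ⧸ caN t) := congrArg Subtype.val h
  have h2 : ((b : G)⁻¹ * (a : G)) • (ω₁ : G ⧸ caN t) = (ω₁ : G ⧸ caN t) := by
    rw [mul_smul, h1, smul_smul, inv_mul_cancel, one_smul]
  have h3 := ca_free hG hCA ht ((cz1 t).mul_mem ((cz1 t).inv_mem b.2) a.2) ω₁.2 h2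
  exact Subtype.ext (inv_mul_eq_one.1 h3).symm

theorem caA_card_le (hG : ¬ IsMulCommutative G) (hCA : CAProp G) {t : G}
    (ht : IsInvo t) : Nat.card (cz1 t) ≤ Nat.card (caT t) := by
  have hpos := caT_card_pos hG hCA ht
  obtain ⟨ω₁⟩ := (Nat.card_pos_iff.1 hpos).1
  exact Nat.card_le_card_of_injective _ (ca_orbit_inj hG hCA ht ω₁)

theorem caT_card_le (hG : ¬ IsMulCommutative G) (hCA : CAProp G) {t : G}
    (ht : IsInvo t) : Nat.card (caT t) ≤ Nat.card (cz1 t) := by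
  classical
  letI : Fintype (caT t) := Fintype.ofFinite _
  -- the injection
  have hinj : Nat.card (Σ ω : caT t, {y : caK t (ω : G ⧸ caN t) // y ≠ 1})
      ≤ Nat.card {x : G // x ∈ caN t ∧ x ∉ cz1 t} := by
    have hnot : ∀ (ω : caT t) (y : {y : caK t (ω : G ⧸ caN t) // y ≠ 1}),
        ((y : caK t (ω : G ⧸ caN t)) : G) ∉ cz1 t := by
      intro ω y hyA
      have : ((y : caK t (ω : G ⧸ caN t)) : G) ∈ caK t (ω : G ⧸ caN t) ⊓ cz1 t :=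
        Subgroup.mem_inf.2 ⟨y.1.2, hyA⟩
      rw [caK_inf' hG hCA ht ω.2, Subgroup.mem_bot] at this
      exact y.2 (Subtype.ext this)
    apply Nat.card_le_card_of_injective
      (fun p : (Σ ω : caT t, {y : caK t (ω : G ⧸ caN t) // y ≠ 1}) =>
        (⟨((p.2 : caK t (p.1 : G ⧸ caN t)) : G), (Subgroup.mem_inf.1 p.2.1.2).1, hnot p.1 p.2⟩ :
          {x : G // x ∈ caN t ∧ x ∉ cz1 t}))
    rintro ⟨ω, ⟨y, hy⟩, hy1⟩ ⟨ω', ⟨y', hy'⟩, hy1'⟩ h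
    have hyy : y = y' := congrArg Subtype.val h
    subst hyy
    have hωω : ω = ω' := by
      by_contra hne
      apply hy1
      apply Subtype.ext
      exact caK_disj hG hCA ht ω.2 ω'.2 (fun h => hne (Subtype.ext h)) hy hy'
    subst hωω
    rfl
  rw [Nat.card_sigma] at hinj
  -- fibre cardinalities
  have hk1 := ca_k_ne_one hG hCA ht
  have hkpos : 0 < (cz1 t).relIndex (caN t) := ca_k_pos
  obtain ⟨c, hc⟩ : ∃ c, (cz1 t).relIndex (caN t) = c + 1 := ⟨(cz1 t).relIndex (caN t) - 1, by omega⟩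
  have hfib : ∀ ω : caT t, Nat.card {y : caK t (ω : G ⧸ caN t) // y ≠ 1} = c := by
    intro ω
    have e := Nat.card_congr (Equiv.optionSubtypeNe (1 : caK t (ω : G ⧸ caN t)))
    rw [Finite.card_option, caK_card hG hCA ht ω.2, hc] at e
    omega
  have hsum : ∑ ω : caT t, Nat.card {y : caK t (ω : G ⧸ caN t) // y ≠ 1}
      = Nat.card (caT t) * c := by
    rw [Finset.sum_congr rfl (fun ω _ => hfib ω), Finset.sum_const, Finset.card_univ,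
      Nat.card_eq_fintype_card, smul_eq_mul]
  rw [hsum] at hinj
  -- |N \ A| + |A| = |N| = k |A|
  have hNA : Nat.card {x : G // x ∈ caN t ∧ x ∉ cz1 t} + Nat.card (cz1 t) = Nat.card (caN t) := by
    have := Set.ncard_sdiff_add_ncard_of_subset
      (s := ((cz1 t : Subgroup G) : Set G)) (t := ((caN t : Subgroup G) : Set G))
      Subgroup.le_normalizer (Set.toFinite _)
    exact this
  have hN : Nat.card (caN t) = Nat.card (cz1 t) * (c + 1) := by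
    rw [← hc, ← Subgroup.card_mul_index ((cz1 t).subgroupOf (caN t))]
    congr 1
    exact Nat.card_congr (Subgroup.subgroupOfEquivOfLe Subgroup.le_normalizer).toEquiv
  have hcpos : 0 < c := by omega
  have hfinal : Nat.card (caT t) * c ≤ Nat.card (cz1 t) * c := by
    have : Nat.card (cz1 t) * (c + 1) = Nat.card (cz1 t) * c + Nat.card (cz1 t) := by ring
    omega
  exact Nat.le_of_mul_le_mul_right hfinal hcpos

theorem caT_card (hG : ¬ IsMulCommutative G) (hCA : CAProp G) {t : G}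
    (ht : IsInvo t) : Nat.card (caT t) = Nat.card (cz1 t) :=
  le_antisymm (caT_card_le hG hCA ht) (caA_card_le hG hCA ht)

theorem ca_trans (hG : ¬ IsMulCommutative G) (hCA : CAProp G) {t : G}
    (ht : IsInvo t) {ω₁ ω₂ : G ⧸ caN t} (h1 : ω₁ ≠ ((1 : G) : G ⧸ caN t))
    (h2 : ω₂ ≠ ((1 : G) : G ⧸ caN t)) : ∃ a ∈ cz1 t, a • ω₁ = ω₂ := by
  have hbij := (ca_orbit_inj hG hCA ht ⟨ω₁, h1⟩).bijective_of_nat_card_le
    (le_of_eq (caT_card hG hCA ht))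
  obtain ⟨a, ha⟩ := hbij.2 ⟨ω₂, h2⟩
  exact ⟨(a : G), a.2, congrArg Subtype.val ha⟩

end disj

end Cfsg.Agent.Helper83
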