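import Cfsg.Agent.Helper83.CA3

set_option autoImplicit false
set_option linter.style.haveILetI false
set_option linter.unusedSectionVars false

namespace Cfsg.Agent.Helper83

/-- The shape of the Feit inequality for Zassenhaus groups, on coset spaces of `G`. -/
def H885 (G : Type*) [Group G] [Finite G] : Prop :=
  ∀ (N : Subgroup G) [Fintype (G ⧸ N)], Cfsg.IsZassenhausGroup G (G ⧸ N) →
    ∀ {a b : G ⧸ N}, a ≠ b → ∀ (h e : ℕ), Fintype.card (G ⧸ N) = h + 1 →
    Nat.card ↥(MulAction.stabilizer G a ⊓ MulAction.stabilizer G b : Subgroup G) = e → Odd e →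
    ∀ (H : Subgroup G), H ≤ MulAction.stabilizer G a → Nat.card H + 1 = Fintype.card (G ⧸ N) →
    (∀ u ∈ H, u ≠ 1 → ∀ c : G ⧸ N, u • c = c → c = a) →
    h - 1 ≤ 2 * e ∨ (IsPGroup 2 H ∧ (∃ u v : H, u * v ≠ v * u) ∧
      (commutator H).index ≤ 4 * e ^ 2 + 1)

section zass
variable {G : Type*} [Group G] [Finite G] [IsSimpleGroup G]

theorem ca_two_trans (hG : ¬ IsMulCommutative G) (hCA : CAProp G) {t : G} (ht : IsInvo t) :
    MulAction.IsMultiplyPretransitive G (G ⧸ caN t) 2 := by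
  rw [MulAction.is_two_pretransitive_iff]
  intro a b c d hab hcd
  obtain ⟨g₁, hg₁⟩ := MulAction.exists_smul_eq G a ((1 : G) : G ⧸ caN t)
  obtain ⟨g₂, hg₂⟩ := MulAction.exists_smul_eq G c ((1 : G) : G ⧸ caN t)
  have hb : g₁ • b ≠ ((1 : G) : G ⧸ caN t) := by
    intro h; apply hab; rw [← hg₁] at h; exact (MulAction.injective g₁ h).symm
  have hd : g₂ • d ≠ ((1 : G) : G ⧸ caN t) := by
    intro h; apply hcd; rw [← hg₂] at h; exact (MulAction.injective g₂ h).symm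
  obtain ⟨x, hxA, hx⟩ := ca_trans hG hCA ht hb hd
  refine ⟨g₂⁻¹ * x * g₁, ?_, ?_⟩
  · calc (g₂⁻¹ * x * g₁) • a = g₂⁻¹ • (x • (g₁ • a)) := by rw [mul_smul, mul_smul]
      _ = g₂⁻¹ • (x • ((1 : G) : G ⧸ caN t)) := by rw [hg₁]
      _ = g₂⁻¹ • ((1 : G) : G ⧸ caN t) := by
          rw [(ca_fix_one_iff _).2 (Subgroup.le_normalizer hxA)]
      _ = g₂⁻¹ • (g₂ • c) := by rw [hg₂]
      _ = c := by rw [smul_smul, inv_mul_cancel, one_smul]
  · calc (g₂⁻¹ * x * g₁) • b = g₂⁻¹ • (x • (g₁ • b)) := by rw [mul_smul, mul_smul]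
      _ = g₂⁻¹ • (g₂ • d) := by rw [hx]
      _ = d := by rw [smul_smul, inv_mul_cancel, one_smul]

theorem ca_faithful (hG : ¬ IsMulCommutative G) (hCA : CAProp G) {t : G} (ht : IsInvo t) :
    FaithfulSMul G (G ⧸ caN t) := by
  have hN := ca_normalizer_ne_top hG hCA ht.1
  have hcore : (caN t).normalCore = ⊥ := by
    rcases (Subgroup.normalCore_normal (caN t)).eq_bot_or_eq_top with h | h
    · exact h
    · exfalso; apply hN; rw [eq_top_iff, ← h]; exact Subgroup.normalCore_le _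
  rw [Subgroup.normalCore_eq_ker] at hcore
  refine ⟨fun {g₁ g₂} h => ?_⟩
  have hinj := (MonoidHom.ker_eq_bot_iff _).1 hcore
  apply hinj
  ext ω
  exact h ω

theorem ca_three (hG : ¬ IsMulCommutative G) (hCA : CAProp G) {t : G} (ht : IsInvo t)
    (g : G) (a b c : G ⧸ caN t) (hab : a ≠ b) (hbc : b ≠ c) (hac : a ≠ c) (ha : g • a = a)
    (hb : g • b = b) (hc : g • c = c) : g = 1 := by
  obtain ⟨h, hh⟩ := MulAction.exists_smul_eq G a ((1 : G) : G ⧸ caN t)
  have hb1 : h • b ≠ ((1 : G) : G ⧸ caN t) := by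
    intro e; apply hab; rw [← hh] at e; exact (MulAction.injective h e).symm
  have hc1 : h • c ≠ ((1 : G) : G ⧸ caN t) := by
    intro e; apply hac; rw [← hh] at e; exact (MulAction.injective h e).symm
  have hbc' : h • b ≠ h • c := fun e => hbc (MulAction.injective h e)
  have hfix : ∀ ω : G ⧸ caN t, g • ω = ω → (h * g * h⁻¹) • (h • ω) = h • ω := by
    intro ω e
    rw [smul_smul, inv_mul_cancel_right, mul_smul, e]
  have hN : h * g * h⁻¹ ∈ caN t := by
    rw [← ca_fix_one_iff, ← hh]; exact hfix a ha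
  have h1 : h * g * h⁻¹ = 1 := caK_disj hG hCA ht hb1 hc1 hbc'
    (Subgroup.mem_inf.2 ⟨hN, hfix b hb⟩) (Subgroup.mem_inf.2 ⟨hN, hfix c hc⟩)
  have h2 : g = h⁻¹ * (h * g * h⁻¹) * h := by group
  rw [h2, h1]; group

theorem ca_two_fix (hG : ¬ IsMulCommutative G) (hCA : CAProp G) {t : G} (ht : IsInvo t) :
    ∃ g : G, g ≠ 1 ∧ ∃ a b : G ⧸ caN t, a ≠ b ∧ g • a = a ∧ g • b = b := by
  obtain ⟨ω₁⟩ := (Nat.card_pos_iff.1 (caT_card_pos hG hCA ht)).1
  have hcard := caK_card hG hCA ht ω₁.2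
  have hk1 := ca_k_ne_one hG hCA ht
  have hex : ∃ y ∈ caK t (ω₁ : G ⧸ caN t), y ≠ 1 := by
    by_contra hcon
    push Not at hcon
    apply hk1
    rw [← hcard, Subgroup.card_eq_one, Subgroup.eq_bot_iff_forall]
    exact hcon
  obtain ⟨y, hy, hy1⟩ := hex
  exact ⟨y, hy1, ((1 : G) : G ⧸ caN t), ω₁, ω₁.2.symm,
    (ca_fix_one_iff _).2 (Subgroup.mem_inf.1 hy).1, (Subgroup.mem_inf.1 hy).2⟩

theorem ca_no_regular (hG : ¬ IsMulCommutative G) (hCA : CAProp G) {t : G} (ht : IsInvo t)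
    (N' : Subgroup G) (hN' : N'.Normal) (hpt : MulAction.IsPretransitive N' (G ⧸ caN t)) :
    ∃ a : G ⧸ caN t, MulAction.stabilizer N' a ≠ ⊥ := by
  obtain ⟨ω₁⟩ := (Nat.card_pos_iff.1 (caT_card_pos hG hCA ht)).1
  rcases hN'.eq_bot_or_eq_top with h0 | h1
  · exfalso
    obtain ⟨g, hg⟩ := hpt.exists_smul_eq ((1 : G) : G ⧸ caN t) (ω₁ : G ⧸ caN t)
    have hg1 : (g : G) = 1 := Subgroup.mem_bot.1 ((le_of_eq h0) g.2)
    apply ω₁.2
    rw [← hg]
    change (g : G) • ((1 : G) : G ⧸ caN t) = _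
    rw [hg1, one_smul]
  · refine ⟨((1 : G) : G ⧸ caN t), fun hbot => ?_⟩
    have htN' : t ∈ N' := by rw [h1]; exact Subgroup.mem_top t
    have hmem : (⟨t, htN'⟩ : N') ∈ MulAction.stabilizer N' ((1 : G) : G ⧸ caN t) := by
      rw [MulAction.mem_stabilizer_iff]
      change t • ((1 : G) : G ⧸ caN t) = _
      exact (ca_fix_one_iff _).2 (Subgroup.le_normalizer (self_mem_cz1 t))
    rw [hbot, Subgroup.mem_bot] at hmem
    exact ht.1 (congrArg Subtype.val hmem)

theorem ca_zassenhaus (hG : ¬ IsMulCommutative G) (hCA : CAProp G) {t : G} (ht : IsInvo t) :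
    Cfsg.IsZassenhausGroup G (G ⧸ caN t) :=
  ⟨ca_faithful hG hCA ht, ca_two_trans hG hCA ht, ca_three hG hCA ht, ca_two_fix hG hCA ht,
    ca_no_regular hG hCA ht⟩

theorem ca_card_bound (hG : ¬ IsMulCommutative G) (hCA : CAProp G) (h885 : H885 G) {t : G}
    (ht : IsInvo t) : Nat.card (cz1 t) ≤ 2 * (cz1 t).relIndex (caN t) + 1 := by
  classical
  letI : Fintype (G ⧸ caN t) := Fintype.ofFinite _
  obtain ⟨ω₁⟩ := (Nat.card_pos_iff.1 (caT_card_pos hG hCA ht)).1
  have hcardΩ : Fintype.card (G ⧸ caN t) = Nat.card (cz1 t) + 1 := by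
    rw [← Nat.card_eq_fintype_card, ← caT_card hG hCA ht, ← Finite.card_option]
    exact (Nat.card_congr (Equiv.optionSubtypeNe ((1 : G) : G ⧸ caN t))).symm
  have hstab : MulAction.stabilizer G ((1 : G) : G ⧸ caN t) = caN t :=
    MulAction.stabilizer_quotient _
  have he : Nat.card ↥(MulAction.stabilizer G ((1 : G) : G ⧸ caN t)
      ⊓ MulAction.stabilizer G (ω₁ : G ⧸ caN t) : Subgroup G) = (cz1 t).relIndex (caN t) := by
    rw [hstab]; exact caK_card hG hCA ht ω₁.2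
  have key := h885 (caN t) (ca_zassenhaus hG hCA ht) (a := ((1 : G) : G ⧸ caN t))
    (b := (ω₁ : G ⧸ caN t)) ω₁.2.symm (Nat.card (cz1 t)) ((cz1 t).relIndex (caN t)) hcardΩ he
    (ca_relIndex_odd hCA ht) (cz1 t) (by rw [hstab]; exact Subgroup.le_normalizer) hcardΩ.symm
    (by
      intro u hu hu1 c hc
      by_contra hc1
      exact hu1 (ca_free hG hCA ht hu hc1 hc))
  rcases key with h | ⟨-, ⟨u, v, huv⟩, -⟩
  · omega
  · exfalso
    apply huv
    exact Subtype.ext (cz1_comm hCA ht.1 u.2 v.2)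

theorem ca_elem (hG : ¬ IsMulCommutative G) (hCA : CAProp G) (h885 : H885 G) {t : G}
    (ht : IsInvo t) :
    (∀ c ∈ cz1 t, c * c = 1) ∧ Nat.card (cz1 t) = (cz1 t).relIndex (caN t) + 1 := by
  classical
  let E : Subgroup G :=
    { carrier := {a | a ∈ cz1 t ∧ a * a = 1}
      mul_mem' := by
        rintro a b ⟨ha, haa⟩ ⟨hb, hbb⟩
        refine ⟨(cz1 t).mul_mem ha hb, ?_⟩
        calc a * b * (a * b) = a * (b * a) * b := by group
          _ = a * (a * b) * b := by rw [cz1_comm hCA ht.1 hb ha]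
          _ = (a * a) * (b * b) := by group
          _ = 1 := by rw [haa, hbb, one_mul]
      one_mem' := ⟨(cz1 t).one_mem, one_mul 1⟩
      inv_mem' := by
        rintro a ⟨ha, haa⟩
        refine ⟨(cz1 t).inv_mem ha, ?_⟩
        calc a⁻¹ * a⁻¹ = (a * a)⁻¹ := by group
          _ = 1 := by rw [haa, inv_one] }
  have hEA : E ≤ cz1 t := fun a ha => ha.1
  have hset : {a : G | IsInvo a ∧ a ∈ cz1 t} = (E : Set G) \ {1} := by
    ext a
    constructor
    · rintro ⟨⟨h1, h2⟩, h3⟩; exact ⟨⟨h3, h2⟩, h1⟩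
    · rintro ⟨⟨h3, h2⟩, h1⟩; exact ⟨⟨h1, h2⟩, h3⟩
  have hcardE : Nat.card E = (cz1 t).relIndex (caN t) + 1 := by
    rw [(ca_count hG hCA ht).1]
    have h1 : Nat.card {a : G // IsInvo a ∧ a ∈ cz1 t}
        = Set.ncard {a : G | IsInvo a ∧ a ∈ cz1 t} := rfl
    rw [h1, hset, Set.ncard_sdiff_singleton_add_one E.one_mem (Set.toFinite _)]
    rfl
  have hdvd := Subgroup.card_dvd_of_le hEA
  have hbound := ca_card_bound hG hCA h885 ht
  have hEq : E = cz1 t := by
    apply Subgroup.eq_of_le_of_card_ge hEA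
    obtain ⟨d, hd⟩ := hdvd
    rw [hd, hcardE]
    rw [hd, hcardE] at hbound
    have hd1 : d ≤ 1 := by
      by_contra hcon
      push Not at hcon
      have : ((cz1 t).relIndex (caN t) + 1) * 2 ≤ ((cz1 t).relIndex (caN t) + 1) * d :=
        Nat.mul_le_mul_left _ hcon
      omega
    calc ((cz1 t).relIndex (caN t) + 1) * d ≤ ((cz1 t).relIndex (caN t) + 1) * 1 :=
          Nat.mul_le_mul_left _ hd1
      _ = (cz1 t).relIndex (caN t) + 1 := mul_one _
  refine ⟨fun c hc => ?_,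
    (congrArg (fun H : Subgroup G => Nat.card H) hEq).symm.trans hcardE⟩
  have hcE : c ∈ E := by rw [hEq]; exact hc
  exact hcE.2

theorem ca_main (hG : ¬ IsMulCommutative G) (hCA : CAProp G)
    (h183 : Odd (Nat.card G) → Cfsg.IsCNGroup G → Group.IsSolvable G) (h885 : H885 G)
    (h1230 : ∀ (T : Sylow 2 G), ¬ IsCyclic (T : Subgroup G) → ¬ (T : Subgroup G).Normal →
      (∀ t : G, orderOf t = 2 → IsMulCommutative (Subgroup.centralizer ({t} : Set G)) ∧
        ∀ c ∈ Subgroup.centralizer ({t} : Set G), c ^ 2 = 1) →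
      ∃ (F : Type) (_ : Field F) (_ : Fintype F), Fintype.card F = Nat.card T ∧
        Nonempty (G ≃* Matrix.ProjectiveSpecialLinearGroup (Fin 2) F)) :
    ∃ (F : Type) (_ : Field F) (_ : Fintype F) (f : ℕ), 2 ≤ f ∧ Fintype.card F = 2 ^ f ∧
      Nonempty (G ≃* Matrix.ProjectiveSpecialLinearGroup (Fin 2) F) := by
  have : Fact (Nat.Prime 2) := ⟨Nat.prime_two⟩
  obtain ⟨t, ht⟩ := ca_exists_invo hG hCA h183
  obtain ⟨P, htP, hP⟩ := ca_sylow hCA ht
  obtain ⟨helem, hcardA⟩ := ca_elem hG hCA h885 ht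
  have hAp : IsPGroup 2 (cz1 t) := by
    intro g
    refine ⟨1, ?_⟩
    rw [pow_one, pow_two]
    exact Subtype.ext (helem g g.2)
  have hPA : cz1 t = (P : Subgroup G) := P.is_maximal' hAp hP
  have hk1 := ca_k_ne_one hG hCA ht
  have hkodd := ca_relIndex_odd hCA ht
  have hcard4 : 4 ≤ Nat.card (P : Subgroup G) := by
    rw [← hPA, hcardA]
    obtain ⟨m, hm⟩ := hkodd
    omega
  have hnc : ¬ IsCyclic (P : Subgroup G) := by
    intro hcyc
    obtain ⟨g, hg⟩ := IsCyclic.exists_ofOrder_eq_natCard (α := (P : Subgroup G))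
    have hg2 : g ^ 2 = 1 := by
      rw [pow_two]; exact Subtype.ext (helem g (hP g.2))
    have hle := orderOf_le_of_pow_eq_one (by norm_num) hg2
    omega
  have hnn : ¬ (P : Subgroup G).Normal := by
    intro hn
    rcases hn.eq_bot_or_eq_top with h0 | h1
    · rw [h0, Subgroup.mem_bot] at htP; exact ht.1 htP
    · apply hG
      refine ⟨⟨fun a b => cz1_comm hCA ht.1 (hP ?_) (hP ?_)⟩⟩ <;> rw [h1] <;>
        exact Subgroup.mem_top _
  have hC : ∀ t' : G, orderOf t' = 2 →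
      IsMulCommutative (Subgroup.centralizer ({t'} : Set G)) ∧
        ∀ c ∈ Subgroup.centralizer ({t'} : Set G), c ^ 2 = 1 := by
    intro t' ht'
    have ht'' := isInvo_of_orderOf ht'
    refine ⟨⟨⟨fun a b => Subtype.ext (cz1_comm hCA ht''.1 a.2 b.2)⟩⟩, fun c hc => ?_⟩
    rw [pow_two]
    exact (ca_elem hG hCA h885 ht'').1 c hc
  obtain ⟨F, hF1, hF2, hcardF, hiso⟩ := h1230 P hnc hnn hC
  refine ⟨F, hF1, hF2, (Nat.card G).factorization 2, ?_, ?_, hiso⟩
  · have h2 := P.card_eq_multiplicity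
    by_contra hcon
    push Not at hcon
    have h3 : 2 ^ (Nat.card G).factorization 2 ≤ 2 ^ 1 :=
      Nat.pow_le_pow_right (by norm_num) (by omega)
    omega
  · rw [hcardF]; exact P.card_eq_multiplicity

end zass

end Cfsg.Agent.Helper83
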