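import Cfsg.Agent.Helper83.CA4

set_option autoImplicit false
set_option linter.style.haveILetI false
set_option linter.unusedSectionVars false

namespace Cfsg.Agent.Helper83

theorem parallel_aux {F : Type*} [Field F] {q r w b c x : F} (h0 : q ≠ 0 ∨ r ≠ 0 ∨ w ≠ 0)
    (h1 : b * r = q * c) (h2 : q * x = b * w) (h3 : c * w = r * x) :
    ∃ l : F, b = l * q ∧ c = l * r ∧ x = l * w := by
  rcases h0 with hq | hr | hw
  · refine ⟨b / q, ?_, ?_, ?_⟩
    · rw [div_mul_cancel₀ _ hq]
    · rw [div_mul_eq_mul_div, eq_div_iff hq]; linear_combination (-1 : F) * h1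
    · rw [div_mul_eq_mul_div, eq_div_iff hq]; linear_combination h2
  · refine ⟨c / r, ?_, ?_, ?_⟩
    · rw [div_mul_eq_mul_div, eq_div_iff hr]; linear_combination h1
    · rw [div_mul_cancel₀ _ hr]
    · rw [div_mul_eq_mul_div, eq_div_iff hr]; linear_combination (-1 : F) * h3
  · refine ⟨x / w, ?_, ?_, ?_⟩
    · rw [div_mul_eq_mul_div, eq_div_iff hw]; linear_combination (-1 : F) * h2
    · rw [div_mul_eq_mul_div, eq_div_iff hw]; linear_combination h3
    · rw [div_mul_cancel₀ _ hw]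

theorem mat2_comm_trans {F : Type*} [Field F] (A B C : Matrix (Fin 2) (Fin 2) F)
    (hB : B 0 1 ≠ 0 ∨ B 1 0 ≠ 0 ∨ B 0 0 - B 1 1 ≠ 0)
    (hAB : A * B = B * A) (hBC : B * C = C * B) : A * C = C * A := by
  have e00 := congrFun (congrFun hAB 0) 0
  have e01 := congrFun (congrFun hAB 0) 1
  have e10 := congrFun (congrFun hAB 1) 0
  have f00 := congrFun (congrFun hBC 0) 0
  have f01 := congrFun (congrFun hBC 0) 1
  have f10 := congrFun (congrFun hBC 1) 0
  simp only [Matrix.mul_apply, Fin.sum_univ_two] at e00 e01 e10 f00 f01 f10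
  obtain ⟨l, hl1, hl2, hl3⟩ := parallel_aux (b := A 0 1) (c := A 1 0) (x := A 0 0 - A 1 1) hB
    (by linear_combination e00) (by linear_combination e01) (by linear_combination e10)
  obtain ⟨m, hm1, hm2, hm3⟩ := parallel_aux (b := C 0 1) (c := C 1 0) (x := C 0 0 - C 1 1) hB
    (by linear_combination (-1 : F) * f00) (by linear_combination (-1 : F) * f01)
    (by linear_combination (-1 : F) * f10)
  have ha : A 0 0 = A 1 1 + l * (B 0 0 - B 1 1) := by linear_combination hl3
  have hc : C 0 0 = C 1 1 + m * (B 0 0 - B 1 1) := by linear_combination hm3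
  have key : ∀ i j, (A * C) i j = (C * A) i j := by
    rw [Fin.forall_fin_two]
    refine ⟨?_, ?_⟩ <;> rw [Fin.forall_fin_two] <;> refine ⟨?_, ?_⟩ <;>
      (simp only [Matrix.mul_apply, Fin.sum_univ_two, ha, hc, hl1, hl2, hm1, hm2]; ring)
  exact Matrix.ext key

theorem sl2_center_bot {F : Type*} [Field F] (h2 : (2 : F) = 0) :
    Subgroup.center (Matrix.SpecialLinearGroup (Fin 2) F) = ⊥ := by
  rw [eq_bot_iff]
  intro A hA
  rw [Matrix.SpecialLinearGroup.mem_center_iff] at hA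
  obtain ⟨r, hr, hrA⟩ := hA
  rw [Subgroup.mem_bot]
  have hr1 : r = 1 := by
    simp only [Fintype.card_fin] at hr
    have h3 : (r - 1) ^ 2 = 0 := by linear_combination hr - (r - 1) * h2
    exact sub_eq_zero.1 ((pow_eq_zero_iff (two_ne_zero)).1 h3)
  subst hr1
  apply Subtype.ext
  rw [← hrA]
  simp

theorem sl2_ne_one {F : Type*} [Field F] (h2 : (2 : F) = 0)
    {B : Matrix.SpecialLinearGroup (Fin 2) F} (hB : B ≠ 1) :
    (B : Matrix (Fin 2) (Fin 2) F) 0 1 ≠ 0 ∨ (B : Matrix (Fin 2) (Fin 2) F) 1 0 ≠ 0 ∨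
      (B : Matrix (Fin 2) (Fin 2) F) 0 0 - (B : Matrix (Fin 2) (Fin 2) F) 1 1 ≠ 0 := by
  by_contra hcon
  push Not at hcon
  obtain ⟨h01, h10, h00⟩ := hcon
  apply hB
  have hdet := B.2
  rw [Matrix.det_fin_two, h01, h10] at hdet
  have h11 : (B : Matrix (Fin 2) (Fin 2) F) 0 0 = (B : Matrix (Fin 2) (Fin 2) F) 1 1 :=
    sub_eq_zero.1 h00
  have h3 : ((B : Matrix (Fin 2) (Fin 2) F) 1 1 - 1) ^ 2 = 0 := by
    rw [h11] at hdet
    linear_combination hdet - ((B : Matrix (Fin 2) (Fin 2) F) 1 1 - 1) * h2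
  have h4 : (B : Matrix (Fin 2) (Fin 2) F) 1 1 = 1 :=
    sub_eq_zero.1 ((pow_eq_zero_iff (two_ne_zero)).1 h3)
  apply Subtype.ext
  apply Matrix.ext
  rw [Fin.forall_fin_two]
  refine ⟨?_, ?_⟩ <;> rw [Fin.forall_fin_two] <;> refine ⟨?_, ?_⟩
  · rw [h11, h4]; simp
  · rw [h01]; simp
  · rw [h10]; simp
  · rw [h4]; simp

theorem psl2_ca {F : Type*} [Field F] (h2 : (2 : F) = 0) :
    CAProp (Matrix.ProjectiveSpecialLinearGroup (Fin 2) F) := by
  intro a b c ha hb hc hab hbc
  obtain ⟨A, rfl⟩ := QuotientGroup.mk_surjective a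
  obtain ⟨B, rfl⟩ := QuotientGroup.mk_surjective b
  obtain ⟨C, rfl⟩ := QuotientGroup.mk_surjective c
  have hcen := sl2_center_bot h2
  have hlift : ∀ X Y : Matrix.SpecialLinearGroup (Fin 2) F,
      Commute (QuotientGroup.mk X : Matrix.ProjectiveSpecialLinearGroup (Fin 2) F)
        (QuotientGroup.mk Y) → X * Y = Y * X := by
    intro X Y h
    have h' : (QuotientGroup.mk (X * Y) : Matrix.ProjectiveSpecialLinearGroup (Fin 2) F)
        = QuotientGroup.mk (Y * X) := h
    rw [QuotientGroup.eq, hcen, Subgroup.mem_bot] at h'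
    exact (inv_mul_eq_one.1 h')
  have hB1 : B ≠ 1 := by
    rintro rfl
    exact hb rfl
  have hAB := hlift A B hab
  have hBC := hlift B C hbc
  have hmat := mat2_comm_trans (A : Matrix (Fin 2) (Fin 2) F) (B : Matrix (Fin 2) (Fin 2) F)
    (C : Matrix (Fin 2) (Fin 2) F) (sl2_ne_one h2 hB1) (congrArg Subtype.val hAB)
    (congrArg Subtype.val hBC)
  have hAC : A * C = C * A := Subtype.ext hmat
  have : (QuotientGroup.mk (A * C) : Matrix.ProjectiveSpecialLinearGroup (Fin 2) F)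
      = QuotientGroup.mk (C * A) := by rw [hAC]
  exact this

theorem ca_converse {G : Type*} [Group G] {F : Type} [Field F] [Fintype F] {f : ℕ}
    (hf : Fintype.card F = 2 ^ f)
    (e : G ≃* Matrix.ProjectiveSpecialLinearGroup (Fin 2) F) : CAProp G := by
  have h2 : (2 : F) = 0 := by
    have h := FiniteField.cast_card_eq_zero F
    rw [hf] at h
    push_cast at h
    have hf0 : f ≠ 0 := by
      rintro rfl
      simp at h
    exact (pow_eq_zero_iff hf0).1 h
  have hP := psl2_ca h2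
  intro a b c ha hb hc hab hbc
  have h1 : Commute (e a) (e b) := by
    show e a * e b = e b * e a
    rw [← map_mul, ← map_mul, hab.eq]
  have h2' : Commute (e b) (e c) := by
    show e b * e c = e c * e b
    rw [← map_mul, ← map_mul, hbc.eq]
  have h3 := hP (e a) (e b) (e c) (fun h => ha (e.map_eq_one_iff.1 h))
    (fun h => hb (e.map_eq_one_iff.1 h)) (fun h => hc (e.map_eq_one_iff.1 h)) h1 h2'
  apply e.injective
  rw [map_mul, map_mul]
  exact h3

end Cfsg.Agent.Helper83
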