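import Mathlib
import Cfsg.Prelude.Def_Characters
import Cfsg.Agent.Helper75.Zeros2
import Cfsg.Agent.Helper83.CosetZeros3

set_option autoImplicit false
set_option maxHeartbeats 400000
set_option linter.unusedSectionVars false

namespace Cfsg.Agent.Helper83

open Cfsg Cfsg.Agent.Helper75

theorem nontrivial_of_irreducible {G : Type*} [Group G] {V : Type*} [AddCommGroup V] [Module ℂ V]
    (ρ : Representation ℂ G V) (hρ : ρ.IsIrreducible) : Nontrivial V := by
  by_contra h
  rw [not_nontrivial_iff_subsingleton] at h
  have h1 : (⊥ : Subrepresentation ρ) ≠ ⊤ := bot_ne_top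
  apply h1
  apply Subrepresentation.toSubmodule_injective
  exact Subsingleton.elim _ _

section Main

variable {G : Type*} [Group G] [Finite G] {V : Type*} [AddCommGroup V] [Module ℂ V]
  [FiniteDimensional ℂ V] (ρ : Representation ℂ G V) (N : Subgroup G) [N.Normal]

/-- If an irreducible character vanishes on no coset of `N`, its restriction to `N` is
irreducible. -/
theorem restrict_irreducible_of_no_zero_coset (hρ : ρ.IsIrreducible)
    (h : ∀ x : G, ∃ m : N, ρ.character ((m : G) * x) ≠ 0) :
    Representation.IsIrreducible (MonoidHom.comp ρ N.subtype : Representation ℂ N V) := by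
  classical
  have : Fintype G := Fintype.ofFinite G
  have : Fintype N := Fintype.ofFinite N
  have hnt : Nontrivial V := nontrivial_of_irreducible ρ hρ
  have h1 : ∀ x : G, cosetT ρ N 1 x ≠ 0 := by
    intro x
    obtain ⟨m, hm⟩ := h x
    rw [cosetT_eq_ofReal]
    have hpos : 0 < cosetR ρ N 1 x := by
      unfold cosetR
      apply mul_pos
      · exact inv_pos.mpr (by exact_mod_cast Nat.card_pos)
      · apply Finset.sum_pos'
        · intro i _; positivity
        · refine ⟨m, Finset.mem_univ _, ?_⟩
          rw [upow_one]
          have : 0 < ‖ρ.character ((m : G) * x)‖ := norm_pos_iff.mpr hm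
          positivity
    exact_mod_cast hpos.ne'
  have hd := finrank_invN_le_one ρ N hρ h1
  have hd1 : Module.finrank ℂ (invN ρ N) = 1 := by
    apply le_antisymm hd
    exact Module.finrank_pos_iff_exists_ne_zero.mpr ⟨_, one_ne_zero_invN ρ N⟩
  apply irreducible_of_scalar_commutant
  intro f hf
  exact scalar_of_finrank_invN ρ N hd1 (mem_invN_of_commute ρ N hf)

/-- If the restriction to `N` of an irreducible character is an irreducible character of `N`,
it vanishes on no coset of `N`. -/
theorem exists_ne_zero_of_restrict_irreducible (hρ : ρ.IsIrreducible) {W : Type*}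
    [AddCommGroup W] [Module ℂ W] [FiniteDimensional ℂ W] (θ : Representation ℂ N W)
    (hθ : θ.IsIrreducible) (hχ : ∀ m : N, θ.character m = ρ.character (m : G)) (x : G) :
    ∃ m : N, ρ.character ((m : G) * x) ≠ 0 := by
  classical
  have : Fintype G := Fintype.ofFinite G
  have : Fintype N := Fintype.ofFinite N
  have hnt : Nontrivial V := nontrivial_of_irreducible ρ hρ
  by_contra h
  push Not at h
  have hinv : Invertible (Nat.card N : ℂ) := invertibleOfNonzero (card_N_ne_zero N)
  have horth := Representation.char_orthonormal θ θ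
  rw [if_pos ⟨Representation.Equiv.refl θ⟩] at horth
  have h1 : cosetT ρ N 1 1 = 1 := by
    rw [← horth]
    unfold cosetT
    congr 1
    apply Finset.sum_congr rfl
    intro m _
    rw [upow_one, upow_one, mul_one, hχ, hχ, mul_comm]
    rfl
  rw [cosetT_of_mem ρ N 1 N.one_mem] at h1
  have hd1 : Module.finrank ℂ (invN ρ N) = 1 := by exact_mod_cast h1
  have h2 := trace_eq_one_of_finrank ρ N hd1 x
  rw [trace_avgN_mul] at h2
  simp only [h, mul_zero, Finset.sum_const_zero] at h2
  exact zero_ne_one h2

end Main

end Cfsg.Agent.Helper83
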