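import Mathlib

set_option autoImplicit false

/-!
# Number theory: `2^n (2^n - 1) (2^n + 1)` has exactly three prime divisors only for `n = 2, 3`
-/

namespace Cfsg.Agent.Helper83

theorem three_pow_mod_eight (j : ℕ) : 3 ^ j % 8 = 1 ∨ 3 ^ j % 8 = 3 := by
  induction j with
  | zero => left; norm_num
  | succ k ih => rw [pow_succ]; omega

theorem three_pow_mod_eighty (j : ℕ) :
    3 ^ j % 80 = 1 ∨ 3 ^ j % 80 = 3 ∨ 3 ^ j % 80 = 9 ∨ 3 ^ j % 80 = 27 := by
  induction j with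
  | zero => left; norm_num
  | succ k ih => rw [pow_succ]; omega

theorem two_pow_mod_five (m : ℕ) : 2 ^ m % 5 ≠ 0 := by
  induction m with
  | zero => norm_num
  | succ k ih => rw [pow_succ]; omega

/-- If `2^n - 1` is a power of `3` and `n ≥ 2`, then `n = 2`. -/
theorem two_pow_sub_one_eq_three_pow (n j : ℕ) (hn : 2 ≤ n) (h : 2 ^ n - 1 = 3 ^ j) : n = 2 := by
  by_contra hne
  obtain ⟨m, rfl⟩ : ∃ m, n = m + 3 := ⟨n - 3, by omega⟩
  have h8 := three_pow_mod_eight j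
  have hpos : 0 < 2 ^ m := pow_pos (by norm_num) m
  rw [pow_add] at h
  norm_num at h
  omega

/-- If `2^n + 1` is a power of `3` and `n ≥ 2`, then `n = 3`. -/
theorem two_pow_add_one_eq_three_pow (n k : ℕ) (hn : 2 ≤ n) (h : 2 ^ n + 1 = 3 ^ k) : n = 3 := by
  by_contra hne
  have h80 := three_pow_mod_eighty k
  rcases Nat.lt_or_ge n 4 with hlt | hge
  · have hn2 : n = 2 := by omega
    subst hn2
    norm_num at h
    omega
  · obtain ⟨m, rfl⟩ : ∃ m, n = m + 4 := ⟨n - 4, by omega⟩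
    have h5 := two_pow_mod_five m
    rw [pow_add] at h
    norm_num at h
    omega

theorem three_primes_two_pow (n : ℕ) (hn : 2 ≤ n)
    (h3 : (2 ^ n * ((2 ^ n) ^ 2 - 1)).primeFactors.card = 3) : n = 2 ∨ n = 3 := by
  have hq4 : 4 ≤ 2 ^ n := by
    calc 4 = 2 ^ 2 := by norm_num
      _ ≤ 2 ^ n := Nat.pow_le_pow_right (by norm_num) hn
  obtain ⟨a, ha⟩ : ∃ a, 2 ^ n = a + 1 := ⟨2 ^ n - 1, by omega⟩
  have hfac : (2 ^ n) ^ 2 - 1 = (2 ^ n - 1) * (2 ^ n + 1) := by
    rw [ha]; simp only [Nat.add_sub_cancel]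
    have : (a + 1) ^ 2 = a * (a + 1 + 1) + 1 := by ring
    rw [this, Nat.add_sub_cancel]
  have hA : 2 ^ n - 1 ≠ 0 := by omega
  have hB : 2 ^ n + 1 ≠ 0 := by omega
  have hq0 : 2 ^ n ≠ 0 := by omega
  have hpf : (2 ^ n * ((2 ^ n) ^ 2 - 1)).primeFactors =
      {2} ∪ ((2 ^ n - 1).primeFactors ∪ (2 ^ n + 1).primeFactors) := by
    rw [hfac, Nat.primeFactors_mul hq0 (mul_ne_zero hA hB), Nat.primeFactors_mul hA hB,
      Nat.primeFactors_prime_pow (by omega) Nat.prime_two]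
  have hoddA : ¬ 2 ∣ 2 ^ n - 1 := by
    have : 2 ∣ 2 ^ n := dvd_pow_self 2 (by omega)
    omega
  have hoddB : ¬ 2 ∣ 2 ^ n + 1 := by
    have : 2 ∣ 2 ^ n := dvd_pow_self 2 (by omega)
    omega
  have hcop : (2 ^ n - 1).Coprime (2 ^ n + 1) := by
    rw [Nat.coprime_iff_gcd_eq_one]
    have hd1 : Nat.gcd (2 ^ n - 1) (2 ^ n + 1) ∣ 2 ^ n - 1 := Nat.gcd_dvd_left _ _
    have hd2 : Nat.gcd (2 ^ n - 1) (2 ^ n + 1) ∣ 2 ^ n + 1 := Nat.gcd_dvd_right _ _
    have hd3 : Nat.gcd (2 ^ n - 1) (2 ^ n + 1) ∣ 2 := by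
      have e : 2 ^ n + 1 - (2 ^ n - 1) = 2 := by omega
      have hsub := Nat.dvd_sub hd2 hd1
      rwa [e] at hsub
    rcases (Nat.dvd_prime Nat.prime_two).1 hd3 with h1 | h2
    · exact h1
    · rw [h2] at hd1
      exact absurd hd1 hoddA
  have hdisj1 : Disjoint ({2} : Finset ℕ) ((2 ^ n - 1).primeFactors ∪ (2 ^ n + 1).primeFactors) := by
    rw [Finset.disjoint_singleton_left, Finset.mem_union]
    rintro (h | h)
    · exact hoddA (Nat.dvd_of_mem_primeFactors h)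
    · exact hoddB (Nat.dvd_of_mem_primeFactors h)
  have hdisj2 : Disjoint (2 ^ n - 1).primeFactors (2 ^ n + 1).primeFactors :=
    hcop.disjoint_primeFactors
  rw [hpf, Finset.card_union_of_disjoint hdisj1, Finset.card_union_of_disjoint hdisj2,
    Finset.card_singleton] at h3
  have hA1 : 0 < (2 ^ n - 1).primeFactors.card :=
    Finset.card_pos.2 (Nat.nonempty_primeFactors.2 (by omega))
  have hB1 : 0 < (2 ^ n + 1).primeFactors.card :=
    Finset.card_pos.2 (Nat.nonempty_primeFactors.2 (by omega))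
  have hA2 : (2 ^ n - 1).primeFactors.card = 1 := by omega
  have hB2 : (2 ^ n + 1).primeFactors.card = 1 := by omega
  obtain ⟨p, hp⟩ := Finset.card_eq_one.1 hA2
  obtain ⟨r, hr⟩ := Finset.card_eq_one.1 hB2
  -- 3 divides one of them
  have h3div : 3 ∣ 2 ^ n - 1 ∨ 3 ∣ 2 ^ n + 1 := by
    have hmod : 2 ^ n % 3 = 1 ∨ 2 ^ n % 3 = 2 := by
      clear * -
      induction n with
      | zero => left; norm_num
      | succ k ih => rw [pow_succ]; omega
    omega
  rcases h3div with h | h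
  · left
    have h3mem : 3 ∈ (2 ^ n - 1).primeFactors :=
      Nat.mem_primeFactors.2 ⟨Nat.prime_three, h, hA⟩
    rw [hp, Finset.mem_singleton] at h3mem
    subst h3mem
    have hpow := Nat.eq_prime_pow_of_unique_prime_dvd (n := 2 ^ n - 1) (p := 3) hA
      (fun {d} hd hdd => by
        have : d ∈ (2 ^ n - 1).primeFactors := Nat.mem_primeFactors.2 ⟨hd, hdd, hA⟩
        rw [hp, Finset.mem_singleton] at this
        exact this)
    exact two_pow_sub_one_eq_three_pow n _ hn hpow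
  · right
    have h3mem : 3 ∈ (2 ^ n + 1).primeFactors :=
      Nat.mem_primeFactors.2 ⟨Nat.prime_three, h, hB⟩
    rw [hr, Finset.mem_singleton] at h3mem
    subst h3mem
    have hpow := Nat.eq_prime_pow_of_unique_prime_dvd (n := 2 ^ n + 1) (p := 3) hB
      (fun {d} hd hdd => by
        have : d ∈ (2 ^ n + 1).primeFactors := Nat.mem_primeFactors.2 ⟨hd, hdd, hB⟩
        rw [hr, Finset.mem_singleton] at this
        exact this)
    exact two_pow_add_one_eq_three_pow n _ hn hpow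

end Cfsg.Agent.Helper83
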