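/-
CALL LM (helper21, row S4067), piece X2 (double, helper83): `lm_x2`, statement verbatim from
tools/calls/LMSkel.lean.txt.  Mathlib only.
-/
import Mathlib

set_option autoImplicit false

namespace Cfsg.Agent.Helper83.LM

open scoped commutatorElement

/-- X2: `p = 2`: a central involution outside `G'`, or a non-central `x` with `x² ≠ 1`, `x² ∈ G'`. -/
theorem lm_x2 {G : Type*} [Group G] [Finite G] (hZ : commutator G ≤ Subgroup.center G)
    (hc : Nat.card (commutator G) = 2) :
    (∃ c : G, c ∈ Subgroup.center G ∧ orderOf c = 2 ∧ c ∉ commutator G) ∨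
      (∃ x : G, x ∉ Subgroup.center G ∧ x ^ 2 ∈ commutator G ∧ x ^ 2 ≠ 1) := by
  classical
  by_contra hcon
  push Not at hcon
  obtain ⟨h1, h2⟩ := hcon
  -- a non-trivial commutator
  have hnab : ∃ a b : G, ⁅a, b⁆ ≠ 1 := by
    by_contra hall
    push Not at hall
    have hbot : commutator G = ⊥ := by
      rw [commutator_eq_closure, Subgroup.closure_eq_bot_iff]
      rintro g ⟨a, b, rfl⟩
      exact Set.mem_singleton_iff.mpr (hall a b)
    rw [hbot, Subgroup.card_bot] at hc
    exact absurd hc (by norm_num)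
  obtain ⟨a, b, hab⟩ := hnab
  have hcomm_mem : ∀ g h : G, ⁅g, h⁆ ∈ commutator G := fun g h => by
    rw [commutator_def]
    exact Subgroup.commutator_mem_commutator (Subgroup.mem_top g) (Subgroup.mem_top h)
  have hzG : ⁅a, b⁆ ∈ commutator G := hcomm_mem a b
  have hzZ : ⁅a, b⁆ ∈ Subgroup.center G := hZ hzG
  -- the elements of `G'`
  have hG'2 : ∀ g ∈ commutator G, g = 1 ∨ g = ⁅a, b⁆ := by
    obtain ⟨y, hy, hyu⟩ := (Nat.card_eq_two_iff' (1 : commutator G)).mp hc
    intro g hg
    by_cases hg1 : g = 1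
    · exact Or.inl hg1
    · right
      have e1 : (⟨g, hg⟩ : commutator G) = y := hyu _ (fun h => hg1 (congrArg Subtype.val h))
      have e2 : (⟨⁅a, b⁆, hzG⟩ : commutator G) = y :=
        hyu _ (fun h => hab (congrArg Subtype.val h))
      exact congrArg Subtype.val (e1.trans e2.symm)
  have hsq1 : ∀ g ∈ commutator G, g ^ 2 = 1 := by
    intro g hg
    have h3 : (⟨g, hg⟩ : commutator G) ^ Nat.card (commutator G) = 1 := pow_card_eq_one'
    rw [hc] at h3
    exact congrArg Subtype.val h3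
  have hz2 : ⁅a, b⁆ ^ 2 = 1 := hsq1 _ hzG
  have hzz : ⁅a, b⁆ * ⁅a, b⁆ = 1 := by rw [← pow_two]; exact hz2
  -- commutation up to a central commutator
  have hmul : ∀ g h : G, g * h = ⁅g, h⁆ * (h * g) := fun g h => by
    rw [commutatorElement_def]; group
  have hcen : ∀ g h k : G, ⁅g, h⁆ * k = k * ⁅g, h⁆ := fun g h k =>
    ((Subgroup.mem_center_iff.mp (hZ (hcomm_mem g h))) k).symm
  -- squares are central
  have hsqZ : ∀ g : G, g ^ 2 ∈ Subgroup.center G := by
    intro g
    rw [Subgroup.mem_center_iff]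
    intro h
    have e1 : h * g = ⁅h, g⁆ * (g * h) := hmul h g
    have e2 : ⁅h, g⁆ * ⁅h, g⁆ = 1 := by rw [← pow_two]; exact hsq1 _ (hcomm_mem h g)
    calc h * g ^ 2 = (h * g) * g := by rw [pow_two, mul_assoc]
      _ = ⁅h, g⁆ * (g * h) * g := by rw [← e1]
      _ = ⁅h, g⁆ * (g * (h * g)) := by simp only [mul_assoc]
      _ = ⁅h, g⁆ * (g * (⁅h, g⁆ * (g * h))) := by rw [← e1]
      _ = ⁅h, g⁆ * (⁅h, g⁆ * (g * (g * h))) := by
          rw [← mul_assoc g ⁅h, g⁆, ← hcen h g g, mul_assoc]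
      _ = (⁅h, g⁆ * ⁅h, g⁆) * (g * (g * h)) := by rw [mul_assoc]
      _ = g ^ 2 * h := by rw [e2, one_mul, pow_two, mul_assoc]
  -- `(a b)² = z a² b²`
  have hba : ⁅b, a⁆ = ⁅a, b⁆ := by
    have e : ⁅b, a⁆ = ⁅a, b⁆⁻¹ := (commutatorElement_inv a b).symm
    rw [e]
    exact inv_eq_of_mul_eq_one_left hzz
  have habsq : (a * b) ^ 2 = ⁅a, b⁆ * (a ^ 2 * b ^ 2) := by
    have e1 : b * a = ⁅a, b⁆ * (a * b) := by rw [← hba]; exact hmul b a
    calc (a * b) ^ 2 = a * (b * a) * b := by rw [pow_two]; simp only [mul_assoc]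
      _ = a * (⁅a, b⁆ * (a * b)) * b := by rw [e1]
      _ = ⁅a, b⁆ * (a * (a * b)) * b := by
          rw [← mul_assoc a ⁅a, b⁆, ← hcen a b a, mul_assoc ⁅a, b⁆]
      _ = ⁅a, b⁆ * (a ^ 2 * b ^ 2) := by rw [pow_two, pow_two]; simp only [mul_assoc]
  -- non-central elements
  have haZ : a ∉ Subgroup.center G := by
    intro h
    apply hab
    rw [commutatorElement_def, ← (Subgroup.mem_center_iff.mp h) b]
    group
  have hbZ : b ∉ Subgroup.center G := by
    intro h
    apply hab
    rw [commutatorElement_def, (Subgroup.mem_center_iff.mp h) a]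
    group
  have habZ : a * b ∉ Subgroup.center G := by
    intro h
    apply hab
    have e : ⁅a, b⁆ = (a * b) * b * (a * b)⁻¹ * b⁻¹ := by
      rw [commutatorElement_def]; group
    rw [e, ← (Subgroup.mem_center_iff.mp h) b]
    group
  -- the key: no non-central `g` has `g² = z c²` with `c` central
  have key : ∀ g : G, g ∉ Subgroup.center G → ∀ c ∈ Subgroup.center G,
      g ^ 2 = ⁅a, b⁆ * c ^ 2 → False := by
    intro g hg c hcZ hgc
    have hc' : ∀ k : G, k * c⁻¹ = c⁻¹ * k := fun k =>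
      (Subgroup.mem_center_iff.mp (Subgroup.inv_mem _ hcZ)) k
    have hxZ : g * c⁻¹ ∉ Subgroup.center G := by
      intro h
      apply hg
      have e : g = g * c⁻¹ * c := by group
      rw [e]
      exact Subgroup.mul_mem _ h hcZ
    have hx2 : (g * c⁻¹) ^ 2 = ⁅a, b⁆ := by
      calc (g * c⁻¹) ^ 2 = g * (c⁻¹ * g) * c⁻¹ := by rw [pow_two]; simp only [mul_assoc]
        _ = g * (g * c⁻¹) * c⁻¹ := by rw [hc' g]
        _ = g ^ 2 * (c ^ 2)⁻¹ := by rw [pow_two, pow_two, mul_inv_rev]; simp only [mul_assoc]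
        _ = ⁅a, b⁆ := by rw [hgc, mul_inv_cancel_right]
    have h3 := h2 (g * c⁻¹) hxZ (by rw [hx2]; exact hzG)
    rw [hx2] at h3
    exact hab h3
  -- the squaring map on the centre
  let φ : ↥(Subgroup.center G) →* ↥(Subgroup.center G) :=
    { toFun := fun c => c ^ 2
      map_one' := one_pow 2
      map_mul' := fun c d => by
        have hcd : Commute c d := Subtype.ext (Subgroup.mem_center_iff.mp d.2 (c : G))
        exact hcd.mul_pow 2 }
  have hφ : ∀ c : ↥(Subgroup.center G), φ c = c ^ 2 := fun c => rfl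
  have hker : Nat.card φ.ker = 2 := by
    rw [Nat.card_eq_two_iff]
    refine ⟨1, ⟨⟨⁅a, b⁆, hzZ⟩, ?_⟩, ?_, ?_⟩
    · rw [MonoidHom.mem_ker, hφ]
      exact Subtype.ext hz2
    · intro h
      have h4 := congrArg (fun t : φ.ker => ((t : ↥(Subgroup.center G)) : G)) h
      exact hab h4.symm
    · ext ⟨c, hcker⟩
      simp only [Set.mem_insert_iff, Set.mem_singleton_iff, Set.mem_univ, iff_true]
      have hc2 : (c : G) ^ 2 = 1 := by
        have h5 := MonoidHom.mem_ker.mp hcker
        rw [hφ] at h5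
        exact congrArg Subtype.val h5
      by_cases hc1 : (c : G) = 1
      · left
        exact Subtype.ext (Subtype.ext hc1)
      · right
        have ho : orderOf (c : G) = 2 := orderOf_eq_prime hc2 hc1
        rcases hG'2 (c : G) (h1 (c : G) c.2 ho) with h6 | h6
        · exact absurd h6 hc1
        · exact Subtype.ext (Subtype.ext h6)
  have hidx : φ.range.index = 2 := by
    have e1 := Subgroup.card_mul_index φ.ker
    have e2 := Subgroup.card_mul_index φ.range
    rw [Subgroup.index_ker, hker] at e1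
    have hpos : 0 < Nat.card φ.range := Nat.card_pos
    have e3 : Nat.card φ.range * φ.range.index = Nat.card φ.range * 2 := by
      rw [e2, ← e1, Nat.mul_comm]
    exact Nat.eq_of_mul_eq_mul_left hpos e3
  have hmem := fun (u v : ↥(Subgroup.center G)) =>
    Subgroup.mul_mem_iff_of_index_two hidx (a := u) (b := v)
  -- from membership in the range to an equation in `G`
  have hrange : ∀ (g : G) (u : ↥(Subgroup.center G)), g ∉ Subgroup.center G →
      (u : G) = ⁅a, b⁆ * g ^ 2 → u ∉ φ.range := by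
    rintro g u hg hu ⟨c, hcu⟩
    apply key g hg (c : G) c.2
    have e1 : ((c : G)) ^ 2 = ⁅a, b⁆ * g ^ 2 := by
      rw [← hu, ← hcu, hφ]
      rfl
    rw [e1, ← mul_assoc, hzz, one_mul]
  set zc : ↥(Subgroup.center G) := ⟨⁅a, b⁆, hzZ⟩ with hzc
  set ua : ↥(Subgroup.center G) := ⟨a ^ 2, hsqZ a⟩ with hua
  set ub : ↥(Subgroup.center G) := ⟨b ^ 2, hsqZ b⟩ with hub
  have ha1 : zc * ua ∉ φ.range := hrange a (zc * ua) haZ rfl
  have hb1 : zc * ub ∉ φ.range := hrange b (zc * ub) hbZ rfl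
  have hab1 : ua * ub ∉ φ.range := by
    apply hrange (a * b) (ua * ub) habZ
    rw [habsq, ← mul_assoc, hzz, one_mul]
    rfl
  rw [hmem] at ha1 hb1 hab1
  tauto

end Cfsg.Agent.Helper83.LM
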