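-- helper83: piece m4b of CALL S4415 (helper63): in dimension `4`, `R` contains `-1` and the
-- diagonal element `(-,-,+,+)`.
import Cfsg.Prelude.Def_Transfer
import Cfsg.Prelude.Def_Solvable
import Cfsg.Agent.Helper63.N15Defs

set_option autoImplicit false

namespace Cfsg.Agent.Helper83.N15

open Cfsg.Agent.Helper63.N15

variable {G : Type*} [Group G] [Finite G] {V : Type*} [AddCommGroup V] [Module (ZMod 3) V]
  [Finite V] {ρ : Representation (ZMod 3) G V} {R : Subgroup G} {b q₁ q₂ q₃ : G} {v₁ v₂ v₃ : V}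

omit [Finite V] in
theorem m4b_three (v : V) : v + v + v = 0 := by
  have h : (3 : ZMod 3) • v = v + v + v := by
    rw [show (3 : ZMod 3) = 1 + 1 + 1 by norm_num, add_smul, add_smul, one_smul]
  rw [← h, show (3 : ZMod 3) = 0 from by decide, zero_smul]

omit [Finite V] in
theorem m4b_negself (x : V) (h : x = -x) : x = 0 := by
  have h3 := m4b_three x
  have h2 : x + x = 0 := by
    nth_rewrite 2 [h]
    exact add_neg_cancel x
  have e : x = (x + x + x) - (x + x) := by abel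
  rw [e, h3, h2, sub_zero]

omit [Finite G] [Finite V] in
theorem m4b_inv_apply (ρ : Representation (ZMod 3) G V) (g : G) (v : V) :
    ρ g (ρ g⁻¹ v) = v := by
  rw [← Module.End.mul_apply, ← map_mul, mul_inv_cancel, map_one, Module.End.one_apply]

omit [Finite G] [Finite V] in
theorem m4b_inv_apply' (ρ : Representation (ZMod 3) G V) (g : G) (v : V) :
    ρ g⁻¹ (ρ g v) = v := by
  rw [← Module.End.mul_apply, ← map_mul, inv_mul_cancel, map_one, Module.End.one_apply]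

omit [Finite V] in
theorem m4b_sgn (x e : V) (h : x = e ∨ x = -e) : ∃ a : ZMod 3, a ≠ 0 ∧ x = a • e := by
  rcases h with h | h
  · exact ⟨1, one_ne_zero, by rw [one_smul]; exact h⟩
  · exact ⟨-1, by decide, by rw [neg_smul, one_smul]; exact h⟩

theorem m4b_cg {P : ZMod 3 → ZMod 3 → ZMod 3 → ZMod 3 → Prop}
    {x₁ x₂ x₃ x₄ y₁ y₂ y₃ y₄ : ZMod 3}
    (h : P x₁ x₂ x₃ x₄) (e1 : x₁ = y₁) (e2 : x₂ = y₂) (e3 : x₃ = y₃) (e4 : x₄ = y₄) :
    P y₁ y₂ y₃ y₄ := by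
  subst e1 e2 e3 e4
  exact h

set_option synthInstance.maxHeartbeats 400000 in
set_option synthInstance.maxSize 2048 in
set_option maxRecDepth 4096 in
theorem m4b_key1 : ∀ a b c d : ZMod 3, a ≠ 0 → b ≠ 0 → c ≠ 0 → d ≠ 0 → a * b * c * d = 1 →
    ¬ (a = 1 ∧ b = 1 ∧ c = 1 ∧ d = 1) → ¬ (a = -1 ∧ b = -1 ∧ c = -1 ∧ d = -1) →
    (a = -1 ∧ b = -1 ∧ c = 1 ∧ d = 1) ∨ (c = -1 ∧ a = -1 ∧ b = 1 ∧ d = 1) ∨
    (b = -1 ∧ c = -1 ∧ a = 1 ∧ d = 1) ∨ (a * c = -1 ∧ b * a = -1 ∧ c * b = 1 ∧ d * d = 1) ∨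
    (a * b = -1 ∧ b * c = -1 ∧ c * a = 1 ∧ d * d = 1) ∨
    (c * b = -1 ∧ a * c = -1 ∧ b * a = 1 ∧ d * d = 1) := by
  decide

theorem m4b_comb1 (P : ZMod 3 → ZMod 3 → ZMod 3 → ZMod 3 → Prop)
    (hmul : ∀ a b c d a' b' c' d', P a b c d → P a' b' c' d' →
      P (a * a') (b * b') (c * c') (d * d'))
    (hrot : ∀ a b c d, P a b c d → P c a b d)
    (a b c d : ZMod 3) (h : P a b c d) (ha : a ≠ 0) (hb : b ≠ 0) (hc : c ≠ 0) (hd : d ≠ 0)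
    (hev : a * b * c * d = 1) (hn1 : ¬ (a = 1 ∧ b = 1 ∧ c = 1 ∧ d = 1))
    (hn2 : ¬ (a = -1 ∧ b = -1 ∧ c = -1 ∧ d = -1)) : P (-1) (-1) 1 1 := by
  have h1 := hrot _ _ _ _ h
  have h2 := hrot _ _ _ _ h1
  have h01 := hmul _ _ _ _ _ _ _ _ h h1
  have h02 := hmul _ _ _ _ _ _ _ _ h h2
  have h12 := hmul _ _ _ _ _ _ _ _ h1 h2
  rcases m4b_key1 a b c d ha hb hc hd hev hn1 hn2 with
    ⟨e1, e2, e3, e4⟩ | ⟨e1, e2, e3, e4⟩ | ⟨e1, e2, e3, e4⟩ | ⟨e1, e2, e3, e4⟩ |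
    ⟨e1, e2, e3, e4⟩ | ⟨e1, e2, e3, e4⟩
  · exact m4b_cg h e1 e2 e3 e4
  · exact m4b_cg h1 e1 e2 e3 e4
  · exact m4b_cg h2 e1 e2 e3 e4
  · exact m4b_cg h01 e1 e2 e3 e4
  · exact m4b_cg h02 e1 e2 e3 e4
  · exact m4b_cg h12 e1 e2 e3 e4

set_option synthInstance.maxHeartbeats 400000 in
set_option synthInstance.maxSize 2048 in
set_option maxRecDepth 4096 in
theorem m4b_key2 : ∀ a b c : ZMod 3, a ≠ 0 → b ≠ 0 → c ≠ 0 → a * b * c * (-1) = 1 →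
    (a = -1 ∧ b = -1 ∧ c = -1) ∨ (-1 * a = -1 ∧ -1 * b = -1 ∧ 1 * c = -1) ∨
    (-1 * c = -1 ∧ -1 * a = -1 ∧ 1 * b = -1) ∨ (-1 * b = -1 ∧ -1 * c = -1 ∧ 1 * a = -1) := by
  decide

theorem m4b_comb2 (P : ZMod 3 → ZMod 3 → ZMod 3 → ZMod 3 → Prop)
    (hmul : ∀ a b c d a' b' c' d', P a b c d → P a' b' c' d' →
      P (a * a') (b * b') (c * c') (d * d'))
    (hrot : ∀ a b c d, P a b c d → P c a b d)
    (h0 : P (-1) (-1) 1 1) (a b c : ZMod 3) (h : P a b c (-1))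
    (ha : a ≠ 0) (hb : b ≠ 0) (hc : c ≠ 0) (hev : a * b * c * (-1) = 1) :
    P (-1) (-1) (-1) (-1) := by
  have h1 := hrot _ _ _ _ h
  have h2 := hrot _ _ _ _ h1
  have k0 := hmul _ _ _ _ _ _ _ _ h0 h
  have k1 := hmul _ _ _ _ _ _ _ _ h0 h1
  have k2 := hmul _ _ _ _ _ _ _ _ h0 h2
  rcases m4b_key2 a b c ha hb hc hev with
    ⟨e1, e2, e3⟩ | ⟨e1, e2, e3⟩ | ⟨e1, e2, e3⟩ | ⟨e1, e2, e3⟩
  · exact m4b_cg h e1 e2 e3 rfl
  · exact m4b_cg k0 e1 e2 e3 (one_mul _)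
  · exact m4b_cg k1 e1 e2 e3 (one_mul _)
  · exact m4b_cg k2 e1 e2 e3 (one_mul _)

omit [Finite G] [Finite V] in
theorem m4b_notZ (c : Cfg ρ R b q₁ q₂ q₃ v₁ v₂ v₃) : ¬ IsZ ρ q₁ := by
  rintro (h1 | hm)
  · have h := c.s12
    rw [h1, map_one, Module.End.one_apply] at h
    exact c.rot.v1 (m4b_negself v₂ h)
  · have h := hm v₁
    rw [c.s11] at h
    exact c.v1 (m4b_negself v₁ h)

/-- The common fixed points of `q₁` and `q₂`. -/
def fixC83 (ρ : Representation (ZMod 3) G V) (q₁ q₂ : G) : Submodule (ZMod 3) V where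
  carrier := {u | ρ q₁ u = u ∧ ρ q₂ u = u}
  add_mem' := by
    intro a b ha hb
    exact ⟨by rw [map_add, ha.1, hb.1], by rw [map_add, ha.2, hb.2]⟩
  zero_mem' := ⟨map_zero _, map_zero _⟩
  smul_mem' := by
    intro k a ha
    exact ⟨by rw [map_smul, ha.1], by rw [map_smul, ha.2]⟩

omit [Finite G] [Finite V] in
theorem mem_fixC83 (ρ : Representation (ZMod 3) G V) (q₁ q₂ : G) (u : V) :
    u ∈ fixC83 ρ q₁ q₂ ↔ ρ q₁ u = u ∧ ρ q₂ u = u := Iff.rfl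

theorem m4b_pig : ∀ j₁ j₂ j₃ j : Fin 4, j₁ ≠ 3 → j₂ ≠ 3 → j₃ ≠ 3 → j₁ ≠ j₂ → j₁ ≠ j₃ →
    j₂ ≠ j₃ → j = 3 ∨ j = j₁ ∨ j = j₂ ∨ j = j₃ := by
  decide

/-- M4b. -/
theorem m4b (c : Cfg ρ R b q₁ q₂ q₃ v₁ v₂ v₃) (e₁ e₂ e₃ e₄ : V)
    (h : Mono4 ρ b e₁ e₂ e₃ e₄)
    (ha : ∀ r ∈ R, (∀ e ∈ ({e₁, e₂, e₃, e₄} : Set V), ρ r e = e ∨ ρ r e = -e) ∨
      (∀ e ∈ ({e₁, e₂, e₃, e₄} : Set V), ρ r e ≠ e ∧ ρ r e ≠ -e ∧
        (ρ r (ρ r e) = e ∨ ρ r (ρ r e) = -e)))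
    (hd4 : ∀ g : G, Det4 ρ g e₁ e₂ e₃ e₄)
    (hfq : ∀ g : G, ∃ r ∈ R, g = r ∨ g = r * b ∨ g = r * (b * b)) :
    (∃ z ∈ R, ∀ v : V, ρ z v = -v) ∧
      ∃ d ∈ R, ρ d e₁ = -e₁ ∧ ρ d e₂ = -e₂ ∧ ρ d e₃ = e₃ ∧ ρ d e₄ = e₄ := by
  obtain ⟨hspan, hind, hperm, htrans, hb1, hb2, hb3, hb4⟩ := h
  obtain ⟨P, hP⟩ : ∃ P : ZMod 3 → ZMod 3 → ZMod 3 → ZMod 3 → Prop, ∀ a₁ a₂ a₃ a₄,
      P a₁ a₂ a₃ a₄ ↔ ∃ d ∈ R, ρ d e₁ = a₁ • e₁ ∧ ρ d e₂ = a₂ • e₂ ∧ ρ d e₃ = a₃ • e₃ ∧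
        ρ d e₄ = a₄ • e₄ := ⟨_, fun _ _ _ _ => Iff.rfl⟩
  have hmul : ∀ a b c d a' b' c' d', P a b c d → P a' b' c' d' →
      P (a * a') (b * b') (c * c') (d * d') := by
    intro a1 a2 a3 a4 a1' a2' a3' a4' hx hy
    obtain ⟨d, hd, h1, h2, h3, h4⟩ := (hP _ _ _ _).mp hx
    obtain ⟨d', hd', h1', h2', h3', h4'⟩ := (hP _ _ _ _).mp hy
    refine (hP _ _ _ _).mpr ⟨d * d', R.mul_mem hd hd', ?_, ?_, ?_, ?_⟩
    · rw [map_mul, Module.End.mul_apply, h1', map_smul, h1, smul_smul, mul_comm]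
    · rw [map_mul, Module.End.mul_apply, h2', map_smul, h2, smul_smul, mul_comm]
    · rw [map_mul, Module.End.mul_apply, h3', map_smul, h3, smul_smul, mul_comm]
    · rw [map_mul, Module.End.mul_apply, h4', map_smul, h4, smul_smul, mul_comm]
  have hbi1 : ρ b⁻¹ e₁ = e₃ := by
    have := m4b_inv_apply' ρ b e₃
    rwa [hb3] at this
  have hbi2 : ρ b⁻¹ e₂ = e₁ := by
    have := m4b_inv_apply' ρ b e₁
    rwa [hb1] at this
  have hbi3 : ρ b⁻¹ e₃ = e₂ := by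
    have := m4b_inv_apply' ρ b e₂
    rwa [hb2] at this
  have hbi4 : ρ b⁻¹ e₄ = e₄ := by
    have := m4b_inv_apply' ρ b e₄
    rwa [hb4] at this
  have hrot : ∀ a b c d, P a b c d → P c a b d := by
    intro a1 a2 a3 a4 hx
    obtain ⟨d, hd, h1, h2, h3, h4⟩ := (hP _ _ _ _).mp hx
    refine (hP _ _ _ _).mpr ⟨b * d * b⁻¹, c.Rn.conj_mem d hd b, ?_, ?_, ?_, ?_⟩
    · rw [map_mul, map_mul, Module.End.mul_apply, Module.End.mul_apply, hbi1, h3, map_smul, hb3]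
    · rw [map_mul, map_mul, Module.End.mul_apply, Module.End.mul_apply, hbi2, h1, map_smul, hb1]
    · rw [map_mul, map_mul, Module.End.mul_apply, Module.End.mul_apply, hbi3, h2, map_smul, hb2]
    · rw [map_mul, map_mul, Module.End.mul_apply, Module.End.mul_apply, hbi4, h4, map_smul, hb4]
  have hall1 : ∀ d : G, ρ d e₁ = e₁ → ρ d e₂ = e₂ → ρ d e₃ = e₃ → ρ d e₄ = e₄ → d = 1 := by
    intro d h1 h2 h3 h4
    apply c.faith
    intro v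
    obtain ⟨c1, c2, c3, c4, rfl⟩ := hspan v
    simp only [map_add, map_smul, h1, h2, h3, h4]
  have hallm : ∀ d : G, ρ d e₁ = -e₁ → ρ d e₂ = -e₂ → ρ d e₃ = -e₃ → ρ d e₄ = -e₄ →
      ∀ v : V, ρ d v = -v := by
    intro d h1 h2 h3 h4 v
    obtain ⟨c1, c2, c3, c4, rfl⟩ := hspan v
    simp only [map_add, map_smul, h1, h2, h3, h4, smul_neg]
    abel
  have hsgn : ∀ d : G, (∀ e ∈ ({e₁, e₂, e₃, e₄} : Set V), ρ d e = e ∨ ρ d e = -e) →
      ∃ a1 a2 a3 a4 : ZMod 3, a1 ≠ 0 ∧ a2 ≠ 0 ∧ a3 ≠ 0 ∧ a4 ≠ 0 ∧ ρ d e₁ = a1 • e₁ ∧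
        ρ d e₂ = a2 • e₂ ∧ ρ d e₃ = a3 • e₃ ∧ ρ d e₄ = a4 • e₄ := by
    intro d hd
    obtain ⟨a1, ha1, h1⟩ := m4b_sgn _ _ (hd e₁ (by simp))
    obtain ⟨a2, ha2, h2⟩ := m4b_sgn _ _ (hd e₂ (by simp))
    obtain ⟨a3, ha3, h3⟩ := m4b_sgn _ _ (hd e₃ (by simp))
    obtain ⟨a4, ha4, h4⟩ := m4b_sgn _ _ (hd e₄ (by simp))
    exact ⟨a1, a2, a3, a4, ha1, ha2, ha3, ha4, h1, h2, h3, h4⟩
  by_cases hα : ∀ d ∈ R, (∀ e ∈ ({e₁, e₂, e₃, e₄} : Set V), ρ d e = e ∨ ρ d e = -e) → IsZ ρ d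
  · exfalso
    have hq1Z : ¬ IsZ ρ q₁ := m4b_notZ c
    have hq2Z : ¬ IsZ ρ q₂ := m4b_notZ c.rot
    have hq3Z : ¬ IsZ ρ q₃ := m4b_notZ c.rot.rot
    have X : ∀ r ∈ R, ∀ r' ∈ R, ∀ f : V, (ρ r e₄ = f ∨ ρ r e₄ = -f) →
        (ρ r' e₄ = f ∨ ρ r' e₄ = -f) → IsZ ρ (r⁻¹ * r') := by
      intro r hr r' hr' f hf hf'
      have h1 := m4b_inv_apply' ρ r e₄
      have h2 : ρ r⁻¹ f = e₄ ∨ ρ r⁻¹ f = -e₄ := by
        rcases hf with hf | hf
        · left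
          rw [hf] at h1
          exact h1
        · right
          rw [hf, map_neg] at h1
          rw [← h1, neg_neg]
      have h3 : ρ (r⁻¹ * r') e₄ = e₄ ∨ ρ (r⁻¹ * r') e₄ = -e₄ := by
        rw [map_mul, Module.End.mul_apply]
        rcases hf' with hf' | hf'
        · rw [hf']
          exact h2
        · rw [hf', map_neg]
          rcases h2 with h2 | h2
          · right
            rw [h2]
          · left
            rw [h2, neg_neg]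
      have hmem : r⁻¹ * r' ∈ R := R.mul_mem (R.inv_mem hr) hr'
      apply hα _ hmem
      rcases ha _ hmem with h | h
      · exact h
      · exfalso
        have h4 := h e₄ (by simp)
        rcases h3 with h3 | h3
        · exact h4.1 h3
        · exact h4.2.1 h3
    have hline : ∀ g : G, ∃ j : Fin 4,
        ρ g e₄ = ![e₁, e₂, e₃, e₄] j ∨ ρ g e₄ = -![e₁, e₂, e₃, e₄] j := by
      intro g
      obtain ⟨e', he', hL⟩ := hperm g e₄ (by simp)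
      simp only [Set.mem_insert_iff, Set.mem_singleton_iff] at he'
      rcases he' with rfl | rfl | rfl | rfl
      · exact ⟨0, hL⟩
      · exact ⟨1, hL⟩
      · exact ⟨2, hL⟩
      · exact ⟨3, hL⟩
    obtain ⟨j₁, hL1⟩ := hline q₁
    obtain ⟨j₂, hL2⟩ := hline q₂
    obtain ⟨j₃, hL3⟩ := hline q₃
    have hone : ρ (1 : G) e₄ = e₄ ∨ ρ (1 : G) e₄ = -e₄ :=
      Or.inl (by rw [map_one, Module.End.one_apply])
    have hi1 : q₁⁻¹ = q₁ := inv_eq_of_mul_eq_one_right c.q11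
    have hi2 : q₂⁻¹ = q₂ := inv_eq_of_mul_eq_one_right c.q22
    have hi3 : q₃⁻¹ = q₃ := inv_eq_of_mul_eq_one_right c.q33
    have hj1 : j₁ ≠ 3 := by
      intro hj
      rw [hj] at hL1
      have := X 1 R.one_mem q₁ c.q1R e₄ hone hL1
      rw [inv_one, one_mul] at this
      exact hq1Z this
    have hj2 : j₂ ≠ 3 := by
      intro hj
      rw [hj] at hL2
      have := X 1 R.one_mem q₂ c.q2R e₄ hone hL2
      rw [inv_one, one_mul] at this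
      exact hq2Z this
    have hj3 : j₃ ≠ 3 := by
      intro hj
      rw [hj] at hL3
      have := X 1 R.one_mem q₃ c.q3R e₄ hone hL3
      rw [inv_one, one_mul] at this
      exact hq3Z this
    have h13 : q₁ * q₃ = q₂ := by rw [← c.q12, ← mul_assoc, c.q11, one_mul]
    have h23 : q₂ * q₃ = q₁ := by rw [← c.q21, ← mul_assoc, c.q22, one_mul]
    have hj12 : j₁ ≠ j₂ := by
      intro hj
      rw [← hj] at hL2
      have := X q₁ c.q1R q₂ c.q2R _ hL1 hL2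
      rw [hi1, c.q12] at this
      exact hq3Z this
    have hj13 : j₁ ≠ j₃ := by
      intro hj
      rw [← hj] at hL3
      have := X q₁ c.q1R q₃ c.q3R _ hL1 hL3
      rw [hi1, h13] at this
      exact hq2Z this
    have hj23 : j₂ ≠ j₃ := by
      intro hj
      rw [← hj] at hL3
      have := X q₂ c.q2R q₃ c.q3R _ hL2 hL3
      rw [hi2, h23] at this
      exact hq1Z this
    have hRC : ∀ r ∈ R, ∀ u : V, ρ q₁ u = u → ρ q₂ u = u → (ρ r u = u ∨ ρ r u = -u) := by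
      intro r hr u hu1 hu2
      have hu3 : ρ q₃ u = u := by
        rw [← c.q12, map_mul, Module.End.mul_apply, hu2, hu1]
      obtain ⟨j, hL⟩ := hline r
      have aux : ∀ q ∈ R, ρ q u = u → IsZ ρ (q⁻¹ * r) → (ρ r u = u ∨ ρ r u = -u) := by
        intro q hq hqu hZ
        have e : ρ r u = ρ q (ρ (q⁻¹ * r) u) := by
          rw [← Module.End.mul_apply, ← map_mul, mul_inv_cancel_left]
        rcases hZ with hZ | hZ
        · left
          rw [e, hZ, map_one, Module.End.one_apply, hqu]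
        · right
          rw [e, hZ u, map_neg, hqu]
      rcases m4b_pig j₁ j₂ j₃ j hj1 hj2 hj3 hj12 hj13 hj23 with rfl | rfl | rfl | rfl
      · exact aux 1 R.one_mem (by rw [map_one, Module.End.one_apply])
          (X 1 R.one_mem r hr e₄ hone hL)
      · exact aux q₁ c.q1R hu1 (X q₁ c.q1R r hr _ hL1 hL)
      · exact aux q₂ c.q2R hu2 (X q₂ c.q2R r hr _ hL2 hL)
      · exact aux q₃ c.q3R hu3 (X q₃ c.q3R r hr _ hL3 hL)
    have hCb : ∀ u : V, ρ q₁ u = u → ρ q₂ u = u →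
        (ρ q₁ (ρ b u) = ρ b u ∧ ρ q₂ (ρ b u) = ρ b u) := by
      intro u hu1 hu2
      have hu3 : ρ q₃ u = u := by
        rw [← c.q12, map_mul, Module.End.mul_apply, hu2, hu1]
      have e1 : q₁ * b = b * q₃ := by
        rw [← c.bq3]
        group
      have e2 : q₂ * b = b * q₁ := by
        rw [← c.bq1]
        group
      have t1 : ρ (q₁ * b) u = ρ (b * q₃) u := by rw [e1]
      have t2 : ρ (q₂ * b) u = ρ (b * q₁) u := by rw [e2]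
      simp only [map_mul, Module.End.mul_apply] at t1 t2
      exact ⟨by rw [t1, hu3], by rw [t2, hu1]⟩
    have hCinv : ∀ g : G, ∀ u ∈ fixC83 ρ q₁ q₂, ρ g u ∈ fixC83 ρ q₁ q₂ := by
      have hR' : ∀ r ∈ R, ∀ u ∈ fixC83 ρ q₁ q₂, ρ r u ∈ fixC83 ρ q₁ q₂ := by
        intro r hr u hu
        have hu' := (mem_fixC83 ρ q₁ q₂ u).mp hu
        rcases hRC r hr u hu'.1 hu'.2 with h | h
        · rw [h]
          exact hu
        · rw [h]
          exact (fixC83 ρ q₁ q₂).neg_mem hu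
      have hb' : ∀ u ∈ fixC83 ρ q₁ q₂, ρ b u ∈ fixC83 ρ q₁ q₂ := by
        intro u hu
        have hu' := (mem_fixC83 ρ q₁ q₂ u).mp hu
        exact (mem_fixC83 ρ q₁ q₂ _).mpr (hCb u hu'.1 hu'.2)
      intro g u hu
      obtain ⟨r, hr, hg | hg | hg⟩ := hfq g
      · rw [hg]
        exact hR' r hr u hu
      · rw [hg, map_mul, Module.End.mul_apply]
        exact hR' r hr _ (hb' u hu)
      · rw [hg, map_mul, map_mul, Module.End.mul_apply, Module.End.mul_apply]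
        exact hR' r hr _ (hb' _ (hb' u hu))
    rcases c.irr _ hCinv with hC | hC
    · have hspan3 : ∀ v : V, ∃ c₁ c₂ c₃ : ZMod 3, v = c₁ • v₁ + c₂ • v₂ + c₃ • v₃ := by
        intro v
        obtain ⟨u, c₁, c₂, c₃, hv, hu1, hu2, -, -⟩ := c.dec v
        have hu : u ∈ fixC83 ρ q₁ q₂ := (mem_fixC83 ρ q₁ q₂ u).mpr ⟨hu1, hu2⟩
        rw [hC, Submodule.mem_bot] at hu
        refine ⟨c₁, c₂, c₃, ?_⟩
        rw [hv, hu, zero_add]
      have hsurj : Function.Surjective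
          (fun t : ZMod 3 × ZMod 3 × ZMod 3 => t.1 • v₁ + t.2.1 • v₂ + t.2.2 • v₃) := by
        intro v
        obtain ⟨c₁, c₂, c₃, hv⟩ := hspan3 v
        exact ⟨(c₁, c₂, c₃), hv.symm⟩
      have hinj : Function.Injective
          (fun t : ZMod 3 × ZMod 3 × ZMod 3 × ZMod 3 =>
            t.1 • e₁ + t.2.1 • e₂ + t.2.2.1 • e₃ + t.2.2.2 • e₄) := by
        intro s t hst
        have hst' : s.1 • e₁ + s.2.1 • e₂ + s.2.2.1 • e₃ + s.2.2.2 • e₄ =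
            t.1 • e₁ + t.2.1 • e₂ + t.2.2.1 • e₃ + t.2.2.2 • e₄ := hst
        have hz : (s.1 - t.1) • e₁ + (s.2.1 - t.2.1) • e₂ + (s.2.2.1 - t.2.2.1) • e₃ +
            (s.2.2.2 - t.2.2.2) • e₄ = 0 := by
          have e : (s.1 - t.1) • e₁ + (s.2.1 - t.2.1) • e₂ + (s.2.2.1 - t.2.2.1) • e₃ +
              (s.2.2.2 - t.2.2.2) • e₄ =
              (s.1 • e₁ + s.2.1 • e₂ + s.2.2.1 • e₃ + s.2.2.2 • e₄) -
              (t.1 • e₁ + t.2.1 • e₂ + t.2.2.1 • e₃ + t.2.2.2 • e₄) := by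
            simp only [sub_smul]
            abel
          rw [e, hst', sub_self]
        obtain ⟨z1, z2, z3, z4⟩ := hind _ _ _ _ hz
        exact Prod.ext (sub_eq_zero.mp z1) (Prod.ext (sub_eq_zero.mp z2)
          (Prod.ext (sub_eq_zero.mp z3) (sub_eq_zero.mp z4)))
      have c1 := Nat.card_le_card_of_injective _ hinj
      have c2 := Nat.card_le_card_of_surjective _ hsurj
      simp only [Nat.card_prod, Nat.card_zmod] at c1 c2
      omega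
    · have hv1 : v₁ ∈ fixC83 ρ q₁ q₂ := by
        rw [hC]
        exact Submodule.mem_top
      have h2 := ((mem_fixC83 ρ q₁ q₂ v₁).mp hv1).2
      rw [c.s21] at h2
      exact c.v1 (m4b_negself v₁ h2.symm)
  · push Not at hα
    obtain ⟨d, hdR, hdiag, hdZ⟩ := hα
    obtain ⟨a1, a2, a3, a4, ha1, ha2, ha3, ha4, h1, h2, h3, h4⟩ := hsgn d hdiag
    have hev := (hd4 d).1 a1 a2 a3 a4 h1 h2 h3 h4
    have hn1 : ¬ (a1 = 1 ∧ a2 = 1 ∧ a3 = 1 ∧ a4 = 1) := by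
      rintro ⟨rfl, rfl, rfl, rfl⟩
      simp only [one_smul] at h1 h2 h3 h4
      exact hdZ (Or.inl (hall1 d h1 h2 h3 h4))
    have hn2 : ¬ (a1 = -1 ∧ a2 = -1 ∧ a3 = -1 ∧ a4 = -1) := by
      rintro ⟨rfl, rfl, rfl, rfl⟩
      simp only [neg_smul, one_smul] at h1 h2 h3 h4
      exact hdZ (Or.inr (hallm d h1 h2 h3 h4))
    have hP0 : P (-1) (-1) 1 1 :=
      m4b_comb1 P hmul hrot a1 a2 a3 a4 ((hP _ _ _ _).mpr ⟨d, hdR, h1, h2, h3, h4⟩)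
        ha1 ha2 ha3 ha4 hev hn1 hn2
    obtain ⟨d₀, hd₀R, k1, k2, k3, k4⟩ := (hP _ _ _ _).mp hP0
    obtain ⟨g, hg⟩ := htrans e₁ (by simp)
    have hd' : g⁻¹ * d₀ * g ∈ R := by
      have := c.Rn.conj_mem d₀ hd₀R g⁻¹
      rwa [inv_inv] at this
    have hd'4 : ρ (g⁻¹ * d₀ * g) e₄ = -e₄ := by
      have e : ρ d₀ (ρ g e₄) = -(ρ g e₄) := by
        rcases hg with hg | hg
        · rw [hg, k1, neg_smul, one_smul]
        · rw [hg, map_neg, k1, neg_smul, one_smul]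
      rw [map_mul, map_mul, Module.End.mul_apply, Module.End.mul_apply, e, map_neg,
        m4b_inv_apply']
    have hdiag' : ∀ e ∈ ({e₁, e₂, e₃, e₄} : Set V),
        ρ (g⁻¹ * d₀ * g) e = e ∨ ρ (g⁻¹ * d₀ * g) e = -e := by
      rcases ha _ hd' with h | h
      · exact h
      · exact absurd hd'4 (h e₄ (by simp)).2.1
    obtain ⟨a1', a2', a3', a4', ha1', ha2', ha3', ha4', h1', h2', h3', h4'⟩ := hsgn _ hdiag'
    have h4'' : ρ (g⁻¹ * d₀ * g) e₄ = (-1 : ZMod 3) • e₄ := by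
      rw [hd'4, neg_smul, one_smul]
    have hev' := (hd4 _).1 a1' a2' a3' (-1) h1' h2' h3' h4''
    have hPm : P (-1) (-1) (-1) (-1) :=
      m4b_comb2 P hmul hrot hP0 a1' a2' a3' ((hP _ _ _ _).mpr ⟨_, hd', h1', h2', h3', h4''⟩)
        ha1' ha2' ha3' hev'
    obtain ⟨z, hzR, z1, z2, z3, z4⟩ := (hP _ _ _ _).mp hPm
    simp only [neg_smul, one_smul] at z1 z2 z3 z4 k1 k2 k3 k4
    exact ⟨⟨z, hzR, hallm z z1 z2 z3 z4⟩, ⟨d₀, hd₀R, k1, k2, k3, k4⟩⟩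

end Cfsg.Agent.Helper83.N15
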