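-- helper83: piece p3d of CALL S4415 (helper63): `R ⊔ B` is faithful on `F₀ = [E, R]`.
import Cfsg.Prelude.Def_Transfer
import Cfsg.Prelude.Def_Solvable
import Cfsg.Agent.Helper63.N15Defs

set_option autoImplicit false

namespace Cfsg.Agent.Helper83.N15

open Cfsg.Agent.Helper63.N15

variable {S : Type*} [Group S] [Finite S] {E : Type*} [AddCommGroup E] [Module (ZMod 3) E]
  [Finite E]

/-- The elements of `S` whose conjugation action on `R` agrees with that of an element of `R`. -/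
def innOn83 (R : Subgroup S) : Subgroup S where
  carrier := {x | ∃ s ∈ R, ∀ r ∈ R, x * r * x⁻¹ = s * r * s⁻¹}
  one_mem' := ⟨1, R.one_mem, fun r _ => by simp⟩
  mul_mem' := by
    rintro x y ⟨s, hs, hx⟩ ⟨t, ht, hy⟩
    refine ⟨s * t, R.mul_mem hs ht, fun r hr => ?_⟩
    have h1 := hy r hr
    have h2 := hx (t * r * t⁻¹) (R.mul_mem (R.mul_mem ht hr) (R.inv_mem ht))
    calc x * y * r * (x * y)⁻¹ = x * (y * r * y⁻¹) * x⁻¹ := by group
      _ = x * (t * r * t⁻¹) * x⁻¹ := by rw [h1]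
      _ = s * (t * r * t⁻¹) * s⁻¹ := h2
      _ = s * t * r * (s * t)⁻¹ := by group
  inv_mem' := by
    rintro x ⟨s, hs, hx⟩
    refine ⟨s⁻¹, R.inv_mem hs, fun r hr => ?_⟩
    have h2 := hx (s⁻¹ * r * s) (R.mul_mem (R.mul_mem (R.inv_mem hs) hr) hs)
    have h3 : s * (s⁻¹ * r * s) * s⁻¹ = r := by group
    rw [h3] at h2
    calc x⁻¹ * r * x⁻¹⁻¹ = x⁻¹ * (x * (s⁻¹ * r * s) * x⁻¹) * x := by rw [h2, inv_inv]
      _ = s⁻¹ * r * s⁻¹⁻¹ := by group

omit [Finite S] in
theorem mem_innOn83 (R : Subgroup S) (x : S) :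
    x ∈ innOn83 R ↔ ∃ s ∈ R, ∀ r ∈ R, x * r * x⁻¹ = s * r * s⁻¹ := Iff.rfl

omit [Finite E] in
theorem p3d_three (v : E) : v + v + v = 0 := by
  have h : (3 : ZMod 3) • v = v + v + v := by
    rw [show (3 : ZMod 3) = 1 + 1 + 1 by norm_num, add_smul, add_smul, one_smul]
  rw [← h, show (3 : ZMod 3) = 0 from by decide, zero_smul]

open scoped commutatorElement in
/-- P3d. -/
theorem p3d [Group.IsSolvable S] (ρ : Representation (ZMod 3) S E)
    (hfaith : Function.Injective ρ) (R B : Subgroup S) (b : S)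
    (hb : Subgroup.zpowers b = B) (hb3 : b ^ 3 = 1) (hR3 : (Nat.card ↥R).Coprime 3)
    (hnorm : ∀ x ∈ B, ∀ r ∈ R, x * r * x⁻¹ ∈ R) (hcomm : ⁅R, B⁆ = R) (hRne : R ≠ ⊥)
    (F₀ : Submodule (ZMod 3) E) (hgen : ∀ r ∈ R, ∀ v : E, ρ r v - v ∈ F₀)
    (hinv : ∀ g ∈ R ⊔ B, ∀ v ∈ F₀, ρ g v ∈ F₀) :
    ∀ g ∈ R ⊔ B, (∀ v ∈ F₀, ρ g v = v) → g = 1 := by
  -- step 1: elements of `R`
  have step1 : ∀ g ∈ R, (∀ v ∈ F₀, ρ g v = v) → g = 1 := by
    intro g hg htriv
    have h3 : g ^ 3 = 1 := by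
      apply hfaith
      rw [map_pow, map_one]
      ext v
      have hw : ρ g v - v ∈ F₀ := hgen g hg v
      have hw' := htriv _ hw
      rw [map_sub] at hw'
      have e2 : ρ g (ρ g v) = ρ g v + ρ g v - v := by
        rw [sub_eq_iff_eq_add] at hw'
        rw [hw']
        abel
      rw [pow_succ, pow_succ, pow_one]
      simp only [Module.End.mul_apply, Module.End.one_apply]
      rw [e2, map_sub, map_add, e2]
      have ha := p3d_three (ρ g v)
      have hv := p3d_three v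
      have hh : ρ g v + ρ g v - v + (ρ g v + ρ g v - v) - ρ g v - v
          = (ρ g v + ρ g v + ρ g v) - (v + v + v) := by abel
      rw [ha, hv, sub_zero] at hh
      exact sub_eq_zero.mp hh
    have hd3 : orderOf g ∣ 3 := orderOf_dvd_of_pow_eq_one h3
    have hdR : orderOf g ∣ Nat.card ↥R := R.orderOf_dvd_natCard hg
    have hd1 : orderOf g ∣ 1 := by
      have := Nat.dvd_gcd hdR hd3
      rwa [Nat.Coprime.gcd_eq_one hR3] at this
    exact orderOf_eq_one_iff.mp (Nat.dvd_one.mp hd1)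
  -- `B` normalizes `R`
  have hBN : B ≤ Subgroup.normalizer (R : Set S) := by
    intro x hx
    rw [Subgroup.mem_normalizer_iff]
    intro r
    constructor
    · exact hnorm x hx r
    · intro h
      have := hnorm x⁻¹ (B.inv_mem hx) _ h
      have e : x⁻¹ * (x * r * x⁻¹) * x⁻¹⁻¹ = r := by group
      rwa [e] at this
  have hRN : R ≤ Subgroup.normalizer (R : Set S) := Subgroup.le_normalizer
  have hsupN : R ⊔ B ≤ Subgroup.normalizer (R : Set S) := sup_le hRN hBN
  have hdecomp : ∀ g ∈ R ⊔ B, ∃ r ∈ R, ∃ y ∈ B, g = r * y := by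
    intro g hg
    have hg' : g ∈ ((R ⊔ B : Subgroup S) : Set S) := hg
    rw [Subgroup.coe_mul_of_right_le_normalizer_left R B hBN] at hg'
    obtain ⟨r, hr, y, hy, rfl⟩ := Set.mem_mul.mp hg'
    exact ⟨r, hr, y, hy, rfl⟩
  intro g hg htriv
  -- `g⁻¹` is trivial on `F₀`
  have htriv' : ∀ v ∈ F₀, ρ g⁻¹ v = v := by
    intro v hv
    have h1 : ρ g⁻¹ (ρ g v) = v := by
      rw [← Module.End.mul_apply, ← map_mul, inv_mul_cancel, map_one, Module.End.one_apply]
    rwa [htriv v hv] at h1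
  -- `g` centralizes `R`
  have hcen : ∀ r' ∈ R, g * r' * g⁻¹ = r' := by
    intro r' hr'
    have hgN := hsupN hg
    rw [Subgroup.mem_normalizer_iff] at hgN
    have hc : g * r' * g⁻¹ * r'⁻¹ ∈ R := R.mul_mem ((hgN r').mp hr') (R.inv_mem hr')
    have hc1 : g * r' * g⁻¹ * r'⁻¹ = 1 := by
      apply step1 _ hc
      intro v hv
      have hv1 : ρ r'⁻¹ v ∈ F₀ := hinv _ (Subgroup.mem_sup_left (R.inv_mem hr')) v hv
      have e : ρ (g * r' * g⁻¹ * r'⁻¹) v = ρ g (ρ r' (ρ g⁻¹ (ρ r'⁻¹ v))) := by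
        simp only [map_mul, Module.End.mul_apply]
      rw [e, htriv' _ hv1]
      have e2 : ρ r' (ρ r'⁻¹ v) = v := by
        rw [← Module.End.mul_apply, ← map_mul, mul_inv_cancel, map_one, Module.End.one_apply]
      rw [e2, htriv v hv]
    calc g * r' * g⁻¹ = g * r' * g⁻¹ * r'⁻¹ * r' := by group
      _ = r' := by rw [hc1, one_mul]
  obtain ⟨r, hr, y, hy, rfl⟩ := hdecomp g hg
  by_cases hyR : y ∈ R
  · exact step1 _ (R.mul_mem hr hyR) htriv
  · exfalso
    -- `y` acts on `R` as `r⁻¹`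
    have hyinn : y ∈ innOn83 R := by
      refine ⟨r⁻¹, R.inv_mem hr, fun r' hr' => ?_⟩
      have h := hcen r' hr'
      calc y * r' * y⁻¹ = r⁻¹ * (r * y * r' * (r * y)⁻¹) * r := by group
        _ = r⁻¹ * r' * r⁻¹⁻¹ := by rw [h, inv_inv]
    -- `b ∈ innOn83 R`
    have hbinn : b ∈ innOn83 R := by
      rw [← hb] at hy
      obtain ⟨k, rfl⟩ := Subgroup.mem_zpowers_iff.mp hy
      have hb3' : b ^ (3 : ℤ) = 1 := by
        have : b ^ (3 : ℤ) = b ^ 3 := by
          rw [show (3 : ℤ) = ((3 : ℕ) : ℤ) from rfl, zpow_natCast]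
        rw [this, hb3]
      have hk : b ^ k = b ^ (k % 3) := zpow_eq_zpow_emod k hb3'
      have hcases : k % 3 = 0 ∨ k % 3 = 1 ∨ k % 3 = 2 := by omega
      rcases hcases with h0 | h1 | h2
      · rw [hk, h0, zpow_zero] at hyR
        exact absurd R.one_mem hyR
      · rw [hk, h1, zpow_one] at hyinn
        exact hyinn
      · rw [hk, h2] at hyinn
        have hinvb : (b ^ (2 : ℤ))⁻¹ = b := by
          have h3' : b ^ (2 : ℤ) * b = 1 := by
            rw [← zpow_add_one]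
            exact hb3'
          exact inv_eq_of_mul_eq_one_right h3'
        rw [← hinvb]
        exact (innOn83 R).inv_mem hyinn
    have hBinn : B ≤ innOn83 R := by
      rw [← hb]
      exact (Subgroup.zpowers_le).mpr hbinn
    have hle : ⁅R, B⁆ ≤ ⁅R, R⁆ := by
      rw [Subgroup.commutator_le]
      intro r' hr' x hx
      obtain ⟨s, hs, hxs⟩ := hBinn hx
      have hh := hxs r'⁻¹ (R.inv_mem hr')
      have e : ⁅r', x⁆ = ⁅r', s⁆ := by
        rw [commutatorElement_def, commutatorElement_def]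
        calc r' * x * r'⁻¹ * x⁻¹ = r' * (x * r'⁻¹ * x⁻¹) := by group
          _ = r' * (s * r'⁻¹ * s⁻¹) := by rw [hh]
          _ = r' * s * r'⁻¹ * s⁻¹ := by group
      rw [e]
      exact Subgroup.commutator_mem_commutator hr' hs
    rw [hcomm] at hle
    have hlt := Group.IsSolvable.commutator_lt_of_ne_bot hRne
    exact absurd hle (not_le_of_gt hlt)

end Cfsg.Agent.Helper83.N15
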