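-- helper83: piece p3e of CALL S4415 (helper63): `F₀ = [E, R]` is irreducible for `R ⊔ B`.
import Cfsg.Prelude.Def_Transfer
import Cfsg.Prelude.Def_Solvable
import Cfsg.Agent.Helper63.N15Defs

set_option autoImplicit false

namespace Cfsg.Agent.Helper83.N15

open Cfsg.Agent.Helper63.N15

variable {S : Type*} [Group S] [Finite S] {E : Type*} [AddCommGroup E] [Module (ZMod 3) E]
  [Finite E]

omit [Finite S] [Finite E] in
theorem p3e_inv_apply (ρ : Representation (ZMod 3) S E) (g : S) (v : E) :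
    ρ g (ρ g⁻¹ v) = v := by
  rw [← Module.End.mul_apply, ← map_mul, mul_inv_cancel, map_one, Module.End.one_apply]

omit [Finite S] [Finite E] in
theorem p3e_inv_apply' (ρ : Representation (ZMod 3) S E) (g : S) (v : E) :
    ρ g⁻¹ (ρ g v) = v := by
  rw [← Module.End.mul_apply, ← map_mul, inv_mul_cancel, map_one, Module.End.one_apply]

/-- The elements acting trivially modulo `N`. -/
def trivMod83 (ρ : Representation (ZMod 3) S E) (N : Submodule (ZMod 3) E) : Subgroup S where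
  carrier := {g | ∀ v : E, ρ g v - v ∈ N}
  one_mem' := fun v => by simp
  mul_mem' := by
    intro g h hg hh v
    have e : ρ (g * h) v - v = (ρ g (ρ h v) - ρ h v) + (ρ h v - v) := by
      rw [map_mul, Module.End.mul_apply]
      abel
    rw [e]
    exact N.add_mem (hg _) (hh v)
  inv_mem' := by
    intro g hg v
    have h1 := hg (ρ g⁻¹ v)
    rw [p3e_inv_apply] at h1
    have e2 : ρ g⁻¹ v - v = -(v - ρ g⁻¹ v) := by abel
    rw [e2]
    exact N.neg_mem h1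

/-- The elements acting trivially on `N`. -/
def trivOn83 (ρ : Representation (ZMod 3) S E) (N : Submodule (ZMod 3) E) : Subgroup S where
  carrier := {g | ∀ v ∈ N, ρ g v = v}
  one_mem' := fun v _ => by simp
  mul_mem' := by
    intro g h hg hh v hv
    rw [map_mul, Module.End.mul_apply, hh v hv, hg v hv]
  inv_mem' := by
    intro g hg v hv
    have e := p3e_inv_apply' ρ g v
    rwa [hg v hv] at e

omit [Finite S] in
open scoped commutatorElement in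
theorem p3e_key (R B K : Subgroup S) (b : S) (hb : Subgroup.zpowers b = B)
    (hcomm : ⁅R, B⁆ = R) (hbK : b ∈ K) (hconj : ∀ r ∈ R, ∀ k ∈ K, r * k * r⁻¹ ∈ K) :
    R ≤ K := by
  have hBK : B ≤ K := by
    rw [← hb]
    exact Subgroup.zpowers_le.mpr hbK
  have h : ⁅R, B⁆ ≤ K := by
    rw [Subgroup.commutator_le]
    intro r hr x hx
    rw [commutatorElement_def]
    exact K.mul_mem (hconj r hr x (hBK hx)) (K.inv_mem (hBK hx))
  rwa [hcomm] at h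

omit [Finite E] in
theorem p3e_three (v : E) : v + v + v = 0 := by
  have h : (3 : ZMod 3) • v = v + v + v := by
    rw [show (3 : ZMod 3) = 1 + 1 + 1 by norm_num, add_smul, add_smul, one_smul]
  rw [← h, show (3 : ZMod 3) = 0 from by decide, zero_smul]

omit [Finite E] in
theorem p3e_calc (u w₁ w₂ w₃ : E) :
    (u + w₁ + w₂ + w₃) + (u + w₁ + -w₂ + -w₃) - (u + -w₁ + w₂ + -w₃)
        - (u + -w₁ + -w₂ + w₃) = w₁ ∧
    (u + w₁ + w₂ + w₃) - (u + w₁ + -w₂ + -w₃) + (u + -w₁ + w₂ + -w₃)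
        - (u + -w₁ + -w₂ + w₃) = w₂ ∧
    (u + w₁ + w₂ + w₃) - (u + w₁ + -w₂ + -w₃) - (u + -w₁ + w₂ + -w₃)
        + (u + -w₁ + -w₂ + w₃) = w₃ := by
  refine ⟨?_, ?_, ?_⟩
  · have e : (u + w₁ + w₂ + w₃) + (u + w₁ + -w₂ + -w₃) - (u + -w₁ + w₂ + -w₃)
        - (u + -w₁ + -w₂ + w₃) = w₁ + (w₁ + w₁ + w₁) := by abel
    rw [e, p3e_three, add_zero]
  · have e : (u + w₁ + w₂ + w₃) - (u + w₁ + -w₂ + -w₃) + (u + -w₁ + w₂ + -w₃)
        - (u + -w₁ + -w₂ + w₃) = w₂ + (w₂ + w₂ + w₂) := by abel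
    rw [e, p3e_three, add_zero]
  · have e : (u + w₁ + w₂ + w₃) - (u + w₁ + -w₂ + -w₃) - (u + -w₁ + w₂ + -w₃)
        + (u + -w₁ + -w₂ + w₃) = w₃ + (w₃ + w₃ + w₃) := by abel
    rw [e, p3e_three, add_zero]

omit [Finite E] in
theorem p3e_zero (N : Submodule (ZMod 3) E) (c : ZMod 3) (v : E) (hv : v ∉ N)
    (h : c • v ∈ N) : c = 0 := by
  by_contra hc
  apply hv
  have e : v = c⁻¹ • (c • v) := by
    rw [smul_smul, inv_mul_cancel₀ hc, one_smul]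
  rw [e]
  exact N.smul_mem _ h

/-- P3e. -/
theorem p3e (ρ : Representation (ZMod 3) S E) (R B : Subgroup S) (b q₁ q₂ q₃ : S)
    (v₁ v₂ v₃ : E) (hb : Subgroup.zpowers b = B) (hnorm : ∀ x ∈ B, ∀ r ∈ R, x * r * x⁻¹ ∈ R)
    (hcomm : ⁅R, B⁆ = R) (hq1 : q₁ ∈ R) (hq2 : q₂ ∈ R) (h11 : q₁ * q₁ = 1) (h22 : q₂ * q₂ = 1)
    (h12 : q₁ * q₂ = q₃) (h21 : q₂ * q₁ = q₃) (hbv1 : ρ b v₁ = v₂) (hbv2 : ρ b v₂ = v₃)
    (hbv3 : ρ b v₃ = v₁) (s11 : ρ q₁ v₁ = v₁) (s12 : ρ q₁ v₂ = -v₂) (s13 : ρ q₁ v₃ = -v₃)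
    (s21 : ρ q₂ v₁ = -v₁) (s22 : ρ q₂ v₂ = v₂) (s23 : ρ q₂ v₃ = -v₃)
    (hdec : ∀ v : E, ∃ u : E, ∃ c₁ c₂ c₃ : ZMod 3, v = u + c₁ • v₁ + c₂ • v₂ + c₃ • v₃ ∧
      ρ q₁ u = u ∧ ρ q₂ u = u ∧ ρ q₃ u = u ∧ ρ b u = u)
    (F₀ F₁ : Submodule (ZMod 3) E) (h01 : F₀ ⊓ F₁ = ⊥)
    (hF1 : ∀ v : E, v ∈ F₁ ↔ ∀ r ∈ R, ρ r v = v)
    (hmin : ∀ N : Submodule (ZMod 3) E, (∀ r ∈ R, ∀ v : E, ρ r v - v ∈ N) → F₀ ≤ N) :
    ∀ N : Submodule (ZMod 3) E, N ≤ F₀ → (∀ g ∈ R ⊔ B, ∀ v ∈ N, ρ g v ∈ N) →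
      N = ⊥ ∨ N = F₀ := by
  intro N hNF hNinv
  have hbB : b ∈ B := by
    rw [← hb]
    exact Subgroup.mem_zpowers b
  have hbRB : b ∈ R ⊔ B := Subgroup.mem_sup_right hbB
  have hRRB : ∀ r ∈ R, r ∈ R ⊔ B := fun r hr => Subgroup.mem_sup_left hr
  by_cases hv1 : v₁ ∈ N
  · right
    have hv2 : v₂ ∈ N := by
      rw [← hbv1]
      exact hNinv b hbRB v₁ hv1
    have hv3 : v₃ ∈ N := by
      rw [← hbv2]
      exact hNinv b hbRB v₂ hv2
    have hbK : b ∈ trivMod83 ρ N := by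
      change ∀ v : E, ρ b v - v ∈ N
      intro v
      obtain ⟨u, c₁, c₂, c₃, hv, -, -, -, hbu⟩ := hdec v
      have e : ρ b v - v = c₁ • (v₂ - v₁) + c₂ • (v₃ - v₂) + c₃ • (v₁ - v₃) := by
        rw [hv]
        simp only [map_add, map_smul, hbu, hbv1, hbv2, hbv3, smul_sub]
        abel
      rw [e]
      exact N.add_mem (N.add_mem (N.smul_mem _ (N.sub_mem hv2 hv1))
        (N.smul_mem _ (N.sub_mem hv3 hv2))) (N.smul_mem _ (N.sub_mem hv1 hv3))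
    have hconj : ∀ r ∈ R, ∀ k ∈ trivMod83 ρ N, r * k * r⁻¹ ∈ trivMod83 ρ N := by
      intro r hr k hk
      change ∀ v : E, ρ (r * k * r⁻¹) v - v ∈ N
      intro v
      have hk' : ρ k (ρ r⁻¹ v) - ρ r⁻¹ v ∈ N := hk _
      have e : ρ (r * k * r⁻¹) v - v = ρ r (ρ k (ρ r⁻¹ v) - ρ r⁻¹ v) := by
        rw [map_sub, p3e_inv_apply]
        simp only [map_mul, Module.End.mul_apply]
      rw [e]
      exact hNinv r (hRRB r hr) _ hk'
    have hRK := p3e_key R B _ b hb hcomm hbK hconj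
    exact le_antisymm hNF (hmin N (fun r hr v => hRK hr v))
  · left
    have hv2 : v₂ ∉ N := fun h => hv1 (by
      have h3 : v₃ ∈ N := by
        rw [← hbv2]
        exact hNinv b hbRB v₂ h
      rw [← hbv3]
      exact hNinv b hbRB v₃ h3)
    have hv3 : v₃ ∉ N := fun h => hv1 (by
      rw [← hbv3]
      exact hNinv b hbRB v₃ h)
    have hbK : b ∈ trivOn83 ρ N := by
      change ∀ x ∈ N, ρ b x = x
      intro x hx
      obtain ⟨u, c₁, c₂, c₃, hxe, hu1, hu2, -, hbu⟩ := hdec x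
      have hq1x : ρ q₁ x = u + c₁ • v₁ + -(c₂ • v₂) + -(c₃ • v₃) := by
        rw [hxe]
        simp only [map_add, map_smul, hu1, s11, s12, s13, smul_neg]
      have hq2x : ρ q₂ x = u + -(c₁ • v₁) + c₂ • v₂ + -(c₃ • v₃) := by
        rw [hxe]
        simp only [map_add, map_smul, hu2, s21, s22, s23, smul_neg]
      have hq12x : ρ q₁ (ρ q₂ x) = u + -(c₁ • v₁) + -(c₂ • v₂) + c₃ • v₃ := by
        rw [hq2x]
        simp only [map_add, map_smul, map_neg, hu1, s11, s12, s13, smul_neg, neg_neg]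
      have m1 : ρ q₁ x ∈ N := hNinv q₁ (hRRB _ hq1) x hx
      have m2 : ρ q₂ x ∈ N := hNinv q₂ (hRRB _ hq2) x hx
      have m12 : ρ q₁ (ρ q₂ x) ∈ N := hNinv q₁ (hRRB _ hq1) _ m2
      obtain ⟨k1, k2, k3⟩ := p3e_calc u (c₁ • v₁) (c₂ • v₂) (c₃ • v₃)
      rw [← hxe, ← hq1x, ← hq2x, ← hq12x] at k1 k2 k3
      have hc1 : c₁ = 0 := by
        apply p3e_zero N c₁ v₁ hv1
        rw [← k1]
        exact N.sub_mem (N.sub_mem (N.add_mem hx m1) m2) m12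
      have hc2 : c₂ = 0 := by
        apply p3e_zero N c₂ v₂ hv2
        rw [← k2]
        exact N.sub_mem (N.add_mem (N.sub_mem hx m1) m2) m12
      have hc3 : c₃ = 0 := by
        apply p3e_zero N c₃ v₃ hv3
        rw [← k3]
        exact N.add_mem (N.sub_mem (N.sub_mem hx m1) m2) m12
      have hxu : x = u := by
        rw [hxe, hc1, hc2, hc3]
        simp
      rw [hxu]
      exact hbu
    have hconj : ∀ r ∈ R, ∀ k ∈ trivOn83 ρ N, r * k * r⁻¹ ∈ trivOn83 ρ N := by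
      intro r hr k hk
      change ∀ v ∈ N, ρ (r * k * r⁻¹) v = v
      intro v hv
      have hv' : ρ r⁻¹ v ∈ N := hNinv r⁻¹ (hRRB _ (R.inv_mem hr)) v hv
      have hk' : ρ k (ρ r⁻¹ v) = ρ r⁻¹ v := hk _ hv'
      have e : ρ (r * k * r⁻¹) v = ρ r (ρ k (ρ r⁻¹ v)) := by
        simp only [map_mul, Module.End.mul_apply]
      rw [e, hk', p3e_inv_apply]
    have hRK := p3e_key R B _ b hb hcomm hbK hconj
    have hNF1 : N ≤ F₁ := fun v hv => (hF1 v).mpr (fun r hr => hRK hr v hv)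
    have hle : N ≤ F₀ ⊓ F₁ := le_inf hNF hNF1
    rw [h01] at hle
    exact le_bot_iff.mp hle

end Cfsg.Agent.Helper83.N15
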