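-- helper83: piece VB of CALL S1906 (helper14), double: in a nonabelian `P` the element acting as
-- `1` on `L` and `-1` on `W` lies in the commutator subgroup.
import Mathlib
import Cfsg.Agent.Helper53.PCenter

set_option autoImplicit false
set_option linter.style.haveILetI false

namespace Cfsg.Agent.Helper83.S1906P

variable {F : Type*} [Field F] {V : Type*} [AddCommGroup V] [Module F V] {P : Type*} [Group P]

/-- VB. -/
theorem s1906_vb [Finite P] (hP : IsPGroup 2 P) (ρ : Representation F P V)
    (hfaith : ∀ x : P, (∀ v : V, ρ x v = v) → x = 1)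
    (L W : Submodule F V) (hLW : IsCompl L W)
    (lam : P →* Fˣ) (hlam : ∀ x : P, ∀ v ∈ L, ρ x v = (lam x : F) • v)
    (hva : ∀ t : P, (∀ x : P, t * x = x * t) → t * t = 1 →
      (∀ v ∈ W, ρ t v = v) ∨ (∀ v ∈ W, ρ t v = -v))
    (hnab : ¬ ∀ x y : P, x * y = y * x) :
    ∃ w ∈ _root_.commutator P, (∀ v ∈ L, ρ w v = v) ∧ (∀ v ∈ W, ρ w v = -v) := by
  classical
  haveI : Fact (Nat.Prime 2) := ⟨Nat.prime_two⟩
  have hC : _root_.commutator P ≠ ⊥ := by
    intro h
    have hcomm := (_root_.commutator_eq_bot_iff (G := P)).mp h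
    exact hnab (fun x y => hcomm.is_comm.comm x y)
  have hnorm : (⊤ : Subgroup P) ≤ Subgroup.normalizer ((_root_.commutator P : Subgroup P) : Set P) := by
    intro g _
    rw [Subgroup.mem_normalizer_iff]
    intro h
    constructor
    · intro hh
      exact (inferInstance : (_root_.commutator P).Normal).conj_mem h hh g
    · intro hh
      have := (inferInstance : (_root_.commutator P).Normal).conj_mem _ hh g⁻¹
      have e : g⁻¹ * (g * h * g⁻¹) * g⁻¹⁻¹ = h := by group
      rwa [e] at this
  obtain ⟨z, hzC, hz1, hzc⟩ := Cfsg.Agent.Helper53.exists_central_of_normalized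
    (P := (⊤ : Subgroup P)) (A := _root_.commutator P) (hP.to_subgroup ⊤) le_top hnorm hC
  -- an involution in `⟨z⟩`
  have hex : ∃ k : ℕ, z ^ 2 ^ k = 1 := hP z
  have hk0 : Nat.find hex ≠ 0 := by
    intro h0
    have h1 := Nat.find_spec hex
    rw [h0, pow_zero, pow_one] at h1
    exact hz1 h1
  obtain ⟨k, hk⟩ := Nat.exists_eq_succ_of_ne_zero hk0
  obtain ⟨t, ht⟩ : ∃ t : P, t = z ^ 2 ^ k := ⟨_, rfl⟩
  have ht1 : t ≠ 1 := by
    intro h1
    rw [ht] at h1
    have := Nat.find_min hex (m := k) (by omega)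
    exact this h1
  have ht2 : t * t = 1 := by
    have h1 := Nat.find_spec hex
    rw [hk, pow_succ, pow_mul] at h1
    rw [ht, ← pow_two]
    exact h1
  have htC : t ∈ _root_.commutator P := by
    rw [ht]
    exact Subgroup.pow_mem _ hzC _
  have htc : ∀ x : P, t * x = x * t := by
    intro x
    have h1 : Commute x z := hzc x (Subgroup.mem_top x)
    rw [ht]
    exact (h1.pow_right _).symm.eq
  have hlamt : lam t = 1 := by
    have := Abelianization.commutator_subset_ker lam htC
    exact MonoidHom.mem_ker.mp this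
  have htL : ∀ v ∈ L, ρ t v = v := by
    intro v hv
    rw [hlam t v hv, hlamt, Units.val_one, one_smul]
  refine ⟨t, htC, htL, ?_⟩
  rcases hva t htc ht2 with h | h
  · exfalso
    apply ht1
    apply hfaith
    intro v
    have hv : v ∈ L ⊔ W := by
      rw [hLW.sup_eq_top]
      exact Submodule.mem_top
    obtain ⟨l, hl, w, hw, rfl⟩ := Submodule.mem_sup.mp hv
    rw [map_add, htL l hl, h w hw]
  · exact h

end Cfsg.Agent.Helper83.S1906P
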