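import Mathlib
import Cfsg.Prelude.Def_OddOrderLocal
import Cfsg.Prelude.Def_LieExceptional
import Cfsg.Agent.Helper83.CA1

set_option autoImplicit false
set_option linter.style.haveILetI false
set_option linter.unusedSectionVars false

/-!
# Groups in which every element commutes with its conjugates; first consequences of the
"all centralisers are TI" hypothesis (helper83)
-/

namespace Cfsg.Agent.Helper83

section closure
variable {G : Type*} [Group G]

/-- The closure of a set of pairwise commuting elements is commutative. -/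
theorem closure_comm_of_comm {S : Set G} (hS : ∀ a ∈ S, ∀ b ∈ S, a * b = b * a)
    {a b : G} (ha : a ∈ Subgroup.closure S) (hb : b ∈ Subgroup.closure S) : a * b = b * a := by
  have h1 : S ⊆ Subgroup.centralizer S := fun x hx =>
    Subgroup.mem_centralizer_iff.2 (fun y hy => hS y hy x hx)
  have h2 : Subgroup.closure S ≤ Subgroup.centralizer S := (Subgroup.closure_le _).2 h1
  have h3 : a ∈ Subgroup.centralizer (Subgroup.centralizer S : Set G) :=
    Subgroup.closure_le_centralizer_centralizer S ha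
  exact (Subgroup.mem_centralizer_iff.1 h3 b (h2 hb)).symm

/-- Exponent of the closure of pairwise commuting elements. -/
theorem closure_pow_eq_one {S : Set G} (hS : ∀ a ∈ S, ∀ b ∈ S, a * b = b * a) {n : ℕ}
    (hn : ∀ a ∈ S, a ^ n = 1) {a : G} (ha : a ∈ Subgroup.closure S) : a ^ n = 1 := by
  induction ha using Subgroup.closure_induction with
  | mem x hx => exact hn x hx
  | one => exact one_pow n
  | mul x y hx hy ihx ihy =>
    have hc : Commute x y := closure_comm_of_comm hS hx hy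
    rw [hc.mul_pow, ihx, ihy, one_mul]
  | inv x hx ihx => rw [inv_pow, ihx, inv_one]

/-- Conjugation stability of a closure from that of its generators. -/
theorem closure_conj_mem {S : Set G} {g : G} (hS : ∀ a ∈ S, g * a * g⁻¹ ∈ Subgroup.closure S)
    {a : G} (ha : a ∈ Subgroup.closure S) : g * a * g⁻¹ ∈ Subgroup.closure S := by
  induction ha using Subgroup.closure_induction with
  | mem x hx => exact hS x hx
  | one => simp
  | mul x y hx hy ihx ihy =>
    have : g * (x * y) * g⁻¹ = (g * x * g⁻¹) * (g * y * g⁻¹) := by group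
    rw [this]; exact mul_mem ihx ihy
  | inv x hx ihx =>
    have : g * x⁻¹ * g⁻¹ = (g * x * g⁻¹)⁻¹ := by group
    rw [this]; exact inv_mem ihx

/-- An element all of whose `m`-th and `n`-th powers lie in `H`, `m` and `n` coprime. -/
theorem mem_of_pow_mem_coprime (H : Subgroup G) {g : G} {m n : ℕ} (h : Nat.Coprime m n)
    (hm : g ^ m ∈ H) (hn : g ^ n ∈ H) : g ∈ H := by
  have key : g = (g ^ m) ^ (Nat.gcdA m n) * (g ^ n) ^ (Nat.gcdB m n) := by
    rw [← zpow_natCast, ← zpow_natCast, ← zpow_mul, ← zpow_mul, ← zpow_add,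
      ← Nat.gcd_eq_gcd_ab, h.gcd_eq_one]
    simp
  rw [key]
  exact H.mul_mem (H.zpow_mem hm _) (H.zpow_mem hn _)

/-- The subgroup generated by the conjugates of `d` under a subgroup `T`. -/
def conjCl (T : Subgroup G) (d : G) : Subgroup G :=
  Subgroup.closure {x | ∃ c ∈ T, x = c * d * c⁻¹}

theorem self_mem_conjCl (T : Subgroup G) (d : G) : d ∈ conjCl T d :=
  Subgroup.subset_closure ⟨1, T.one_mem, by simp⟩

theorem conj_mem_conjCl (T : Subgroup G) (d : G) {c : G} (hc : c ∈ T) :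
    c * d * c⁻¹ ∈ conjCl T d :=
  Subgroup.subset_closure ⟨c, hc, rfl⟩

theorem conjCl_le (T : Subgroup G) {d : G} (hd : d ∈ T) : conjCl T d ≤ T := by
  unfold conjCl
  rw [Subgroup.closure_le]
  rintro x ⟨c, hc, rfl⟩
  exact T.mul_mem (T.mul_mem hc hd) (T.inv_mem hc)

theorem conjCl_conj (T : Subgroup G) (d : G) {g : G} (hg : g ∈ T) {a : G}
    (ha : a ∈ conjCl T d) : g * a * g⁻¹ ∈ conjCl T d := by
  apply closure_conj_mem _ ha
  rintro x ⟨c, hc, rfl⟩
  apply Subgroup.subset_closure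
  exact ⟨g * c, T.mul_mem hg hc, by group⟩

theorem conjCl_le_normalizer (T : Subgroup G) (d : G) :
    T ≤ Subgroup.normalizer (conjCl T d : Set G) := by
  intro g hg
  rw [Subgroup.mem_normalizer_iff]
  intro a
  constructor
  · exact fun ha => conjCl_conj T d hg ha
  · intro ha
    have := conjCl_conj T d (T.inv_mem hg) ha
    simpa [mul_assoc] using this

theorem conjCl_comm' (T : Subgroup G) {d : G}
    (h : ∀ c₁ ∈ T, ∀ c₂ ∈ T,
      (c₁ * d * c₁⁻¹) * (c₂ * d * c₂⁻¹) = (c₂ * d * c₂⁻¹) * (c₁ * d * c₁⁻¹))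
    {a b : G} (ha : a ∈ conjCl T d) (hb : b ∈ conjCl T d) : a * b = b * a := by
  apply closure_comm_of_comm _ ha hb
  rintro x ⟨c₁, hc₁, rfl⟩ y ⟨c₂, hc₂, rfl⟩
  exact h c₁ hc₁ c₂ hc₂

/-- If the `T`-conjugates of `d` commute pairwise then they generate a commutative group. -/
theorem conjCl_comm (T : Subgroup G) {d : G}
    (h : ∀ y ∈ T, ∀ c ∈ T, Commute (c * y * c⁻¹) y) (hd : d ∈ T) {a b : G}
    (ha : a ∈ conjCl T d) (hb : b ∈ conjCl T d) : a * b = b * a := by
  apply closure_comm_of_comm _ ha hb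
  rintro x ⟨c₁, hc₁, rfl⟩ y ⟨c₂, hc₂, rfl⟩
  have h1 := h (c₁ * d * c₁⁻¹) (T.mul_mem (T.mul_mem hc₁ hd) (T.inv_mem hc₁))
    (c₂ * c₁⁻¹) (T.mul_mem hc₂ (T.inv_mem hc₁))
  have e : c₂ * c₁⁻¹ * (c₁ * d * c₁⁻¹) * (c₂ * c₁⁻¹)⁻¹ = c₂ * d * c₂⁻¹ := by group
  rw [e] at h1
  exact h1.eq.symm

theorem conjCl_pow (T : Subgroup G) {d : G}
    (h : ∀ y ∈ T, ∀ c ∈ T, Commute (c * y * c⁻¹) y) (hd : d ∈ T) {n : ℕ} (hn : d ^ n = 1)
    {a : G} (ha : a ∈ conjCl T d) : a ^ n = 1 := by
  apply closure_pow_eq_one _ _ ha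
  · rintro x ⟨c₁, hc₁, rfl⟩ y ⟨c₂, hc₂, rfl⟩
    exact conjCl_comm T h hd (conj_mem_conjCl T d hc₁) (conj_mem_conjCl T d hc₂)
  · rintro x ⟨c, hc, rfl⟩
    rw [conj_pow, hn]; group

/-- In a subgroup whose elements commute with their conjugates, elements of coprime orders
commute. -/
theorem comm_of_coprime (T : Subgroup G) (h : ∀ y ∈ T, ∀ c ∈ T, Commute (c * y * c⁻¹) y)
    {a b : G} (ha : a ∈ T) (hb : b ∈ T) {m n : ℕ} (hm : a ^ m = 1) (hn : b ^ n = 1)
    (hmn : Nat.Coprime m n) : a * b = b * a := by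
  have h1 : a * b * a⁻¹ * b⁻¹ ∈ conjCl T a := by
    have e : a * b * a⁻¹ * b⁻¹ = a * (b * a * b⁻¹)⁻¹ := by group
    rw [e]
    exact mul_mem (self_mem_conjCl T a) (inv_mem (conj_mem_conjCl T a hb))
  have h2 : a * b * a⁻¹ * b⁻¹ ∈ conjCl T b := by
    have e : a * b * a⁻¹ * b⁻¹ = (a * b * a⁻¹) * b⁻¹ := by group
    rw [e]
    exact mul_mem (conj_mem_conjCl T b ha) (inv_mem (self_mem_conjCl T b))
  have h3 := conjCl_pow T h ha hm h1
  have h4 := conjCl_pow T h hb hn h2
  have h5 : a * b * a⁻¹ * b⁻¹ = 1 := by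
    have := mem_of_pow_mem_coprime (⊥ : Subgroup G) hmn
      (by rw [h3]; exact Subgroup.mem_bot.2 rfl) (by rw [h4]; exact Subgroup.mem_bot.2 rfl)
    exact Subgroup.mem_bot.1 this
  calc a * b = (a * b * a⁻¹ * b⁻¹) * (b * a) := by group
    _ = b * a := by rw [h5, one_mul]

/-- A `p`-element of `T` lies in every Sylow `p`-subgroup of the ambient group contained in `T`,
when the elements of `T` commute with their `T`-conjugates. -/
theorem mem_sylow_of_conjComm [Finite G] {p : ℕ} [Fact p.Prime] (P : Sylow p G)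
    (T : Subgroup G) (hPT : (P : Subgroup G) ≤ T)
    (h : ∀ y ∈ T, ∀ c ∈ T, Commute (c * y * c⁻¹) y) {d : G} (hd : d ∈ T) {j : ℕ}
    (hdj : d ^ p ^ j = 1) : d ∈ (P : Subgroup G) := by
  have hp : IsPGroup p (conjCl T d) := by
    intro a
    refine ⟨j, ?_⟩
    exact Subtype.ext (conjCl_pow T h hd hdj a.2)
  have hsup : IsPGroup p ((P : Subgroup G) ⊔ conjCl T d : Subgroup G) :=
    IsPGroup.to_sup_of_normal_right' P.2 hp (hPT.trans (conjCl_le_normalizer T d))
  have heq := P.is_maximal' hsup le_sup_left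
  have : d ∈ (P : Subgroup G) ⊔ conjCl T d :=
    (le_sup_right : conjCl T d ≤ _) (self_mem_conjCl T d)
  rwa [heq] at this

/-- A finite group whose elements commute with their conjugates is nilpotent. -/
theorem nilpotent_of_conjComm [Finite G] (h : ∀ y c : G, Commute (c * y * c⁻¹) y) :
    Group.IsNilpotent G := by
  refine (Group.isNilpotent_of_finite_tfae.out 0 3).2 ?_
  intro p hp P
  haveI := hp
  refine ⟨fun x hx g => ?_⟩
  obtain ⟨j, hj⟩ := P.2 ⟨x, hx⟩
  have hj' : x ^ p ^ j = 1 := congrArg Subtype.val hj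
  have hg : (g * x * g⁻¹) ^ p ^ j = 1 := by rw [conj_pow, hj']; group
  exact mem_sylow_of_conjComm P ⊤ le_top (fun y _ c _ => h y c) (Subgroup.mem_top _) hg

/-- A fixed-point-free involutory conjugation inverts. -/
theorem inverts_of_fpf (B : Subgroup G) [Finite B] {s : G} (hss : s * s = 1)
    (hnorm : ∀ b ∈ B, s * b * s⁻¹ ∈ B) (hfix : ∀ b ∈ B, s * b * s⁻¹ = b → b = 1) {b : G}
    (hb : b ∈ B) : s * b * s⁻¹ = b⁻¹ := by
  have hsinv : s⁻¹ = s := inv_eq_of_mul_eq_one_left hss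
  have hinj : Function.Injective
      (fun c : B => (⟨(c : G)⁻¹ * (s * (c : G) * s⁻¹), B.mul_mem (B.inv_mem c.2) (hnorm c c.2)⟩ : B)) := by
    intro c c' hcc
    have h1 : (c : G)⁻¹ * (s * (c : G) * s⁻¹) = (c' : G)⁻¹ * (s * (c' : G) * s⁻¹) :=
      congrArg Subtype.val hcc
    have h2 : s * ((c' : G) * (c : G)⁻¹) * s⁻¹ = (c' : G) * (c : G)⁻¹ := by
      have e : s * ((c' : G) * (c : G)⁻¹) * s⁻¹
          = (c' : G) * ((c' : G)⁻¹ * (s * (c' : G) * s⁻¹)) * ((c : G)⁻¹ * (s * (c : G) * s⁻¹))⁻¹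
            * (c : G)⁻¹ := by group
      rw [e, ← h1]; group
    have h3 := hfix _ (B.mul_mem c'.2 (B.inv_mem c.2)) h2
    exact Subtype.ext (mul_inv_eq_one.1 h3).symm
  have hbij := Finite.injective_iff_surjective.1 hinj
  obtain ⟨c, hc⟩ := hbij ⟨b, hb⟩
  have hc' : (c : G)⁻¹ * (s * (c : G) * s⁻¹) = b := congrArg Subtype.val hc
  rw [← hc']
  calc s * ((c : G)⁻¹ * (s * (c : G) * s⁻¹)) * s⁻¹
      = (s * (c : G) * s⁻¹)⁻¹ * ((s * s) * (c : G) * (s * s)⁻¹) := by group
    _ = ((c : G)⁻¹ * (s * (c : G) * s⁻¹))⁻¹ := by rw [hss]; group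

theorem invo_pow_swap {s y : G} (h : s * y = y⁻¹ * s) (j : ℕ) :
    s * y ^ j = (y ^ j)⁻¹ * s := by
  induction j with
  | zero => simp
  | succ j ih =>
    calc s * y ^ (j + 1) = (s * y ^ j) * y := by rw [pow_succ, mul_assoc]
      _ = (y ^ j)⁻¹ * (s * y) := by rw [ih, mul_assoc]
      _ = (y ^ j)⁻¹ * (y⁻¹ * s) := by rw [h]
      _ = (y ^ (j + 1))⁻¹ * s := by rw [pow_succ', mul_inv_rev, mul_assoc]

/-- Two involutions are conjugate or commute with a common involution. -/
theorem invo_conj_or_comm [Finite G] {s u : G} (hs : IsInvo s) (hu : IsInvo u) :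
    (∃ g : G, g * s * g⁻¹ = u) ∨ ∃ z : G, IsInvo z ∧ z * s = s * z ∧ z * u = u * z := by
  have hsi : s⁻¹ = s := hs.inv_eq
  have hui : u⁻¹ = u := hu.inv_eq
  obtain ⟨y, hy⟩ : ∃ y : G, y = s * u := ⟨_, rfl⟩
  have hsy : s * y = y⁻¹ * s := by
    rw [hy, mul_inv_rev, hui, hsi, ← mul_assoc, hs.2, one_mul, mul_assoc, hs.2, mul_one]
  have huy : u * y = y⁻¹ * u := by
    rw [hy, mul_inv_rev, hui, hsi, mul_assoc]
  rcases Nat.even_or_odd' (orderOf y) with ⟨m, hm | hm⟩
  · right
    have hpos : 0 < orderOf y := orderOf_pos _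
    have hm0 : 0 < m := by omega
    have hz : (y ^ m)⁻¹ = y ^ m := by
      apply inv_eq_of_mul_eq_one_left
      rw [← pow_add, ← two_mul, ← hm, pow_orderOf_eq_one]
    refine ⟨y ^ m, ⟨?_, ?_⟩, ?_, ?_⟩
    · intro h
      have := orderOf_le_of_pow_eq_one hm0 h
      omega
    · rw [← pow_add, ← two_mul, ← hm, pow_orderOf_eq_one]
    · have := invo_pow_swap hsy m
      rw [hz] at this
      exact this.symm
    · have := invo_pow_swap huy m
      rw [hz] at this
      exact this.symm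
  · left
    refine ⟨y ^ m, ?_⟩
    have h3 : y ^ (2 * m + 1) = 1 := by rw [← hm, pow_orderOf_eq_one]
    have hy2m : y ^ (2 * m) = y⁻¹ := eq_inv_of_mul_eq_one_left (by rw [← pow_succ, h3])
    have h4 := invo_pow_swap hsy m
    have h5 : s * (y ^ m)⁻¹ = y ^ m * s := by
      have e : y ^ m * (s * y ^ m) * (y ^ m)⁻¹ = y ^ m * ((y ^ m)⁻¹ * s) * (y ^ m)⁻¹ := by
        rw [h4]
      simpa [mul_assoc] using e.symm
    calc y ^ m * s * (y ^ m)⁻¹ = y ^ m * (s * (y ^ m)⁻¹) := mul_assoc _ _ _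
      _ = y ^ m * (y ^ m * s) := by rw [h5]
      _ = y ^ (2 * m) * s := by rw [← mul_assoc, ← pow_add, ← two_mul]
      _ = y⁻¹ * s := by rw [hy2m]
      _ = u := by rw [hy, mul_inv_rev, hui, hsi, mul_assoc, hs.2, mul_one]

/-- In a finite cyclic group, elements of the same order generate the same subgroup. -/
theorem mem_zpowers_of_orderOf_eq {C : Type*} [Group C] [Finite C] [IsCyclic C] {a b : C}
    (hab : orderOf b = orderOf a) : b ∈ Subgroup.zpowers a := by
  classical
  haveI := Fintype.ofFinite C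
  by_contra hb
  have hd : 0 < orderOf a := orderOf_pos a
  have h1 := IsCyclic.card_pow_eq_one_le (α := C) hd
  have h2 : (insert b ((Subgroup.zpowers a : Set C).toFinset))
      ⊆ Finset.univ.filter (fun x : C => x ^ orderOf a = 1) := by
    intro x hx
    rw [Finset.mem_insert] at hx
    rw [Finset.mem_filter]
    refine ⟨Finset.mem_univ _, ?_⟩
    rcases hx with rfl | hx
    · rw [← hab, pow_orderOf_eq_one]
    · rw [Set.mem_toFinset] at hx
      obtain ⟨k, rfl⟩ := Subgroup.mem_zpowers_iff.1 hx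
      rw [← zpow_natCast, ← zpow_mul, mul_comm, zpow_mul, zpow_natCast, pow_orderOf_eq_one,
        one_zpow]
  have h3 := Finset.card_le_card h2
  rw [Finset.card_insert_of_notMem (by rw [Set.mem_toFinset]; exact hb)] at h3
  have h4 : ((Subgroup.zpowers a : Set C).toFinset).card = orderOf a := by
    rw [Set.toFinset_card, ← Nat.card_eq_fintype_card]
    exact Nat.card_zpowers a
  have h5 : (Finset.univ.filter (fun x : C => x ^ orderOf a = 1)).card ≤ orderOf a := by
    convert h1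
  omega

end closure

end Cfsg.Agent.Helper83
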