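import Cfsg.Agent.Helper83.TI1
import Cfsg.Agent.S0039
import Cfsg.Agent.S0041
import Cfsg.Agent.S0068
import Cfsg.Agent.S0069
import Cfsg.Agent.S4211

set_option autoImplicit false
set_option linter.style.haveILetI false
set_option linter.unusedSectionVars false

/-!
# Groups all of whose element centralisers are TI: general facts and the Frobenius case (helper83)
-/

namespace Cfsg.Agent.Helper83

/-- All element centralisers are TI-subgroups. -/
def CTI (G : Type*) [Group G] : Prop := ∀ x : G, Cfsg.IsTISubset (cz1 x : Set G)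

section ti
variable {G : Type*} [Group G]

theorem cti_mem_normalizer (h : CTI G) {x g w : G} (hw : w ∈ cz1 x) (hw1 : w ≠ 1)
    (hgw : g * w * g⁻¹ ∈ cz1 x) : g ∈ caN x := by
  by_contra hg
  exact hw1 (h x g hg w hw hgw)

theorem cti_conj_comm (h : CTI G) {x : G} (hx : x ≠ 1) {y c : G} (hy : y ∈ cz1 x)
    (hc : c ∈ cz1 x) : Commute (c * y * c⁻¹) y := by
  have hxy : x ∈ cz1 y := mem_cz1.2 (mem_cz1.1 hy).symm
  have hcn : c ∈ caN y := by
    apply cti_mem_normalizer h hxy hx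
    have : c * x * c⁻¹ = x := by rw [mem_cz1.1 hc]; group
    rw [this]; exact hxy
  exact mem_cz1.1 ((Subgroup.mem_normalizer_iff.1 hcn y).1 (self_mem_cz1 y))

theorem cti_cn [Finite G] (h : CTI G) : Cfsg.IsCNGroup G := by
  intro x hx
  apply nilpotent_of_conjComm
  intro y c
  have := cti_conj_comm h hx y.2 c.2
  exact Subtype.ext this.eq

theorem cti_nilpotent_of_center [Finite G] (h : CTI G) {z : G} (hz : z ≠ 1)
    (hzc : ∀ g : G, g * z = z * g) : Group.IsNilpotent G := by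
  apply nilpotent_of_conjComm
  intro y c
  have hzy : z ∈ cz1 y := mem_cz1.2 (hzc y).symm
  have hcn : c ∈ caN y := by
    apply cti_mem_normalizer h hzy hz
    have : c * z * c⁻¹ = z := by rw [hzc c]; group
    rw [this]; exact hzy
  exact mem_cz1.1 ((Subgroup.mem_normalizer_iff.1 hcn y).1 (self_mem_cz1 y))

theorem cti_cent_top (h : CTI G) {y d : G} (hy : caN y = ⊤) (hy1 : y ≠ 1) (hd : d ∈ cz1 y) :
    caN d = ⊤ := by
  rw [eq_top_iff]
  intro g _
  have hnorm : (cz1 y).Normal := Subgroup.normalizer_eq_top_iff.1 hy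
  apply cti_mem_normalizer h (w := g⁻¹ * y * g)
  · have h1 : g * d * g⁻¹ ∈ cz1 y := hnorm.conj_mem d hd g
    rw [mem_cz1] at h1 ⊢
    have h2 : g⁻¹ * (g * d * g⁻¹ * y) * g = g⁻¹ * (y * (g * d * g⁻¹)) * g := by rw [h1]
    have e1 : g⁻¹ * (g * d * g⁻¹ * y) * g = d * (g⁻¹ * y * g) := by group
    have e2 : g⁻¹ * (y * (g * d * g⁻¹)) * g = g⁻¹ * y * g * d := by group
    rw [e1, e2] at h2
    exact h2.symm
  · exact conj_ne_one' hy1 g
  · have : g * (g⁻¹ * y * g) * g⁻¹ = y := by group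
    rw [this]
    exact mem_cz1.2 (mem_cz1.1 hd).symm

theorem caN_one : caN (1 : G) = ⊤ := by
  rw [eq_top_iff]
  intro g _
  rw [Subgroup.mem_normalizer_iff]
  intro x
  simp [mem_cz1]

theorem cz1_inv (a : G) : cz1 a⁻¹ = cz1 a := by
  ext x
  rw [mem_cz1, mem_cz1]
  exact Commute.inv_right_iff (a := x) (b := a)

/-- The elements with normal centraliser. -/
def tiS (h : CTI G) : Subgroup G where
  carrier := {y | caN y = ⊤}
  one_mem' := caN_one
  mul_mem' := by
    intro a b ha hb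
    have ha' : caN a = ⊤ := ha
    have hb' : caN b = ⊤ := hb
    show caN (a * b) = ⊤
    by_cases ha1 : a = 1
    · subst ha1; rw [one_mul]; exact hb'
    by_cases hb1 : b = 1
    · subst hb1; rw [mul_one]; exact ha'
    have hna : (cz1 a).Normal := Subgroup.normalizer_eq_top_iff.1 ha'
    have hnb : (cz1 b).Normal := Subgroup.normalizer_eq_top_iff.1 hb'
    have hca : a * b * a⁻¹ * b⁻¹ ∈ cz1 a := by
      have e : a * b * a⁻¹ * b⁻¹ = a * (b * a⁻¹ * b⁻¹) := by group
      rw [e]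
      exact (cz1 a).mul_mem (self_mem_cz1 a) (hna.conj_mem _ ((cz1 a).inv_mem (self_mem_cz1 a)) b)
    have hcb : a * b * a⁻¹ * b⁻¹ ∈ cz1 b := by
      have e : a * b * a⁻¹ * b⁻¹ = (a * b * a⁻¹) * b⁻¹ := by group
      rw [e]
      exact (cz1 b).mul_mem (hnb.conj_mem _ (self_mem_cz1 b) a) ((cz1 b).inv_mem (self_mem_cz1 b))
    by_cases hc1 : a * b * a⁻¹ * b⁻¹ = 1
    · have hab : a * b = b * a := by
        calc a * b = (a * b * a⁻¹ * b⁻¹) * (b * a) := by group
          _ = b * a := by rw [hc1, one_mul]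
      apply cti_cent_top h ha' ha1
      rw [mem_cz1, mul_assoc, ← hab]
    · have hc : caN (a * b * a⁻¹ * b⁻¹) = ⊤ := cti_cent_top h ha' ha1 hca
      apply cti_cent_top h hc hc1
      exact (cz1 _).mul_mem (mem_cz1.2 (mem_cz1.1 hca).symm) (mem_cz1.2 (mem_cz1.1 hcb).symm)
  inv_mem' := by
    intro a ha
    have ha' : caN a = ⊤ := ha
    show caN a⁻¹ = ⊤
    unfold caN
    rw [cz1_inv]
    exact ha'

theorem mem_tiS (h : CTI G) {y : G} : y ∈ tiS h ↔ caN y = ⊤ := Iff.rfl

theorem tiS_normal (h : CTI G) : (tiS h).Normal := by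
  refine ⟨fun y hy g => ?_⟩
  by_cases hy1 : y = 1
  · subst hy1
    have : g * 1 * g⁻¹ = (1 : G) := by group
    rw [this]; exact (tiS h).one_mem
  · have hnorm : (cz1 y).Normal := Subgroup.normalizer_eq_top_iff.1 hy
    exact cti_cent_top h hy hy1 (hnorm.conj_mem y (self_mem_cz1 y) g)

theorem cti_nilpotent_of_tiS_top [Finite G] (h : CTI G) (hS : tiS h = ⊤) :
    Group.IsNilpotent G := by
  apply nilpotent_of_conjComm
  intro y c
  have hy : caN y = ⊤ := by
    have : y ∈ tiS h := by rw [hS]; exact Subgroup.mem_top y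
    exact this
  have hc : c ∈ caN y := by rw [hy]; exact Subgroup.mem_top c
  exact mem_cz1.1 ((Subgroup.mem_normalizer_iff.1 hc y).1 (self_mem_cz1 y))

/-- No normal subgroup has a non-trivial central element when `tiS` is trivial. -/
theorem cti_np (h : CTI G) (hS : tiS h = ⊥) (L : Subgroup G) (hL : L.Normal) {z : G}
    (hz : z ∈ L) (hzc : ∀ a ∈ L, a * z = z * a) : z = 1 := by
  by_contra hz1
  have hmem : z ∈ tiS h := by
    show caN z = ⊤
    rw [eq_top_iff]
    intro g _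
    apply cti_mem_normalizer h (w := g⁻¹ * z * g)
    · have h1 : g⁻¹ * z * g ∈ L := by
        have := hL.conj_mem z hz g⁻¹
        rwa [inv_inv] at this
      exact mem_cz1.2 (hzc _ h1)
    · exact conj_ne_one' hz1 g
    · have : g * (g⁻¹ * z * g) * g⁻¹ = z := by group
      rw [this]; exact self_mem_cz1 z
  rw [hS, Subgroup.mem_bot] at hmem
  exact hz1 hmem

end ti

section frob
variable {G : Type*} [Group G] [Finite G]

theorem cti_coprime (h : CTI G) : Nat.Coprime (Nat.card (tiS h)) (tiS h).index := by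
  apply Nat.coprime_of_dvd
  intro p hp hpS hpi
  haveI : Fact p.Prime := ⟨hp⟩
  obtain ⟨y, hy⟩ := exists_prime_orderOf_dvd_card' p hpS
  have hyS : (y : G) ∈ tiS h := y.2
  have hyo : orderOf (y : G) = p := by rw [Subgroup.orderOf_coe]; exact hy
  have hy1 : (y : G) ≠ 1 := by
    intro e
    rw [e, orderOf_one] at hyo
    exact hp.one_lt.ne hyo
  have hz : IsPGroup p (Subgroup.zpowers (y : G)) := by
    apply IsPGroup.of_card (n := 1)
    rw [Nat.card_zpowers, hyo, pow_one]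
  obtain ⟨R, hR⟩ := hz.exists_le_sylow
  have hyR : (y : G) ∈ (R : Subgroup G) := hR (Subgroup.mem_zpowers _)
  haveI : Nontrivial (R : Subgroup G) :=
    ⟨⟨⟨(y : G), hyR⟩, 1, fun e => hy1 (congrArg Subtype.val e)⟩⟩
  haveI := (R.2 : IsPGroup p (R : Subgroup G)).center_nontrivial
  obtain ⟨z, hz1⟩ := exists_ne (1 : Subgroup.center (R : Subgroup G))
  have hzne : ((z : (R : Subgroup G)) : G) ≠ 1 := fun e => hz1 (Subtype.ext (Subtype.ext e))
  have hzy : ((z : (R : Subgroup G)) : G) ∈ cz1 (y : G) := by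
    rw [mem_cz1]
    have := Subgroup.mem_center_iff.1 z.2 ⟨(y : G), hyR⟩
    exact (congrArg Subtype.val this).symm
  have hzS : ((z : (R : Subgroup G)) : G) ∈ tiS h := cti_cent_top h hyS hy1 hzy
  have hRS : (R : Subgroup G) ≤ tiS h := by
    intro r hr
    apply cti_cent_top h hzS hzne
    rw [mem_cz1]
    have := Subgroup.mem_center_iff.1 z.2 ⟨r, hr⟩
    exact congrArg Subtype.val this
  have hdvd : (tiS h).index ∣ (R : Subgroup G).index := Subgroup.index_dvd_of_le hRS
  exact R.not_dvd_index (hpi.trans hdvd)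

theorem cti_frobenius (h : CTI G) (hS : tiS h ≠ ⊥) (hS' : tiS h ≠ ⊤) :
    ∃ H : Subgroup G, Cfsg.IsFrobeniusComplement H ∧
      (IsCyclic H ∨ ∃ m : ℕ, Odd m ∧
        Nonempty (H ≃* Multiplicative (ZMod m) × QuaternionGroup 2)) := by
  classical
  haveI : (tiS h).Normal := tiS_normal h
  obtain ⟨H, hc⟩ := Subgroup.exists_right_complement'_of_coprime (cti_coprime h)
  have hSH : tiS h ⊓ H = ⊥ := hc.disjoint.eq_bot
  have hcard := hc.card_mul_card
  have hH : H ≠ ⊥ := by
    intro e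
    apply hS'
    rw [e, Subgroup.card_bot, mul_one] at hcard
    exact Subgroup.eq_top_of_card_eq _ hcard
  have hfpf : ∀ x ∈ H, x ≠ 1 → tiS h ⊓ Subgroup.centralizer {x} = ⊥ := by
    intro x hx hx1
    rw [eq_bot_iff]
    intro y hy
    rw [Subgroup.mem_bot]
    by_contra hy1
    obtain ⟨hyS, hyx⟩ := Subgroup.mem_inf.1 hy
    have hxy : x ∈ cz1 y := mem_cz1.2 (mem_cz1.1 hyx).symm
    have hxS : x ∈ tiS h := cti_cent_top h hyS hy1 hxy
    have : x ∈ tiS h ⊓ H := Subgroup.mem_inf.2 ⟨hxS, hx⟩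
    rw [hSH, Subgroup.mem_bot] at this
    exact hx1 this
  have hFC : Cfsg.IsFrobeniusComplement H :=
    (Cfsg.Agent.S0039.result (tiS h) H hc hS hH).2 hfpf
  have hcen := Cfsg.Agent.S0069.result (tiS h) H hc hS hH hfpf
  refine ⟨H, hFC, ?_⟩
  obtain ⟨z, hz, hz1⟩ : ∃ z : H, z ∈ Subgroup.center H ∧ z ≠ 1 := by
    by_contra hcon
    push Not at hcon
    apply hcen
    rw [eq_bot_iff]
    intro z hz
    rw [Subgroup.mem_bot]
    exact hcon z hz
  have hzG : (z : G) ≠ 1 := fun e => hz1 (Subtype.ext e)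
  have hzc : ∀ x ∈ H, x * (z : G) = (z : G) * x := by
    intro x hx
    have := Subgroup.mem_center_iff.1 hz ⟨x, hx⟩
    exact congrArg Subtype.val this
  have hconj : ∀ y ∈ H, ∀ c ∈ H, Commute (c * y * c⁻¹) y := by
    intro y hy c hc'
    have hzy : (z : G) ∈ cz1 y := mem_cz1.2 (hzc y hy).symm
    have hcn : c ∈ caN y := by
      apply cti_mem_normalizer h hzy hzG
      have : c * (z : G) * c⁻¹ = (z : G) := by rw [hzc c hc']; group
      rw [this]; exact hzy
    exact mem_cz1.1 ((Subgroup.mem_normalizer_iff.1 hcn y).1 (self_mem_cz1 y))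
  -- an abelian normal subgroup inside `tiS`
  obtain ⟨y₀, hy₀S, hy₀1⟩ : ∃ y₀ : G, y₀ ∈ tiS h ∧ y₀ ≠ 1 := by
    by_contra hcon
    push Not at hcon
    apply hS
    rw [eq_bot_iff]
    intro y hy
    rw [Subgroup.mem_bot]
    exact hcon y hy
  have hVcomm : ∀ a ∈ conjCl ⊤ y₀, ∀ b ∈ conjCl ⊤ y₀, a * b = b * a := by
    intro a ha b hb
    apply conjCl_comm' ⊤ _ ha hb
    intro c₁ _ c₂ _
    have h1 : c₁ * y₀ * c₁⁻¹ ∈ tiS h := (tiS_normal h).conj_mem y₀ hy₀S c₁
    have hnorm : (cz1 (c₁ * y₀ * c₁⁻¹)).Normal := Subgroup.normalizer_eq_top_iff.1 h1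
    have h2 := hnorm.conj_mem _ (self_mem_cz1 (c₁ * y₀ * c₁⁻¹)) (c₂ * c₁⁻¹)
    have e : c₂ * c₁⁻¹ * (c₁ * y₀ * c₁⁻¹) * (c₂ * c₁⁻¹)⁻¹ = c₂ * y₀ * c₂⁻¹ := by group
    rw [e] at h2
    exact (mem_cz1.1 h2).symm
  have hVS : conjCl ⊤ y₀ ≤ tiS h := by
    unfold conjCl
    rw [Subgroup.closure_le]
    rintro x ⟨c, -, rfl⟩
    exact (tiS_normal h).conj_mem y₀ hy₀S c
  have hV1 : conjCl ⊤ y₀ ≠ ⊥ := by
    intro e
    have := self_mem_conjCl ⊤ y₀
    rw [e, Subgroup.mem_bot] at this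
    exact hy₀1 this
  have hVN : ∀ A : Subgroup G, A ≤ Subgroup.normalizer (conjCl ⊤ y₀ : Set G) :=
    fun A => le_top.trans (conjCl_le_normalizer ⊤ y₀)
  haveI : IsMulCommutative (conjCl ⊤ y₀) :=
    ⟨⟨fun a b => Subtype.ext (hVcomm a a.2 b b.2)⟩⟩
  have hcyc : ∀ A : Subgroup G, A ≤ H → (∀ a ∈ A, ∀ b ∈ A, a * b = b * a) → IsCyclic A := by
    intro A hAH hAc
    haveI : IsMulCommutative A := ⟨⟨fun a b => Subtype.ext (hAc a a.2 b b.2)⟩⟩
    refine Cfsg.Agent.S0041.result A (conjCl ⊤ y₀) hV1 (hVN A) ?_ (Or.inl inferInstance)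
    intro a ha ha1
    rw [eq_bot_iff, ← hfpf a (hAH ha) ha1]
    exact inf_le_inf_right _ hVS
  -- every cyclic subgroup of `H` is normal in `H`
  have hzp : ∀ x ∈ H, ∀ g ∈ H, g * x * g⁻¹ ∈ Subgroup.zpowers x := by
    intro x hx g hg
    have hB : IsCyclic (conjCl H x) :=
      hcyc _ (conjCl_le H hx) (fun a ha b hb => conjCl_comm H hconj hx ha hb)
    have h1 : orderOf (⟨g * x * g⁻¹, conj_mem_conjCl H x hg⟩ : conjCl H x)
        = orderOf (⟨x, self_mem_conjCl H x⟩ : conjCl H x) := by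
      rw [← Subgroup.orderOf_coe, ← Subgroup.orderOf_coe]
      have := orderOf_injective (MulAut.conj g).toMonoidHom (MulAut.conj g).injective x
      simpa [MulAut.conj_apply] using this
    have h2 := mem_zpowers_of_orderOf_eq h1
    obtain ⟨k, hk⟩ := Subgroup.mem_zpowers_iff.1 h2
    rw [Subgroup.mem_zpowers_iff]
    refine ⟨k, ?_⟩
    have := congrArg Subtype.val hk
    simpa using this
  have hn : ∀ L : Subgroup ↥H, L.Normal := by
    intro L
    refine ⟨fun x hx g => ?_⟩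
    obtain ⟨k, hk⟩ := Subgroup.mem_zpowers_iff.1 (hzp x x.2 g g.2)
    have e : g * x * g⁻¹ = x ^ k := Subtype.ext (by simp [hk])
    rw [e]
    exact L.zpow_mem hx k
  by_cases hab : IsMulCommutative ↥H
  · left
    exact hcyc H le_rfl (fun a ha b hb =>
      congrArg Subtype.val (hab.is_comm.comm (⟨a, ha⟩ : H) ⟨b, hb⟩))
  · right
    obtain ⟨Q, E, A, ⟨e⟩, hE, hAc, hAodd, hEA, hQ1, hQ2⟩ := Cfsg.Agent.S4211.result hab hn
    have hQcard : Nat.card Q = 8 := by
      rw [Nat.card_congr e.toEquiv, Nat.card_eq_fintype_card, QuaternionGroup.card]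
    have heven : 2 ∣ Nat.card H := by
      have h1 : Nat.card Q ∣ Nat.card H := Subgroup.card_subgroup_dvd_card Q
      rw [hQcard] at h1
      exact Dvd.dvd.trans (by norm_num) h1
    obtain ⟨⟨s, hsH, hs2, huniq, -⟩, -⟩ :=
      Cfsg.Agent.S0068.result (tiS h) H hc hS hfpf heven
    have hq2 : orderOf (QuaternionGroup.a 2 : QuaternionGroup 2) = 2 := by
      haveI : Fact (Nat.Prime 2) := ⟨Nat.prime_two⟩
      exact orderOf_eq_prime_iff.2 ⟨by decide, by decide⟩
    have hq₀ : orderOf (((e.symm (QuaternionGroup.a 2) : Q) : H) : G) = 2 := by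
      rw [Subgroup.orderOf_coe, Subgroup.orderOf_coe, MulEquiv.orderOf_eq]
      exact hq2
    have hsq : (((e.symm (QuaternionGroup.a 2) : Q) : H) : G) = s := huniq _ (Subtype.mem _) hq₀
    have hEbot : E = ⊥ := by
      rw [eq_bot_iff]
      intro x hx
      rw [Subgroup.mem_bot]
      by_contra hx1
      have hx2 : orderOf x = 2 := by
        haveI : Fact (Nat.Prime 2) := ⟨Nat.prime_two⟩
        exact orderOf_eq_prime_iff.2 ⟨hE.2 x hx, hx1⟩
      have hxs : (x : G) = s := huniq _ x.2 (by rw [Subgroup.orderOf_coe]; exact hx2)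
      have hxq : x = ((e.symm (QuaternionGroup.a 2) : Q) : H) := Subtype.ext (hxs.trans hsq.symm)
      have : x ∈ Q ⊓ (E ⊔ A) :=
        Subgroup.mem_inf.2 ⟨by rw [hxq]; exact Subtype.mem _, (le_sup_left : E ≤ E ⊔ A) hx⟩
      rw [hQ1, Subgroup.mem_bot] at this
      exact hx1 this
    rw [hEbot, bot_sup_eq] at hQ1 hQ2
    -- `A` is cyclic
    have hAcyc : IsCyclic A := by
      have h1 : IsCyclic (A.map H.subtype) := by
        apply hcyc
        · rintro x ⟨a, -, rfl⟩
          exact a.2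
        · rintro x ⟨a, ha, rfl⟩ y ⟨b, hb, rfl⟩
          have := hAc.is_comm.comm (⟨a, ha⟩ : A) ⟨b, hb⟩
          exact congrArg (fun w : A => ((w : H) : G)) this
      exact isCyclic_of_surjective
        (Subgroup.equivMapOfInjective A H.subtype H.subtype_injective).symm.toMonoidHom
        (Subgroup.equivMapOfInjective A H.subtype H.subtype_injective).symm.surjective
    have hcomm : ∀ (a : A) (q : Q), Commute (A.subtype a) (Q.subtype q) := fun a q =>
      Subgroup.commute_of_normal_of_disjoint A Q (hn A) (hn Q)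
        (disjoint_iff.2 (by rw [inf_comm]; exact hQ1)) a q a.2 q.2
    have hinj : Function.Injective (A.subtype.noncommCoprod Q.subtype hcomm) := by
      rw [injective_iff_map_eq_one]
      rintro ⟨a, q⟩ haq
      have h1 : (a : H) * (q : H) = 1 := haq
      have h2 : (a : H) ∈ Q ⊓ A := by
        refine Subgroup.mem_inf.2 ⟨?_, a.2⟩
        have : (a : H) = (q : H)⁻¹ := eq_inv_of_mul_eq_one_left h1
        rw [this]; exact Q.inv_mem q.2
      rw [hQ1, Subgroup.mem_bot] at h2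
      have h3 : (q : H) = 1 := by rw [h2, one_mul] at h1; exact h1
      exact Prod.ext (Subtype.ext h2) (Subtype.ext h3)
    have hsurj : Function.Surjective (A.subtype.noncommCoprod Q.subtype hcomm) := by
      rw [← MonoidHom.range_eq_top, MonoidHom.noncommCoprod_range, Subgroup.range_subtype,
        Subgroup.range_subtype, sup_comm]
      exact hQ2
    refine ⟨Nat.card A, hAodd, ⟨?_⟩⟩
    exact (MulEquiv.ofBijective _ ⟨hinj, hsurj⟩).symm.trans
      (MulEquiv.prodCongr (zmodCyclicMulEquiv hAcyc).symm e)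

end frob

end Cfsg.Agent.Helper83
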