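import Cfsg.Agent.Helper83.CA2
import Cfsg.Agent.Helper83.TI1

set_option autoImplicit false
set_option linter.style.haveILetI false
set_option linter.unusedSectionVars false

/-!
# Counting involutions around a "strongly embedded" normaliser of an involution centraliser
(helper83; abstract version of `CA2`)
-/

namespace Cfsg.Agent.Helper83

/-- Abstract hypotheses on `D = C(t)` and `M = N(D)` for an involution `t`. -/
structure SEH {G : Type*} [Group G] (t : G) : Prop where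
  invo : IsInvo t
  ti : ∀ {x g : G}, x ∈ cz1 t → x ≠ 1 → g⁻¹ * x * g ∈ cz1 t → g ∈ caN t
  invoM : ∀ {s : G}, s ∈ caN t → s * s = 1 → s ∈ cz1 t
  disj : ∀ {g r : G}, g ∉ caN t → r ∈ cz1 t → g⁻¹ * r * g ∈ caN t → r = 1
  cent : ∀ {c : G}, c ∈ cz1 t → c ≠ 1 → cz1 c ≤ cz1 t
  conj : ∀ {s : G}, IsInvo s → ∃ g : G, g * t * g⁻¹ = s
  odd : Odd ((cz1 t).relIndex (caN t))
  ne_top : caN t ≠ ⊤

section count
variable {G : Type*} [Group G] [Finite G]

omit [Finite G] in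
theorem SEH.centAll {t : G} (h : SEH t) {s c : G} (hs : IsInvo s) (hc : c ∈ cz1 s)
    (hc1 : c ≠ 1) : cz1 c ≤ cz1 s := by
  obtain ⟨g, rfl⟩ := h.conj hs
  have hc' : g⁻¹ * c * g ∈ cz1 t := by
    rw [mem_cz1] at hc ⊢
    calc g⁻¹ * c * g * t = g⁻¹ * (c * (g * t * g⁻¹)) * g := by group
      _ = g⁻¹ * ((g * t * g⁻¹) * c) * g := by rw [hc]
      _ = t * (g⁻¹ * c * g) := by group
  have h1 := h.cent hc' (conj_ne_one' hc1 g)
  intro x hx
  have hx' : g⁻¹ * x * g ∈ cz1 (g⁻¹ * c * g) := by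
    rw [mem_cz1] at hx ⊢
    calc g⁻¹ * x * g * (g⁻¹ * c * g) = g⁻¹ * (x * c) * g := by group
      _ = g⁻¹ * (c * x) * g := by rw [hx]
      _ = g⁻¹ * c * g * (g⁻¹ * x * g) := by group
  have h2 := h1 hx'
  rw [mem_cz1] at h2 ⊢
  calc x * (g * t * g⁻¹) = g * (g⁻¹ * x * g * t) * g⁻¹ := by group
    _ = g * (t * (g⁻¹ * x * g)) * g⁻¹ := by rw [h2]
    _ = g * t * g⁻¹ * x := by group

omit [Finite G] in
theorem se_invo_fix_unique {t : G} (h : SEH t) {s : G}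
    (hs : IsInvo s) {ω₁ ω₂ : G ⧸ caN t} (h1 : s • ω₁ = ω₁) (h2 : s • ω₂ = ω₂) :
    ω₁ = ω₂ := by
  obtain ⟨g₁, rfl⟩ := QuotientGroup.mk_surjective ω₁
  obtain ⟨g₂, rfl⟩ := QuotientGroup.mk_surjective ω₂
  rw [ca_fix_iff] at h1 h2
  have hA1 : g₁⁻¹ * s * g₁ ∈ cz1 t := h.invoM h1 (conj_mul_self' hs.2 g₁)
  have hA2 : g₂⁻¹ * s * g₂ ∈ cz1 t := h.invoM h2 (conj_mul_self' hs.2 g₂)
  rw [QuotientGroup.eq]
  apply h.ti hA1 (conj_ne_one' hs.1 g₁)
  have : (g₁⁻¹ * g₂)⁻¹ * (g₁⁻¹ * s * g₁) * (g₁⁻¹ * g₂) = g₂⁻¹ * s * g₂ := by group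
  rw [this]; exact hA2

omit [Finite G] in
theorem seK_inf {t : G} (h : SEH t) {ω : G ⧸ caN t}
    (hω : ω ≠ ((1 : G) : G ⧸ caN t)) : caK t ω ⊓ cz1 t = ⊥ := by
  rw [eq_bot_iff]
  intro r hr
  rw [Subgroup.mem_bot]
  obtain ⟨hrK, hrA⟩ := Subgroup.mem_inf.1 hr
  obtain ⟨hrN, hrω⟩ := Subgroup.mem_inf.1 hrK
  obtain ⟨g, rfl⟩ := QuotientGroup.mk_surjective ω
  have hg : g ∉ caN t := by
    intro hg
    apply hω
    exact QuotientGroup.eq.2 (by rw [mul_one]; exact (caN t).inv_mem hg)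
  apply h.disj hg hrA
  rw [← ca_fix_iff]
  exact hrω

theorem seJ_card_le_k {t : G} (h : SEH t) {ω : G ⧸ caN t}
    (hω : ω ≠ ((1 : G) : G ⧸ caN t)) : Nat.card (caJ t ω) ≤ (cz1 t).relIndex (caN t) :=
  caJ_card_le_K.trans (ca_card_le_k inf_le_left (seK_inf h hω))

theorem se_conj_not_mem {t : G} (h : SEH t) {ω : G ⧸ caN t}
    (hω : ω ≠ ((1 : G) : G ⧸ caN t)) {a : G} (ha : IsInvo a) (haA : a ∈ cz1 t) :
    ω.out * a * ω.out⁻¹ ∉ cz1 t := by
  intro h'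
  apply hω
  have h1 := ca_conj_fix (N := caN t) Subgroup.le_normalizer haA ω.out
  rw [QuotientGroup.out_eq'] at h1
  have h2 : (ω.out * a * ω.out⁻¹) • ((1 : G) : G ⧸ caN t) = ((1 : G) : G ⧸ caN t) :=
    (ca_fix_one_iff _).2 (Subgroup.le_normalizer h')
  exact se_invo_fix_unique h (ha.conj' _) h1 h2

theorem se_count_lb {t : G} (h : SEH t) :
    Nat.card (caT t) * Nat.card {a : G // IsInvo a ∧ a ∈ cz1 t}
      ≤ Nat.card {s : G // IsInvo s ∧ s ∉ cz1 t} := by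
  rw [← Nat.card_prod]
  apply Nat.card_le_card_of_injective
    (fun p : caT t × {a : G // IsInvo a ∧ a ∈ cz1 t} =>
      (⟨(p.1 : G ⧸ caN t).out * (p.2 : G) * ((p.1 : G ⧸ caN t).out)⁻¹, p.2.2.1.conj' _,
        se_conj_not_mem h p.1.2 p.2.2.1 p.2.2.2⟩ : {s : G // IsInvo s ∧ s ∉ cz1 t}))
  intro p p' hpp
  have h' : (p.1 : G ⧸ caN t).out * (p.2 : G) * ((p.1 : G ⧸ caN t).out)⁻¹
      = (p'.1 : G ⧸ caN t).out * (p'.2 : G) * ((p'.1 : G ⧸ caN t).out)⁻¹ :=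
    congrArg Subtype.val hpp
  have h1 := ca_conj_fix (N := caN t) Subgroup.le_normalizer p.2.2.2 (p.1 : G ⧸ caN t).out
  have h2 := ca_conj_fix (N := caN t) Subgroup.le_normalizer p'.2.2.2 (p'.1 : G ⧸ caN t).out
  rw [QuotientGroup.out_eq'] at h1 h2
  rw [h'] at h1
  have hω : (p.1 : G ⧸ caN t) = p'.1 := se_invo_fix_unique h (p'.2.2.1.conj' _) h1 h2
  obtain ⟨⟨ω, hω1⟩, ⟨a, ha⟩⟩ := p
  obtain ⟨⟨ω', hω1'⟩, ⟨a', ha'⟩⟩ := p'
  simp only at hω h'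
  subst hω
  have : a = a' := mul_left_cancel (mul_right_cancel h')
  subst this
  rfl

theorem se_count_ub {t : G} (h : SEH t) :
    Nat.card {s : G // IsInvo s ∧ s ∉ cz1 t} ≤ Nat.card (Σ ω : caT t, caJ t (ω : G ⧸ caN t)) := by
  have hne : ∀ s : {s : G // IsInvo s ∧ s ∉ cz1 t},
      (s : G) • ((1 : G) : G ⧸ caN t) ≠ ((1 : G) : G ⧸ caN t) := by
    intro s h'
    exact s.2.2 (h.invoM ((ca_fix_one_iff _).1 h') s.2.1.2)
  apply Nat.card_le_card_of_injective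
    (fun s : {s : G // IsInvo s ∧ s ∉ cz1 t} =>
      (⟨⟨(s : G) • ((1 : G) : G ⧸ caN t), hne s⟩, ⟨(s : G), s.2.1, rfl⟩⟩ :
        Σ ω : caT t, caJ t (ω : G ⧸ caN t)))
  apply Function.Injective.of_comp
    (f := fun x : (Σ ω : caT t, caJ t (ω : G ⧸ caN t)) => (x.2 : G))
  intro s s' h'
  exact Subtype.ext h'

omit [Finite G] in
theorem se_exists_not_mem {t : G} (h : SEH t) : ∃ g : G, g ∉ caN t := by
  by_contra hcon
  push Not at hcon
  exact h.ne_top ((Subgroup.eq_top_iff' _).2 hcon)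

theorem seT_card_pos {t : G} (h : SEH t) : 0 < Nat.card (caT t) := by
  obtain ⟨g, hg⟩ := se_exists_not_mem h
  have : Nonempty (caT t) :=
    ⟨⟨g • ((1 : G) : G ⧸ caN t), fun h' => hg ((ca_fix_one_iff _).1 h')⟩⟩
  exact Nat.card_pos

theorem se_count {t : G} (h : SEH t) :
    (cz1 t).relIndex (caN t) = Nat.card {a : G // IsInvo a ∧ a ∈ cz1 t} ∧
    ∀ ω : G ⧸ caN t, ω ≠ ((1 : G) : G ⧸ caN t) →
      Nat.card (caJ t ω) = (cz1 t).relIndex (caN t) := by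
  classical
  letI : Fintype (caT t) := Fintype.ofFinite _
  have h1 := se_count_lb h
  have h2 := se_count_ub h
  rw [Nat.card_sigma] at h2
  have h3 : ∀ ω : caT t, Nat.card (caJ t (ω : G ⧸ caN t)) ≤ (cz1 t).relIndex (caN t) :=
    fun ω => seJ_card_le_k h ω.2
  have h4 : ∑ ω : caT t, Nat.card (caJ t (ω : G ⧸ caN t))
      ≤ ∑ _ω : caT t, (cz1 t).relIndex (caN t) := Finset.sum_le_sum (fun ω _ => h3 ω)
  have h5 : ∑ _ω : caT t, (cz1 t).relIndex (caN t)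
      = Nat.card (caT t) * (cz1 t).relIndex (caN t) := by
    rw [Finset.sum_const, Finset.card_univ, Nat.card_eq_fintype_card, smul_eq_mul]
  have hpos := seT_card_pos h
  have h6 := ca_k_le h.invo
  have h7 : Nat.card {a : G // IsInvo a ∧ a ∈ cz1 t} ≤ (cz1 t).relIndex (caN t) := by
    have : Nat.card (caT t) * Nat.card {a : G // IsInvo a ∧ a ∈ cz1 t}
        ≤ Nat.card (caT t) * (cz1 t).relIndex (caN t) := by
      rw [← h5]; exact (h1.trans h2).trans h4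
    exact Nat.le_of_mul_le_mul_left this hpos
  have h8 := le_antisymm h6 h7
  refine ⟨h8, ?_⟩
  have h9 : ∑ ω : caT t, Nat.card (caJ t (ω : G ⧸ caN t))
      = ∑ _ω : caT t, (cz1 t).relIndex (caN t) := by
    apply le_antisymm h4
    rw [h5, h8]
    exact h1.trans h2
  have h10 := (Finset.sum_eq_sum_iff_of_le (fun ω _ => h3 ω)).1 h9
  intro ω hω
  exact h10 ⟨ω, hω⟩ (Finset.mem_univ _)

theorem seJ_nonempty {t : G} (h : SEH t) {ω : G ⧸ caN t}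
    (hω : ω ≠ ((1 : G) : G ⧸ caN t)) : Nonempty (caJ t ω) := by
  have h' := (se_count h).2 ω hω
  have hpos : 0 < Nat.card (caJ t ω) := by rw [h']; exact ca_k_pos
  exact (Nat.card_pos_iff.1 hpos).1

theorem seK_card {t : G} (h : SEH t) {ω : G ⧸ caN t}
    (hω : ω ≠ ((1 : G) : G ⧸ caN t)) :
    Nat.card (caK t ω) = (cz1 t).relIndex (caN t) := by
  apply le_antisymm (ca_card_le_k inf_le_left (seK_inf h hω))
  rw [← (se_count h).2 ω hω]
  exact caJ_card_le_K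

theorem se_swap_inverts {t : G} (h : SEH t) {ω : G ⧸ caN t}
    (hω : ω ≠ ((1 : G) : G ⧸ caN t)) (s₀ : caJ t ω) {y : G}
    (hy : y ∈ caK t ω) : (s₀ : G) * y * (s₀ : G)⁻¹ = y⁻¹ := by
  have hinj : Function.Injective
      (fun s : caJ t ω => (⟨(s₀ : G) * (s : G), caJ_mul_mem s₀ s⟩ : caK t ω)) := by
    intro s s' h'
    have : (s₀ : G) * (s : G) = (s₀ : G) * (s' : G) := congrArg Subtype.val h'
    exact Subtype.ext (mul_left_cancel this)
  have hbij := hinj.bijective_of_nat_card_le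
    (by rw [seK_card h hω, (se_count h).2 ω hω])
  obtain ⟨s, hs⟩ := hbij.2 ⟨y, hy⟩
  have hs' : (s₀ : G) * (s : G) = y := congrArg Subtype.val hs
  rw [← hs', mul_inv_rev, IsInvo.inv_eq s.2.1, IsInvo.inv_eq s₀.2.1, ← mul_assoc (s₀ : G),
    s₀.2.1.2, one_mul]

end count

end Cfsg.Agent.Helper83
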