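import Cfsg.Agent.Helper83.TI4
import Cfsg.Agent.S0035
import Cfsg.Agent.S0338
import Cfsg.Agent.S0885
import Cfsg.Agent.S1147
import Cfsg.Agent.S1230
import Cfsg.Agent.Helper57.ListSub

set_option autoImplicit false
set_option linter.style.haveILetI false
set_option linter.unusedSectionVars false

/-!
# From a strongly embedded involution centraliser to `PSL(2, 2^n)` (helper83)

`se_main`: if the centraliser `D` of an involution `t` satisfies the abstract hypotheses `SEH t`,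
`G` has no non-trivial abelian normal subgroup, `D` contains a Sylow `2`-subgroup and `N(D)`
normalises the centraliser of every element of `D`, then `G ≃* PSL(2, 2^n)` with `n ≥ 2`.
-/

namespace Cfsg.Agent.Helper83

theorem two_pow_sub_one_not_dvd {n b : ℕ} (hb : 0 < b) (hbn : b < n) :
    ¬ (2 ^ n - 1) ∣ (2 ^ (n + b) - 1) := by
  intro hd
  obtain ⟨c, hc⟩ : ∃ c, 2 ^ n = c + 1 :=
    ⟨2 ^ n - 1, by have := Nat.one_le_two_pow (n := n); omega⟩
  obtain ⟨d, hd'⟩ : ∃ d, 2 ^ b = d + 1 :=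
    ⟨2 ^ b - 1, by have := Nat.one_le_two_pow (n := b); omega⟩
  have h1 : 2 ^ (n + b) - 1 = (d + 1) * c + d := by
    rw [pow_add, hc, hd']
    have : (c + 1) * (d + 1) = (d + 1) * c + d + 1 := by ring
    rw [this, Nat.add_sub_cancel]
  rw [h1, hc, Nat.add_sub_cancel] at hd
  have h2 : c ∣ d := (Nat.dvd_add_right (Dvd.intro_left (d + 1) rfl)).1 hd
  have hlt : 2 ^ b < 2 ^ n := Nat.pow_lt_pow_right (by norm_num) hbn
  have hd0 : 0 < d := by
    have : 2 ^ 1 ≤ 2 ^ b := Nat.pow_le_pow_right (by norm_num) hb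
    omega
  have := Nat.le_of_dvd hd0 h2
  omega

/-- A subgroup acting by conjugation on another one, freely away from `1`. -/
theorem card_dvd_of_semiregular {G : Type*} [Group G] [Finite G] (X S : Subgroup G)
    (hnorm : ∀ x ∈ X, ∀ s ∈ S, x * s * x⁻¹ ∈ S)
    (hfree : ∀ x ∈ X, ∀ s ∈ S, s ≠ 1 → x * s * x⁻¹ = s → x = 1) :
    Nat.card X ∣ Nat.card S - 1 := by
  classical
  letI : MulAction X {s : S // s ≠ 1} :=
    { smul := fun x s => ⟨⟨(x : G) * ((s : S) : G) * (x : G)⁻¹, hnorm x x.2 _ s.1.2⟩, by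
          intro e
          apply s.2
          have e' : (x : G) * ((s : S) : G) * (x : G)⁻¹ = 1 := congrArg Subtype.val e
          apply Subtype.ext
          have : ((s : S) : G) = (x : G)⁻¹ * ((x : G) * ((s : S) : G) * (x : G)⁻¹) * (x : G) := by
            group
          rw [this, e']; simp⟩
      one_smul := fun s => Subtype.ext (Subtype.ext (by
        show ((1 : X) : G) * ((s : S) : G) * ((1 : X) : G)⁻¹ = ((s : S) : G)
        simp))
      mul_smul := fun x x' s => Subtype.ext (Subtype.ext (by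
        show ((x * x' : X) : G) * ((s : S) : G) * ((x * x' : X) : G)⁻¹
          = (x : G) * ((x' : G) * ((s : S) : G) * (x' : G)⁻¹) * (x : G)⁻¹
        rw [Subgroup.coe_mul]; group)) }
  have hstab : ∀ b : {s : S // s ≠ 1}, MulAction.stabilizer X b = ⊥ := by
    intro b
    rw [eq_bot_iff]
    intro x hx
    rw [Subgroup.mem_bot]
    have h1 : x • b = b := MulAction.mem_stabilizer_iff.1 hx
    have h2 : (x : G) * ((b : S) : G) * (x : G)⁻¹ = ((b : S) : G) :=
      congrArg (fun z : {s : S // s ≠ 1} => ((z : S) : G)) h1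
    exact Subtype.ext (hfree x x.2 _ b.1.2 (fun e => b.2 (Subtype.ext e)) h2)
  have e := MulAction.selfEquivOrbitsQuotientProd hstab
  have hcard : Nat.card {s : S // s ≠ 1}
      = Nat.card (Quotient (MulAction.orbitRel X {s : S // s ≠ 1})) * Nat.card X := by
    rw [Nat.card_congr e, Nat.card_prod]
  have e2 := Nat.card_congr (Equiv.optionSubtypeNe (1 : S))
  rw [Finite.card_option] at e2
  have : Nat.card S - 1 = Nat.card {s : S // s ≠ 1} := by omega
  rw [this, hcard]
  exact Dvd.intro_left _ rfl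

/-- A normal subgroup on which an involution acts without fixed points is abelian. -/
theorem abelian_of_invo_fpf {G : Type*} [Group G] [Finite G] {t : G} (ht : t * t = 1)
    (N : Subgroup G) (hN : N.Normal) (hfix : ∀ b ∈ N, t * b * t⁻¹ = b → b = 1) :
    ∀ a ∈ N, ∀ b ∈ N, a * b = b * a := by
  have hinv : ∀ n ∈ N, t * n * t⁻¹ = n⁻¹ := by
    intro n hn
    exact inverts_of_fpf N ht (fun b hb => hN.conj_mem b hb t) hfix hn
  intro a ha b hb
  have h1 := hinv a ha
  have h2 := hinv b hb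
  have h3 := hinv (a * b) (N.mul_mem ha hb)
  have h4 : t * (a * b) * t⁻¹ = (t * a * t⁻¹) * (t * b * t⁻¹) := by group
  rw [h3, h1, h2] at h4
  have h5 := congrArg Inv.inv h4
  simpa using h5

section zass
variable {G : Type*} [Group G] [Finite G]

theorem se_two_trans {t : G} (h : SEH t) (hk1 : (cz1 t).relIndex (caN t) ≠ 1) :
    MulAction.IsMultiplyPretransitive G (G ⧸ caN t) 2 := by
  rw [MulAction.is_two_pretransitive_iff]
  intro a b c d hab hcd
  obtain ⟨g₁, hg₁⟩ := MulAction.exists_smul_eq G a ((1 : G) : G ⧸ caN t)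
  obtain ⟨g₂, hg₂⟩ := MulAction.exists_smul_eq G c ((1 : G) : G ⧸ caN t)
  have hb : g₁ • b ≠ ((1 : G) : G ⧸ caN t) := by
    intro h'; apply hab; rw [← hg₁] at h'; exact (MulAction.injective g₁ h').symm
  have hd : g₂ • d ≠ ((1 : G) : G ⧸ caN t) := by
    intro h'; apply hcd; rw [← hg₂] at h'; exact (MulAction.injective g₂ h').symm
  obtain ⟨x, hxA, hx⟩ := se_trans h hk1 hb hd
  refine ⟨g₂⁻¹ * x * g₁, ?_, ?_⟩
  · calc (g₂⁻¹ * x * g₁) • a = g₂⁻¹ • (x • (g₁ • a)) := by rw [mul_smul, mul_smul]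
      _ = g₂⁻¹ • (x • ((1 : G) : G ⧸ caN t)) := by rw [hg₁]
      _ = g₂⁻¹ • ((1 : G) : G ⧸ caN t) := by
          rw [(ca_fix_one_iff _).2 (Subgroup.le_normalizer hxA)]
      _ = g₂⁻¹ • (g₂ • c) := by rw [hg₂]
      _ = c := by rw [smul_smul, inv_mul_cancel, one_smul]
  · calc (g₂⁻¹ * x * g₁) • b = g₂⁻¹ • (x • (g₁ • b)) := by rw [mul_smul, mul_smul]
      _ = g₂⁻¹ • (g₂ • d) := by rw [hx]
      _ = d := by rw [smul_smul, inv_mul_cancel, one_smul]

theorem se_three {t : G} (h : SEH t)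
    (g : G) (a b c : G ⧸ caN t) (hab : a ≠ b) (hbc : b ≠ c) (hac : a ≠ c) (ha : g • a = a)
    (hb : g • b = b) (hc : g • c = c) : g = 1 := by
  obtain ⟨x, hh⟩ := MulAction.exists_smul_eq G a ((1 : G) : G ⧸ caN t)
  have hb1 : x • b ≠ ((1 : G) : G ⧸ caN t) := by
    intro e; apply hab; rw [← hh] at e; exact (MulAction.injective x e).symm
  have hc1 : x • c ≠ ((1 : G) : G ⧸ caN t) := by
    intro e; apply hac; rw [← hh] at e; exact (MulAction.injective x e).symm
  have hbc' : x • b ≠ x • c := fun e => hbc (MulAction.injective x e)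
  have hfix : ∀ ω : G ⧸ caN t, g • ω = ω → (x * g * x⁻¹) • (x • ω) = x • ω := by
    intro ω e
    rw [smul_smul, inv_mul_cancel_right, mul_smul, e]
  have hN : x * g * x⁻¹ ∈ caN t := by
    rw [← ca_fix_one_iff, ← hh]; exact hfix a ha
  have h1 : x * g * x⁻¹ = 1 := seK_disj h hb1 hc1 hbc'
    (Subgroup.mem_inf.2 ⟨hN, hfix b hb⟩) (Subgroup.mem_inf.2 ⟨hN, hfix c hc⟩)
  have h2 : g = x⁻¹ * (x * g * x⁻¹) * x := by group
  rw [h2, h1]; group

theorem se_faithful {t : G} (h : SEH t) : FaithfulSMul G (G ⧸ caN t) := by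
  obtain ⟨ω₁⟩ := (Nat.card_pos_iff.1 (seT_card_pos h)).1
  have hω₂ : t • (ω₁ : G ⧸ caN t) ≠ ((1 : G) : G ⧸ caN t) := se_smul_ne (self_mem_cz1 t) ω₁.2
  have hne : (ω₁ : G ⧸ caN t) ≠ t • (ω₁ : G ⧸ caN t) := by
    intro e
    exact h.invo.1 (se_free h (self_mem_cz1 t) ω₁.2 e.symm)
  refine ⟨fun {g₁ g₂} hg => ?_⟩
  have hfix : ∀ ω : G ⧸ caN t, (g₂⁻¹ * g₁) • ω = ω := by
    intro ω
    rw [mul_smul, hg ω, smul_smul, inv_mul_cancel, one_smul]
  have h1 := se_three h (g₂⁻¹ * g₁) ((1 : G) : G ⧸ caN t) ω₁ (t • (ω₁ : G ⧸ caN t))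
    ω₁.2.symm hne hω₂.symm (hfix _) (hfix _) (hfix _)
  exact (inv_mul_eq_one.1 h1).symm

theorem se_two_fix {t : G} (h : SEH t) (hk1 : (cz1 t).relIndex (caN t) ≠ 1) :
    ∃ g : G, g ≠ 1 ∧ ∃ a b : G ⧸ caN t, a ≠ b ∧ g • a = a ∧ g • b = b := by
  obtain ⟨ω₁⟩ := (Nat.card_pos_iff.1 (seT_card_pos h)).1
  have hcard := seK_card h ω₁.2
  have hex : ∃ y ∈ caK t (ω₁ : G ⧸ caN t), y ≠ 1 := by
    by_contra hcon
    push Not at hcon
    apply hk1
    rw [← hcard, Subgroup.card_eq_one, Subgroup.eq_bot_iff_forall]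
    exact hcon
  obtain ⟨y, hy, hy1⟩ := hex
  exact ⟨y, hy1, ((1 : G) : G ⧸ caN t), ω₁, ω₁.2.symm,
    (ca_fix_one_iff _).2 (Subgroup.mem_inf.1 hy).1, (Subgroup.mem_inf.1 hy).2⟩

theorem se_no_regular {t : G} (h : SEH t)
    (hnab : ∀ A : Subgroup G, A.Normal → (∀ a ∈ A, ∀ b ∈ A, a * b = b * a) → A = ⊥)
    (N' : Subgroup G) (hN' : N'.Normal) (hpt : MulAction.IsPretransitive N' (G ⧸ caN t)) :
    ∃ a : G ⧸ caN t, MulAction.stabilizer N' a ≠ ⊥ := by
  by_contra hcon
  push Not at hcon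
  have hbase := hcon ((1 : G) : G ⧸ caN t)
  have hNM : ∀ n ∈ N', n ∈ caN t → n = 1 := by
    intro n hn hnM
    have hmem : (⟨n, hn⟩ : N') ∈ MulAction.stabilizer N' ((1 : G) : G ⧸ caN t) := by
      rw [MulAction.mem_stabilizer_iff]
      change n • ((1 : G) : G ⧸ caN t) = _
      exact (ca_fix_one_iff _).2 hnM
    rw [hbase, Subgroup.mem_bot] at hmem
    exact congrArg Subtype.val hmem
  have hab := abelian_of_invo_fpf h.invo.2 N' hN' (by
    intro b hb hfix
    apply hNM b hb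
    apply Subgroup.le_normalizer
    rw [mem_cz1]
    calc b * t = (t * b * t⁻¹) * t := by rw [hfix]
      _ = t * b := by group)
  have hbot := hnab N' hN' hab
  obtain ⟨ω₁⟩ := (Nat.card_pos_iff.1 (seT_card_pos h)).1
  obtain ⟨g, hg⟩ := hpt.exists_smul_eq ((1 : G) : G ⧸ caN t) (ω₁ : G ⧸ caN t)
  have hg1 : (g : G) = 1 := Subgroup.mem_bot.1 ((le_of_eq hbot) g.2)
  apply ω₁.2
  rw [← hg]
  change (g : G) • ((1 : G) : G ⧸ caN t) = _
  rw [hg1, one_smul]

theorem se_zassenhaus {t : G} (h : SEH t) (hk1 : (cz1 t).relIndex (caN t) ≠ 1)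
    (hnab : ∀ A : Subgroup G, A.Normal → (∀ a ∈ A, ∀ b ∈ A, a * b = b * a) → A = ⊥) :
    Cfsg.IsZassenhausGroup G (G ⧸ caN t) :=
  ⟨se_faithful h, se_two_trans h hk1, se_three h, se_two_fix h hk1, se_no_regular h hnab⟩

theorem se_k_ne_one {t : G} (h : SEH t)
    (hnab : ∀ A : Subgroup G, A.Normal → (∀ a ∈ A, ∀ b ∈ A, a * b = b * a) → A = ⊥) :
    (cz1 t).relIndex (caN t) ≠ 1 := by
  intro hk
  have hMD : caN t ≤ cz1 t := Subgroup.relIndex_eq_one.1 hk
  have hD1 : cz1 t ≠ ⊥ := by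
    intro e
    have := self_mem_cz1 t
    rw [e, Subgroup.mem_bot] at this
    exact h.invo.1 this
  have hDtop : cz1 t ≠ ⊤ := by
    intro e
    apply h.ne_top
    rw [eq_top_iff, ← e]
    exact Subgroup.le_normalizer
  have hF : Cfsg.IsFrobeniusComplement (cz1 t) := by
    refine ⟨hD1, hDtop, fun g hg => ?_⟩
    rw [eq_bot_iff]
    intro x hx
    rw [Subgroup.mem_bot]
    by_contra hx1
    obtain ⟨hxD, hxg⟩ := Subgroup.mem_inf.1 hx
    obtain ⟨d, hd, hdx⟩ := (Subgroup.mem_smul_pointwise_iff_exists _ _ _).1 hxg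
    rw [MulAut.smul_def, MulAut.conj_apply] at hdx
    have hxg' : g⁻¹ * x * g ∈ cz1 t := by
      rw [← hdx]
      have : g⁻¹ * (g * d * g⁻¹) * g = d := by group
      rw [this]; exact hd
    exact hg (hMD (h.ti hxD hx1 hxg'))
  obtain ⟨N, -, hNn, hNc⟩ := Cfsg.Agent.S0035.result (cz1 t) hF
  have hND : ∀ n ∈ N, n ∈ cz1 t → n = 1 := by
    intro n hn hnD
    have : n ∈ N ⊓ cz1 t := Subgroup.mem_inf.2 ⟨hn, hnD⟩
    rwa [hNc.disjoint.eq_bot, Subgroup.mem_bot] at this
  have hab := abelian_of_invo_fpf h.invo.2 N hNn (by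
    intro b hb hfix
    apply hND b hb
    rw [mem_cz1]
    calc b * t = (t * b * t⁻¹) * t := by rw [hfix]
      _ = t * b := by group)
  have hbot := hnab N hNn hab
  have hcard := hNc.card_mul_card
  rw [hbot, Subgroup.card_bot, one_mul] at hcard
  exact hDtop (Subgroup.eq_top_of_card_eq _ hcard)

omit [Finite G] in
theorem se_invo_central {t : G} (h : SEH t) {a b : G} (ha : a ∈ cz1 t) (haa : a * a = 1)
    (hb : b ∈ cz1 t) : a * b = b * a := by
  by_cases ha1 : a = 1
  · subst ha1; simp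
  · have hta : t ∈ cz1 a := mem_cz1.2 (mem_cz1.1 ha).symm
    have := h.centAll ⟨ha1, haa⟩ hta h.invo.1 hb
    exact (mem_cz1.1 this).symm

/-- The elements of `C(t)` of order at most two. -/
def seE {t : G} (h : SEH t) : Subgroup G where
  carrier := {a | a ∈ cz1 t ∧ a * a = 1}
  mul_mem' := by
    rintro a b ⟨ha, haa⟩ ⟨hb, hbb⟩
    refine ⟨(cz1 t).mul_mem ha hb, ?_⟩
    calc a * b * (a * b) = a * (b * a) * b := by group
      _ = a * (a * b) * b := by rw [se_invo_central h hb hbb ha]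
      _ = (a * a) * (b * b) := by group
      _ = 1 := by rw [haa, hbb, one_mul]
  one_mem' := ⟨(cz1 t).one_mem, one_mul 1⟩
  inv_mem' := by
    rintro a ⟨ha, haa⟩
    refine ⟨(cz1 t).inv_mem ha, ?_⟩
    calc a⁻¹ * a⁻¹ = (a * a)⁻¹ := by group
      _ = 1 := by rw [haa, inv_one]

omit [Finite G] in
theorem mem_seE {t : G} (h : SEH t) {a : G} : a ∈ seE h ↔ a ∈ cz1 t ∧ a * a = 1 := Iff.rfl

theorem seE_card {t : G} (h : SEH t) : Nat.card (seE h) = (cz1 t).relIndex (caN t) + 1 := by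
  have hset : {a : G | IsInvo a ∧ a ∈ cz1 t} = ((seE h : Subgroup G) : Set G) \ {1} := by
    ext a
    constructor
    · rintro ⟨⟨h1, h2⟩, h3⟩; exact ⟨(mem_seE h).2 ⟨h3, h2⟩, h1⟩
    · rintro ⟨h3, h1⟩; exact ⟨⟨h1, ((mem_seE h).1 h3).2⟩, ((mem_seE h).1 h3).1⟩
  rw [(se_count h).1]
  have h1 : Nat.card {a : G // IsInvo a ∧ a ∈ cz1 t}
      = Set.ncard {a : G | IsInvo a ∧ a ∈ cz1 t} := rfl
  rw [h1, hset, Set.ncard_sdiff_singleton_add_one (seE h).one_mem (Set.toFinite _)]
  rfl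

theorem se_main {t : G} (h : SEH t)
    (hnab : ∀ A : Subgroup G, A.Normal → (∀ a ∈ A, ∀ b ∈ A, a * b = b * a) → A = ⊥)
    (hsyl : ∃ P : Sylow 2 G, (P : Subgroup G) ≤ cz1 t)
    (hnorm : ∀ y ∈ cz1 t, caN t ≤ Subgroup.normalizer (cz1 y : Set G)) :
    ∃ n : ℕ, 2 ≤ n ∧
      Nonempty (G ≃* Matrix.ProjectiveSpecialLinearGroup (Fin 2) (GaloisField 2 n)) := by
  classical
  haveI : Fact (Nat.Prime 2) := ⟨Nat.prime_two⟩
  letI : Fintype (G ⧸ caN t) := Fintype.ofFinite _
  have hk1 := se_k_ne_one h hnab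
  have hZ := se_zassenhaus h hk1 hnab
  obtain ⟨ω₁⟩ := (Nat.card_pos_iff.1 (seT_card_pos h)).1
  have hcardΩ : Fintype.card (G ⧸ caN t) = Nat.card (cz1 t) + 1 := by
    rw [← Nat.card_eq_fintype_card, ← seT_card h hk1, ← Finite.card_option]
    exact (Nat.card_congr (Equiv.optionSubtypeNe ((1 : G) : G ⧸ caN t))).symm
  have hstab : MulAction.stabilizer G ((1 : G) : G ⧸ caN t) = caN t :=
    MulAction.stabilizer_quotient _
  have he : Nat.card ↥(MulAction.stabilizer G ((1 : G) : G ⧸ caN t)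
      ⊓ MulAction.stabilizer G (ω₁ : G ⧸ caN t) : Subgroup G) = (cz1 t).relIndex (caN t) := by
    rw [hstab]; exact seK_card h ω₁.2
  have h2D : 2 ∣ Nat.card (cz1 t) := by
    have := Subgroup.orderOf_dvd_natCard (cz1 t) (self_mem_cz1 t)
    rwa [h.invo.orderOf_eq] at this
  have hodd : Odd (Fintype.card (G ⧸ caN t)) := by
    rw [hcardΩ]
    exact Even.add_one ((even_iff_two_dvd).2 h2D)
  haveI hsimple : IsSimpleGroup G := Cfsg.Agent.S0338.result hZ hodd
  have hfix : ∀ u ∈ cz1 t, u ≠ 1 → ∀ c : G ⧸ caN t, u • c = c → c = ((1 : G) : G ⧸ caN t) := by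
    intro u hu hu1 c hc
    by_contra hc1
    exact hu1 (se_free h hu hc1 hc)
  have key := Cfsg.Agent.S0885.result hZ (a := ((1 : G) : G ⧸ caN t))
    (b := (ω₁ : G ⧸ caN t)) ω₁.2.symm (Nat.card (cz1 t)) ((cz1 t).relIndex (caN t)) hcardΩ he
    h.odd (cz1 t) (by rw [hstab]; exact Subgroup.le_normalizer) hcardΩ.symm hfix
  have hcardE := seE_card h
  have hEA : seE h ≤ cz1 t := fun a ha => ha.1
  obtain ⟨P, hP⟩ := hsyl
  rcases key with hle | ⟨h2grp, ⟨u, v, huv⟩, -⟩
  · -- the elementary abelian case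
    have hdvd := Subgroup.card_dvd_of_le hEA
    have hEq : seE h = cz1 t := by
      apply Subgroup.eq_of_le_of_card_ge hEA
      obtain ⟨d, hd⟩ := hdvd
      rw [hd, hcardE]
      rw [hd, hcardE] at hle
      have hd1 : d ≤ 1 := by
        by_contra hcon
        push Not at hcon
        have : ((cz1 t).relIndex (caN t) + 1) * 2 ≤ ((cz1 t).relIndex (caN t) + 1) * d :=
          Nat.mul_le_mul_left _ hcon
        omega
      calc ((cz1 t).relIndex (caN t) + 1) * d ≤ ((cz1 t).relIndex (caN t) + 1) * 1 :=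
            Nat.mul_le_mul_left _ hd1
        _ = (cz1 t).relIndex (caN t) + 1 := mul_one _
    have helem : ∀ c ∈ cz1 t, c * c = 1 := by
      intro c hc
      have hcE : c ∈ seE h := by rw [hEq]; exact hc
      exact hcE.2
    have hcardA : Nat.card (cz1 t) = (cz1 t).relIndex (caN t) + 1 :=
      (congrArg (fun H : Subgroup G => Nat.card H) hEq).symm.trans hcardE
    have hAp : IsPGroup 2 (cz1 t) := by
      intro g
      refine ⟨1, ?_⟩
      rw [pow_one, pow_two]
      exact Subtype.ext (helem g g.2)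
    have hPA : cz1 t = (P : Subgroup G) := P.is_maximal' hAp hP
    have hcard4 : 4 ≤ Nat.card (P : Subgroup G) := by
      rw [← hPA, hcardA]
      obtain ⟨m, hm⟩ := h.odd
      omega
    have hnc : ¬ IsCyclic (P : Subgroup G) := by
      intro hcyc
      obtain ⟨g, hg⟩ := IsCyclic.exists_ofOrder_eq_natCard (α := (P : Subgroup G))
      have hg2 : g ^ 2 = 1 := by
        rw [pow_two]; exact Subtype.ext (helem g (hP g.2))
      have hle' := orderOf_le_of_pow_eq_one (by norm_num) hg2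
      omega
    have hcomm : ∀ a ∈ cz1 t, ∀ b ∈ cz1 t, a * b = b * a :=
      fun a ha b hb => se_invo_central h ha (helem a ha) hb
    have hnn : ¬ (P : Subgroup G).Normal := by
      intro hn
      have hbot := hnab (P : Subgroup G) hn (by rw [← hPA]; exact hcomm)
      have htP : t ∈ (P : Subgroup G) := by rw [← hPA]; exact self_mem_cz1 t
      rw [hbot, Subgroup.mem_bot] at htP
      exact h.invo.1 htP
    have hC : ∀ t' : G, orderOf t' = 2 →
        IsMulCommutative (Subgroup.centralizer ({t'} : Set G)) ∧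
          ∀ c ∈ Subgroup.centralizer ({t'} : Set G), c ^ 2 = 1 := by
      intro t' ht'
      have ht'' := isInvo_of_orderOf ht'
      obtain ⟨g, rfl⟩ := h.conj ht''
      have hsq : ∀ c ∈ cz1 (g * t * g⁻¹), c * c = 1 := by
        intro c hc
        have hc' : g⁻¹ * c * g ∈ cz1 t := by
          rw [mem_cz1] at hc ⊢
          calc g⁻¹ * c * g * t = g⁻¹ * (c * (g * t * g⁻¹)) * g := by group
            _ = g⁻¹ * ((g * t * g⁻¹) * c) * g := by rw [hc]
            _ = t * (g⁻¹ * c * g) := by group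
        have h1 := helem _ hc'
        calc c * c = g * ((g⁻¹ * c * g) * (g⁻¹ * c * g)) * g⁻¹ := by group
          _ = 1 := by rw [h1]; group
      refine ⟨⟨⟨fun a b => Subtype.ext ?_⟩⟩, fun c hc => by rw [pow_two]; exact hsq c hc⟩
      have ha := hsq a a.2
      have hb := hsq b b.2
      have hab := hsq ((a : G) * (b : G)) ((cz1 _).mul_mem a.2 b.2)
      have hai : (a : G)⁻¹ = a := inv_eq_of_mul_eq_one_left ha
      have hbi : (b : G)⁻¹ = b := inv_eq_of_mul_eq_one_left hb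
      have habi : ((a : G) * (b : G))⁻¹ = (a : G) * (b : G) := inv_eq_of_mul_eq_one_left hab
      rw [mul_inv_rev, hai, hbi] at habi
      exact habi.symm
    obtain ⟨F, hF1, hF2, hcardF, ⟨hiso⟩⟩ := Cfsg.Agent.S1230.result P hnc hnn hC
    have h2 := P.card_eq_multiplicity
    have hn2 : 2 ≤ (Nat.card G).factorization 2 := by
      by_contra hcon
      push Not at hcon
      have h3 : 2 ^ (Nat.card G).factorization 2 ≤ 2 ^ 1 :=
        Nat.pow_le_pow_right (by norm_num) (by omega)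
      omega
    refine ⟨(Nat.card G).factorization 2, hn2, ?_⟩
    letI : Fintype (GaloisField 2 ((Nat.card G).factorization 2)) := Fintype.ofFinite _
    have hcc : Fintype.card F = Fintype.card (GaloisField 2 ((Nat.card G).factorization 2)) := by
      rw [hcardF, h2, ← Nat.card_eq_fintype_card, GaloisField.card 2 _ (by omega)]
    exact ⟨hiso.trans (Cfsg.Agent.Helper57.pslCongr (FiniteField.ringEquivOfCardEq hcc))⟩
  · -- the Suzuki case is impossible
    exfalso
    have hUle : cz1 t ≤ MulAction.stabilizer G ((1 : G) : G ⧸ caN t) := by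
      rw [hstab]; exact Subgroup.le_normalizer
    have hUn : ∀ h' ∈ MulAction.stabilizer G ((1 : G) : G ⧸ caN t), ∀ u ∈ cz1 t,
        h' * u * h'⁻¹ ∈ cz1 t := by
      intro h' hh' u hu
      rw [hstab] at hh'
      exact (Subgroup.mem_normalizer_iff.1 hh' u).1 hu
    have hreg : ∀ c d : G ⧸ caN t, c ≠ ((1 : G) : G ⧸ caN t) → d ≠ ((1 : G) : G ⧸ caN t) →
        ∃! u : cz1 t, (u : G) • c = d := by
      intro c d hc hd
      obtain ⟨a, ha, had⟩ := se_trans h hk1 hc hd
      refine ⟨⟨a, ha⟩, had, ?_⟩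
      intro u' hu'
      have h2 : ((a : G)⁻¹ * (u' : G)) • c = c := by
        rw [mul_smul, hu', ← had, smul_smul, inv_mul_cancel, one_smul]
      have h3 := se_free h ((cz1 t).mul_mem ((cz1 t).inv_mem ha) u'.2) hc h2
      exact Subtype.ext (inv_mul_eq_one.1 h3).symm
    obtain ⟨n, -, hn1, hcardn, -, hcardK, -⟩ := Cfsg.Agent.S1147.result hZ
      (a := ((1 : G) : G ⧸ caN t)) (b := (ω₁ : G ⧸ caN t)) ω₁.2.symm (cz1 t) hUle hUn hreg h2grp
      ⟨(u : G), u.2, (v : G), v.2, fun e => huv (Subtype.ext e)⟩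
    have hD : Nat.card (cz1 t) = 2 ^ (2 * n) := by
      rw [Nat.card_eq_fintype_card, hcardΩ] at hcardn
      omega
    have hk : (cz1 t).relIndex (caN t) = 2 ^ n - 1 := by rw [← he]; exact hcardK
    have hpos : 1 ≤ 2 ^ n := Nat.one_le_two_pow
    have hE : Nat.card (seE h) = 2 ^ n := by rw [hcardE, hk]; omega
    have hy1 : (u : G) ≠ 1 := by
      intro e
      apply huv
      apply Subtype.ext
      show (u : G) * (v : G) = (v : G) * (u : G)
      rw [e, one_mul, mul_one]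
    have hCD : cz1 (u : G) ≤ cz1 t := h.cent u.2 hy1
    have hEC : seE h ≤ cz1 (u : G) := by
      intro a ha
      exact mem_cz1.2 (se_invo_central h ha.1 ha.2 u.2)
    have huE : (u : G) ∉ seE h := by
      intro hu
      apply huv
      apply Subtype.ext
      exact se_invo_central h hu.1 hu.2 v.2
    have hvC : (v : G) ∉ cz1 (u : G) := by
      intro hv
      apply huv
      apply Subtype.ext
      exact (mem_cz1.1 hv).symm
    have hd1 := Subgroup.card_dvd_of_le hCD
    rw [hD] at hd1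
    obtain ⟨a, ha, hCa⟩ := (Nat.dvd_prime_pow Nat.prime_two).1 hd1
    have hna : n ≤ a := by
      have := Subgroup.card_dvd_of_le hEC
      rw [hE, hCa] at this
      exact (Nat.pow_dvd_pow_iff_le_right (by norm_num)).1 this
    have hna' : n ≠ a := by
      intro e
      apply huE
      have : seE h = cz1 (u : G) := by
        apply Subgroup.eq_of_le_of_card_ge hEC
        rw [hE, hCa, e]
      rw [this]; exact self_mem_cz1 _
    have ha2 : a ≠ 2 * n := by
      intro e
      apply hvC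
      have : cz1 (u : G) = cz1 t := by
        apply Subgroup.eq_of_le_of_card_ge hCD
        rw [hD, hCa, e]
      rw [this]; exact v.2
    have hdvd := card_dvd_of_semiregular (caK t (ω₁ : G ⧸ caN t)) (cz1 (u : G))
      (fun x hx s hs =>
        (Subgroup.mem_normalizer_iff.1 (hnorm (u : G) u.2 (Subgroup.mem_inf.1 hx).1) s).1 hs)
      (fun x hx s hs hs1 hxs => by
        have hxs' : x ∈ cz1 s := by
          rw [mem_cz1]
          calc x * s = (x * s * x⁻¹) * x := by group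
            _ = s * x := by rw [hxs]
        have hxD : x ∈ cz1 t := h.cent (hCD hs) hs1 hxs'
        have : x ∈ caK t (ω₁ : G ⧸ caN t) ⊓ cz1 t := Subgroup.mem_inf.2 ⟨hx, hxD⟩
        rwa [seK_inf h ω₁.2, Subgroup.mem_bot] at this)
    rw [seK_card h ω₁.2, hk, hCa] at hdvd
    obtain ⟨b, rfl⟩ : ∃ b, a = n + b := ⟨a - n, by omega⟩
    exact two_pow_sub_one_not_dvd (by omega) (by omega) hdvd

end zass

end Cfsg.Agent.Helper83
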